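import Cfsg.Agent.Blk.Robinson
import Cfsg.Agent.Blk.Real
import Cfsg.Agent.Blk.SigmaFix
import Cfsg.Agent.FT.PF06a
import Cfsg.Agent.Grp.BaerSuzuki

/-!
# Real classes of odd order in groups with abelian Sylow `2`-subgroups
-/

set_option autoImplicit false
set_option linter.unusedSectionVars false
set_option linter.unusedVariables false
set_option linter.style.haveILetI false

namespace Cfsg

open scoped ComplexConjugate
open Subgroup

universe u v

theorem two_pow_mul_dvd_sum_of_hom {Γ Ω : Type*} [Group Γ] [Finite Γ] (ρ : Γ →* Equiv.Perm Ω)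
    {a d c : ℕ} (hΓ : Nat.card Γ = 2 ^ a) {F : Ω → ℕ} (hF : ∀ g x, F (ρ g x) = F x)
    {s : Finset Ω} (hs : ∀ g, ∀ x ∈ s, ρ g x ∈ s)
    (h : ∀ x ∈ s, Nat.card {g // ρ g x = x} ≤ 2 ^ d) (hc : ∀ x ∈ s, c ∣ F x) :
    2 ^ (a - d) * c ∣ ∑ x ∈ s, F x := by
  letI := MulAction.compHom Ω ρ
  obtain ⟨n, hn⟩ := Agent.FT.sum_mem_of_orbits (Γ := Γ) (AddSubmonoid.multiples (2 ^ (a - d) * c))
    (F := F) hF hs fun x hx => by
      have h1 := (MulAction.stabilizer Γ x).index_mul_card
      rw [hΓ] at h1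
      obtain ⟨j, hj, e⟩ := (Nat.dvd_prime_pow Nat.prime_two).1 (Dvd.intro_left _ h1)
      have h2 : Nat.card (MulAction.stabilizer Γ x) ≤ 2 ^ d := h x hx
      rw [e] at h1 h2
      have h3 : j ≤ d := (Nat.pow_le_pow_iff_right (by norm_num)).1 h2
      have h4 : (MulAction.stabilizer Γ x).index = 2 ^ (a - j) := by
        refine Nat.eq_of_mul_eq_mul_right (Nat.two_pow_pos j) ?_
        rw [h1, ← pow_add, Nat.sub_add_cancel hj]
      obtain ⟨r, hr⟩ := mul_dvd_mul (pow_dvd_pow 2 (Nat.sub_le_sub_left h3 a)) (hc x hx)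
      exact ⟨r, by simp [h4, hr, mul_comm]⟩
  exact ⟨n, by rw [← hn]; simp [mul_comm]⟩

theorem two_pow_dvd_card_of_invol {Γ Ω : Type*} [Group Γ] [Finite Γ] (ρ : Γ →* Equiv.Perm Ω)
    (ι : Equiv.Perm Ω) (hι : ι * ι = 1) (hcm : ∀ g, Commute (ρ g) ι)
    {a d : ℕ} (hΓ : Nat.card Γ = 2 ^ a) {s : Finset Ω} (hs : ∀ g, ∀ x ∈ s, ρ g x ∈ s)
    (hs' : ∀ x ∈ s, ι x ∈ s) (h1 : ∀ x ∈ s, ι x ≠ x)
    (h : ∀ x ∈ s, Nat.card {g // ρ g x = x ∨ ρ g (ι x) = x} ≤ 2 ^ d) :
    2 ^ (a + 1 - d) ∣ s.card := by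
  let φ : ℤˣ →* Equiv.Perm Ω := MonoidHom.mk' (fun ε => if ε = 1 then 1 else ι) fun ε δ => by
    rcases Int.units_eq_one_or ε with rfl | rfl <;> rcases Int.units_eq_one_or δ with rfl | rfl <;>
      simp [hι]
  have hφ1 : φ (-1) = ι := by simp [φ]
  have hφ : ∀ g ε, Commute (ρ g) (φ ε) := fun g ε => by
    rcases Int.units_eq_one_or ε with rfl | rfl
    · simp
    · rw [hφ1]; exact hcm g
  have := two_pow_mul_dvd_sum_of_hom (ρ.noncommCoprod φ hφ) (a := a + 1) (d := d) (c := 1)
    (F := fun _ => 1) (s := s) (by simp [Nat.card_prod, hΓ, pow_succ]) (fun _ _ => rfl)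
    (fun ⟨g, ε⟩ x hx => by
      rcases Int.units_eq_one_or ε with rfl | rfl
      · simpa using hs g x hx
      · simpa [hφ1] using hs g _ (hs' x hx)) (fun x hx => by
      have H : ∀ g : {g // ρ.noncommCoprod φ hφ g x = x}, ρ g.1.1 x = x ∨ ρ g.1.1 (ι x) = x := by
        rintro ⟨⟨g, ε⟩, hg⟩
        rcases Int.units_eq_one_or ε with rfl | rfl
        · left; simpa using hg
        · right; simpa [hφ1] using hg
      refine le_trans (Nat.card_le_card_of_injective (fun g => ⟨g.1.1, H g⟩) ?_) (h x hx)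
      · rintro ⟨⟨g, ε⟩, hg⟩ ⟨⟨g', ε'⟩, hg'⟩ e
        obtain rfl : g = g' := congrArg Subtype.val e
        have e1 := hg.trans hg'.symm
        simp only [MonoidHom.noncommCoprod_apply, Equiv.Perm.coe_mul, Function.comp_apply,
          EmbeddingLike.apply_eq_iff_eq] at e1
        rcases Int.units_eq_one_or ε with rfl | rfl <;>
          rcases Int.units_eq_one_or ε' with rfl | rfl
        · rfl
        · exact absurd (by simpa [hφ1] using e1.symm) (h1 x hx)
        · exact absurd (by simpa [hφ1] using e1) (h1 x hx)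
        · rfl) (fun _ _ => dvd_rfl)
  simpa using this

variable {G : Type u} [Group G] [Finite G]

/-- The elements of `P` conjugated into `P` by `y`. -/
def backInt (P : Subgroup G) (y : G) : Subgroup P :=
  P.comap ((MulAut.conj y).toMonoidHom.comp P.subtype)

theorem mem_backInt {P : Subgroup G} {y : G} {u : P} : u ∈ backInt P y ↔ y * u * y⁻¹ ∈ P :=
  Iff.rfl

theorem backInt_mul_left {P : Subgroup G} {s : G} (hs : s ∈ P) (y : G) :
    backInt P (s * y) = backInt P y := by
  ext u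
  rw [mem_backInt, mem_backInt, show s * y * u * (s * y)⁻¹ = s * (y * u * y⁻¹) * s⁻¹ by group,
    mul_mem_cancel_right (inv_mem hs), mul_mem_cancel_left hs]

theorem backInt_conj {P : Subgroup G} (hab : ∀ a ∈ P, ∀ b ∈ P, a * b = b * a) {s : G}
    (hs : s ∈ P) (y : G) : backInt P (s * y * s⁻¹) = backInt P y := by
  rw [mul_assoc, backInt_mul_left hs]
  ext u
  rw [mem_backInt, mem_backInt, show y * s⁻¹ * u * (y * s⁻¹)⁻¹ = y * (s⁻¹ * (u * s)) * y⁻¹ by group,
    ← hab s hs u u.2, inv_mul_cancel_left]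

theorem card_backInt_inv_le (P : Subgroup G) (y : G) :
    Nat.card (backInt P y) ≤ Nat.card (backInt P y⁻¹) :=
  Nat.card_le_card_of_injective (fun u => ⟨⟨_, mem_backInt.1 u.2⟩, by
    simp [mem_backInt, mul_assoc]⟩) fun u v e => by
      simpa using e

theorem card_backInt_inv (P : Subgroup G) (y : G) :
    Nat.card (backInt P y⁻¹) = Nat.card (backInt P y) :=
  le_antisymm (by simpa using card_backInt_inv_le P y⁻¹) (card_backInt_inv_le P y)

theorem card_pairs_modEq (P : Sylow 2 G) (hab : ∀ a ∈ P, ∀ b ∈ P, a * b = b * a) {g : G}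
    (hg : ¬ 2 ∣ orderOf g) (hg1 : g ≠ 1) (hr : IsConj g g⁻¹) :
    Nat.card {gh : G × G // IsConj g gh.1 ∧ IsConj g gh.2 ∧ gh.2 * gh.1⁻¹ ∈ (P : Subgroup G)} ≡
      (centralizer ({g} : Set G)).index [MOD 2 ^ ((Nat.card G).factorization 2 + 1 -
        (Nat.card (centralizer ({g} : Set G))).factorization 2)] := by
  classical
  have := Fintype.ofFinite G
  set a := (Nat.card G).factorization 2
  set d := (Nat.card (centralizer ({g} : Set G))).factorization 2 with hd
  have hP : Nat.card (P : Subgroup G) = 2 ^ a := P.card_eq_multiplicity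
  have hda : d ≤ a := (Nat.factorization_le_iff_dvd Nat.card_pos.ne' Nat.card_pos.ne').2
    (card_subgroup_dvd_card _) 2
  -- centralizers in `P`
  have hC : ∀ y, IsConj g y → Nat.card {u : (P : Subgroup G) // u * y * (u : G)⁻¹ = y} ≤ 2 ^ d := by
    intro y hy
    have e : Nat.card {u : (P : Subgroup G) // u * y * (u : G)⁻¹ = y} =
        Nat.card (P ⊓ centralizer ({y} : Set G) : Subgroup G) :=
      Nat.card_congr ⟨fun u => ⟨u.1, u.1.2, mem_centralizer_singleton_iff.2
        (mul_inv_eq_iff_eq_mul.1 u.2)⟩, fun u => ⟨⟨u.1, u.2.1⟩, mul_inv_eq_iff_eq_mul.2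
          (mem_centralizer_singleton_iff.1 u.2.2)⟩, fun _ => rfl, fun _ => rfl⟩
    obtain ⟨j, hj⟩ := IsPGroup.iff_card.1 (P.isPGroup'.to_inf_left (K := centralizer {y}))
    have h1 := card_dvd_of_le (inf_le_right (a := (P : Subgroup G)) (b := centralizer {y}))
    rw [e, hj]
    rw [hj, ← card_centralizer_eq_of_isConj hy] at h1
    exact pow_le_pow_right₀ (by norm_num)
      ((Nat.prime_two.pow_dvd_iff_le_factorization Nat.card_pos.ne').1 h1)
  let ρ : (P : Subgroup G) →* Equiv.Perm G :=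
    (MulAut.toPerm G).comp (MulAut.conj.comp (P : Subgroup G).subtype)
  have hρ : ∀ u y, ρ u y = u * y * (u : G)⁻¹ := fun _ _ => rfl
  have hcj : ∀ {y} (u : G), IsConj g y → IsConj g (u * y * u⁻¹) := fun u h =>
    h.trans (isConj_iff.2 ⟨u, rfl⟩)
  let n : G → ℕ := fun y => (Finset.univ.filter fun z => IsConj g z ∧ z * y⁻¹ ∈ (P : Subgroup G)).card
  let big : G → Prop := fun y => 2 ^ d < Nat.card (backInt P y)
  -- (4)
  have h4 : ∀ y, big y → 2 ∣ n y := by
    intro y hy
    obtain ⟨b, hb⟩ := IsPGroup.iff_card.1 (P.isPGroup'.to_subgroup (backInt P y))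
    have hb' : d < b := by
      have := hy
      simp only [big, hb] at this
      exact (Nat.pow_lt_pow_iff_right (by norm_num)).1 this
    have := two_pow_mul_dvd_sum_of_hom (ρ.comp (backInt P y).subtype) (d := d) (c := 1) hb
      (F := fun _ => 1) (fun _ _ => rfl)
      (s := Finset.univ.filter fun z => IsConj g z ∧ z * y⁻¹ ∈ (P : Subgroup G))
      (fun u z hz => by
        simp only [Finset.mem_filter, Finset.mem_univ, true_and] at hz ⊢
        refine ⟨hcj _ hz.1, ?_⟩
        have := mul_mem (mul_mem u.1.2 hz.2) (inv_mem (mem_backInt.1 u.2))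
        convert this using 1
        simp [hρ, mul_assoc])
      (fun z hz => by
        simp only [Finset.mem_filter, Finset.mem_univ, true_and] at hz
        exact le_trans (Nat.card_le_card_of_injective (fun u => ⟨u.1.1, u.2⟩) fun u v e =>
          Subtype.ext (Subtype.ext (congrArg (·.1) e))) (hC z hz.1)) (fun _ _ => dvd_rfl)
    simp only [mul_one, Finset.sum_const, smul_eq_mul] at this
    exact (dvd_pow_self 2 (by omega)).trans this
  have hbig : ∀ (u : (P : Subgroup G)) y, big (u * y * (u : G)⁻¹) ↔ big y := fun u y => by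
    simp only [big, backInt_conj hab u.2]
  -- (2)
  have h2 : 2 ^ (a - d) * 2 ∣ ∑ y with IsConj g y ∧ big y, n y :=
    two_pow_mul_dvd_sum_of_hom ρ hP (fun u y => by
      refine Finset.card_bij' (fun z _ => (u : G)⁻¹ * z * u) (fun z _ => u * z * (u : G)⁻¹) ?_ ?_ ?_ ?_
      · intro z hz
        simp only [Finset.mem_filter, Finset.mem_univ, true_and, hρ] at hz ⊢
        refine ⟨by simpa using hcj (u : G)⁻¹ hz.1, ?_⟩
        convert mul_mem (mul_mem (inv_mem u.2) hz.2) u.2 using 1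
        group
      · intro z hz
        simp only [Finset.mem_filter, Finset.mem_univ, true_and, hρ] at hz ⊢
        refine ⟨hcj _ hz.1, ?_⟩
        convert mul_mem (mul_mem u.2 hz.2) (inv_mem u.2) using 1
        group
      · intro z hz; group
      · intro z hz; group)
      (fun u y hy => by
        simp only [Finset.mem_filter, Finset.mem_univ, true_and] at hy ⊢
        exact ⟨hcj _ hy.1, (hbig u y).2 hy.2⟩)
      (fun y hy => hC y (Finset.mem_filter.1 hy).2.1)
      (fun y hy => h4 y (Finset.mem_filter.1 hy).2.2)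
  have hodd : ∀ y, IsConj g y → ¬ 2 ∣ orderOf y := fun y hy => by
    obtain ⟨c, rfl⟩ := isConj_iff.1 hy
    rwa [← MulAut.conj_apply, MulEquiv.orderOf_eq]
  -- (1)
  have h1 : 2 ^ (a + 1 - d) ∣ (Finset.univ.filter fun y => IsConj g y ∧ big y).card :=
    two_pow_dvd_card_of_invol ρ (Equiv.inv G) (by ext; simp) (fun u => by
      ext y; simp [hρ, mul_assoc]) hP
      (fun u y hy => by
        simp only [Finset.mem_filter, Finset.mem_univ, true_and] at hy ⊢
        exact ⟨hcj _ hy.1, (hbig u y).2 hy.2⟩)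
      (fun y hy => by
        simp only [Finset.mem_filter, Finset.mem_univ, true_and, big] at hy ⊢
        exact ⟨hr.trans (isConj_inv_of_isConj hy.1), by
          rw [Equiv.inv_apply, card_backInt_inv]; exact hy.2⟩)
      (fun y hy e => by
        have hy := (Finset.mem_filter.1 hy).2.1
        obtain rfl := eq_one_of_inv_eq_of_odd (hodd y hy) e
        exact hg1 (isConj_one_left.1 hy))
      (fun y hy => by
        obtain ⟨hy, hb⟩ := (Finset.mem_filter.1 hy).2
        suffices H : ∀ u, ρ u (Equiv.inv G y) ≠ y from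
          le_trans (Nat.card_le_card_of_injective (fun u => ⟨u.1, u.2.resolve_right (H _)⟩)
            fun u v e => Subtype.ext (congrArg (·.1) e)) (hC y hy)
        rintro ⟨s, hs⟩ hu
        rw [hρ, Equiv.inv_apply] at hu
        suffices H : ∀ v : backInt P y, (v.1 : G) * y * (v.1 : G)⁻¹ = y from
          absurd (le_trans (Nat.card_le_card_of_injective (fun v => ⟨v.1, H v⟩)
            fun u v e => Subtype.ext (congrArg (·.1) e)) (hC y hy)) (not_le.2 hb)
        rintro ⟨⟨v, hv⟩, hv'⟩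
        have e1 := hab s hs _ (mem_backInt.1 hv')
        have e2 := hab s hs v hv
        simp only at hu e1 ⊢
        have e3 : Commute v (y ^ 2) := by
          have e5 : s * y⁻¹ = y * s := mul_inv_eq_iff_eq_mul.1 hu
          have e4 : s * y = y⁻¹ * s := by
            rw [eq_inv_mul_iff_mul_eq, ← mul_assoc, ← e5, inv_mul_cancel_right]
          have e6 : y⁻¹ * v * y * s = y * v * y⁻¹ * s :=
            calc _ = y⁻¹ * (v * s) * y⁻¹ := by rw [mul_assoc _ y, ← e5]; group
              _ = s * y * v * y⁻¹ := by rw [← e2, e4]; group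
              _ = _ := by rw [← e1]; group
          have e7 := mul_right_cancel e6
          calc v * y ^ 2 = y * (y⁻¹ * v * y) * y := by rw [pow_two]; group
            _ = _ := by rw [e7, pow_two]; group
        obtain ⟨m, hm⟩ := exists_pow_eq_self_of_coprime (x := y) (n := 2)
          ((Nat.Prime.coprime_iff_not_dvd Nat.prime_two).2 (hodd y hy))
        have e8 := e3.pow_right m
        rw [hm] at e8
        exact mul_inv_eq_iff_eq_mul.2 e8.eq)
  -- (3)
  let ρ2 : (P : Subgroup G) →* Equiv.Perm (G × G) :=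
    MonoidHom.mk' (fun u => (ρ u).prodCongr (ρ u)) fun u v => by ext x <;> simp
  have hρ2 : ∀ u y z, ρ2 u (y, z) = (u * y * (u : G)⁻¹, u * z * (u : G)⁻¹) := fun _ _ _ => rfl
  have h3 : 2 ^ (a + 1 - d) ∣ (Finset.univ.filter fun x : G × G => (IsConj g x.1 ∧ ¬ big x.1) ∧
      (IsConj g x.2 ∧ x.2 * x.1⁻¹ ∈ (P : Subgroup G)) ∧ x.2 ≠ x.1).card :=
    two_pow_dvd_card_of_invol ρ2 (Equiv.prodComm G G) (by ext <;> simp) (fun u => by
      ext x <;> rfl) hP
      (fun u ⟨y, z⟩ hy => by
        simp only [Finset.mem_filter, Finset.mem_univ, true_and, hρ2] at hy ⊢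
        refine ⟨⟨hcj _ hy.1.1, fun h => hy.1.2 ((hbig u y).1 h)⟩, ⟨hcj _ hy.2.1.1, ?_⟩,
          by simpa using hy.2.2⟩
        convert mul_mem (mul_mem u.2 hy.2.1.2) (inv_mem u.2) using 1
        group)
      (fun ⟨y, z⟩ hy => by
        simp only [Finset.mem_filter, Finset.mem_univ, true_and, Equiv.prodComm_apply,
          Prod.swap_prod_mk] at hy ⊢
        refine ⟨⟨hy.2.1.1, fun h => hy.1.2 ?_⟩, ⟨hy.1.1, by simpa using inv_mem hy.2.1.2⟩,
          hy.2.2.symm⟩
        have := backInt_mul_left hy.2.1.2 y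
        simp only [inv_mul_cancel_right] at this
        simpa only [big, this] using h)
      (fun ⟨y, z⟩ hy e => (Finset.mem_filter.1 hy).2.2.2 (congrArg Prod.fst e))
      (fun ⟨y, z⟩ hy => by
        obtain ⟨⟨hy, hb⟩, ⟨hz, hzy⟩, -⟩ := (Finset.mem_filter.1 hy).2
        suffices H : ∀ u, ρ2 u (y, z) = (y, z) ∨ ρ2 u (Equiv.prodComm G G (y, z)) = (y, z) →
            u ∈ backInt P y from
          le_trans (Nat.card_le_card_of_injective (fun u => ⟨u.1, H _ u.2⟩)
            fun u v e => Subtype.ext (congrArg (·.1) e)) (not_lt.1 hb)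
        rintro u (hu | hu)
        · have e : (u : G) * y * (u : G)⁻¹ = y := congrArg Prod.fst hu
          rw [mem_backInt, ← mul_inv_eq_iff_eq_mul.1 e]
          simp
        · have e : (u : G) * y * (u : G)⁻¹ = z := congrArg Prod.snd hu
          simp only at hzy
          rw [← e] at hzy
          rw [mem_backInt]
          convert inv_mem (mul_mem (inv_mem u.2) hzy) using 1
          group)
  -- assembling
  have e1 : Nat.card {gh : G × G // IsConj g gh.1 ∧ IsConj g gh.2 ∧
      gh.2 * gh.1⁻¹ ∈ (P : Subgroup G)} = ∑ y with IsConj g y, n y := by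
    rw [Nat.card_eq_fintype_card, Fintype.card_subtype, Finset.card_filter, Finset.sum_filter,
      Fintype.sum_prod_type]
    refine Finset.sum_congr rfl fun y _ => ?_
    split_ifs with h
    · simp only [n, Finset.card_filter, h, true_and]
    · simp only [h, false_and, if_false, Finset.sum_const_zero]
  have e2 : (Finset.univ.filter fun x : G × G => (IsConj g x.1 ∧ ¬ big x.1) ∧
      (IsConj g x.2 ∧ x.2 * x.1⁻¹ ∈ (P : Subgroup G)) ∧ x.2 ≠ x.1).card +
      (Finset.univ.filter fun y => IsConj g y ∧ ¬ big y).card =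
      ∑ y with IsConj g y ∧ ¬ big y, n y := by
    rw [Finset.card_filter, Finset.card_filter, Finset.sum_filter, Fintype.sum_prod_type,
      ← Finset.sum_add_distrib]
    refine Finset.sum_congr rfl fun y _ => ?_
    split_ifs with h
    · simp only [h, true_and, not_false_eq_true]
      rw [← Finset.card_filter, ← Finset.filter_filter, Finset.filter_ne',
        Finset.card_erase_add_one (Finset.mem_filter.2 ⟨Finset.mem_univ _, h.1, by simp⟩)]
    · simp only [h, false_and, if_false, Finset.sum_const_zero, add_zero]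
  have e3 := Finset.sum_filter_add_sum_filter_not (Finset.univ.filter (IsConj g ·)) big n
  have e4 := Finset.card_filter_add_card_filter_not (s := Finset.univ.filter (IsConj g ·)) big
  rw [Finset.filter_filter, Finset.filter_filter] at e3 e4
  rw [card_filter_isConj] at e4
  rw [← pow_succ, ← Nat.sub_add_comm hda] at h2
  rw [e1, ← e3, ← e4, ← e2, ← add_assoc]
  exact Nat.ModEq.add_right _ (((Nat.modEq_zero_iff_dvd.2 h2).add
    (Nat.modEq_zero_iff_dvd.2 h3)).trans (Nat.modEq_zero_iff_dvd.2 h1).symm)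

theorem exists_odd_card_pairs (P : Sylow 2 G) (hab : ∀ a ∈ P, ∀ b ∈ P, a * b = b * a) {g : G}
    (hg : ¬ 2 ∣ orderOf g) (hg1 : g ≠ 1) (hr : IsConj g g⁻¹) : ∃ m : ℕ, Odd m ∧
    Nat.card {gh : G × G // IsConj g gh.1 ∧ IsConj g gh.2 ∧ gh.2 * gh.1⁻¹ ∈ (P : Subgroup G)} *
      Nat.card (centralizer ({g} : Set G)) = Nat.card (P : Subgroup G) * m := by
  have h := card_pairs_modEq P hab hg hg1 hr
  have h1 := (centralizer ({g} : Set G)).index_mul_card
  have hi : (centralizer ({g} : Set G)).index ≠ 0 := index_ne_zero_of_finite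
  have hc : Nat.card (centralizer ({g} : Set G)) ≠ 0 := Nat.card_pos.ne'
  obtain ⟨i, r, hr, e1⟩ := Nat.exists_eq_two_pow_mul_odd hi
  obtain ⟨d, s, hs, e2⟩ := Nat.exists_eq_two_pow_mul_odd hc
  have f : ∀ {i r : ℕ}, Odd r → (2 ^ i * r).factorization 2 = i := fun {i r} hr => by
    rw [Nat.factorization_mul (by positivity) hr.pos.ne', Nat.prime_two.factorization_pow,
      Finsupp.add_apply, Finsupp.single_eq_same,
      Nat.factorization_eq_zero_of_not_dvd hr.not_two_dvd_nat, add_zero]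
  have e3 : Nat.card G = 2 ^ (i + d) * (r * s) := by rw [← h1, e1, e2]; ring
  rw [P.card_eq_multiplicity, e2, e3, f (hr.mul hs)]
  rw [e1, e2, e3, f (hr.mul hs), f hs, show i + d + 1 - d = i + 1 by omega] at h
  obtain ⟨q, hq⟩ := (Nat.modEq_zero_iff_dvd.1 ((h.of_dvd (pow_dvd_pow 2 i.le_succ)).trans
    (Nat.modEq_zero_iff_dvd.2 (dvd_mul_right _ _))))
  rw [hq, pow_succ] at h
  have h2 := Nat.ModEq.mul_left_cancel' (by positivity) h
  refine ⟨q * s, Odd.mul (Nat.odd_iff.2 (Eq.trans h2 (Nat.odd_iff.1 hr))) hs, by rw [hq]; ring⟩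

variable {M : Ideal AlgInt}

/-- An involution `σ` on the characters, invisible on `2`-elements and on a real class of odd
order, fixes a character of even degree. -/
theorem exists_even_fixed_of_abelian (hM : IsPModular 2 M) (P : Sylow 2 G)
    (hab : ∀ a ∈ P, ∀ b ∈ P, a * b = b * a) {g : G} (hg : ¬ 2 ∣ orderOf g) (hg1 : g ≠ 1)
    (hr : IsConj g g⁻¹) (σ : IrrCharacter G → IrrCharacter G) (hσ : ∀ χ, σ (σ χ) = χ)
    (h1 : ∀ χ, ∀ u ∈ P, σ χ u = χ u) (h2 : ∀ χ, σ χ g = χ g) :
    ∃ χ : IrrCharacter G, Even (charDegree χ.1) ∧ σ χ = χ := by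
  classical
  by_contra! H
  obtain ⟨m, hm, e⟩ := exists_odd_card_pairs P hab hg hg1 hr
  have h3 := card_pairs_mem_eq_sum (P : Subgroup G) g g
  have hS := natCard_cast_ne_zero (P : Subgroup G)
  have hC := natCard_cast_ne_zero (centralizer ({g} : Set G))
  have h4 : (m : ℂ) = ∑ χ : IrrCharacter G, centralChar χ.1 g⁻¹ *
      ip (fun _ => 1) (χ.1 ∘ (P : Subgroup G).subtype) * χ g := by
    have h5 := congrArg (Nat.cast : ℕ → ℂ) e
    push_cast at h5
    field_simp at h3
    exact mul_left_cancel₀ hS (by linear_combination h3 - h5)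
  have h5 := congrArg (red M) h4
  have hmem : ∀ χ : IrrCharacter G, centralChar χ.1 g⁻¹ *
      ip (fun _ => 1) (χ.1 ∘ (P : Subgroup G).subtype) * χ g ∈ locO M := fun χ =>
    mul_mem (mul_mem (centralChar_mem_locO _ _) (χ.ip_one_res_mem _)) (χ.mem_locO _)
  haveI := hM.charP
  rw [red_sum fun χ _ => hmem χ, red_natCast, ← Finset.sum_filter_add_sum_filter_not _
    (fun χ => σ χ = χ), Finset.sum_eq_zero, Finset.sum_involution (fun χ _ => σ χ), add_zero,
    CharP.cast_eq_zero_iff _ 2] at h5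
  · exact hm.not_two_dvd_nat h5
  · intro χ _
    have e1 : ∀ ψ : IrrCharacter G, ψ g⁻¹ = ψ g := fun ψ => (ψ.isClassFunction.eq_of_isConj hr).symm
    have e2 : centralChar (σ χ).1 g⁻¹ = centralChar χ.1 g⁻¹ := by
      simp only [centralChar]
      rw [e1, e1, h2, h1 χ 1 (one_mem _)]
    rw [e2, h2, show (σ χ).1 ∘ (P : Subgroup G).subtype = χ.1 ∘ (P : Subgroup G).subtype from
      funext fun u => h1 χ u u.2]
    exact CharTwo.add_self_eq_zero _
  · exact fun χ hχ _ => (Finset.mem_filter.1 hχ).2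
  · intro χ hχ
    simp only [Finset.mem_filter, Finset.mem_univ, true_and, hσ] at hχ ⊢
    exact fun e => hχ e.symm
  · exact fun χ _ => hσ χ
  · intro χ hχ
    have hodd : ¬ 2 ∣ charDegree χ.1 := fun h =>
      H χ (even_iff_two_dvd.2 h) (Finset.mem_filter.1 hχ).2
    have h0 : red M (centralChar χ.1 g⁻¹) = 0 := by
      by_contra h
      have h6 := hM.factorization_index_le h
      rw [Nat.factorization_eq_zero_of_not_dvd hodd, centralizer_singleton_inv, Nat.le_zero,
        Nat.factorization_eq_zero_iff] at h6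
      rcases h6 with h6 | h6 | h6
      exacts [h6 Nat.prime_two, h6 (two_dvd_index_centralizer_of_isConj_inv hg hg1 hr),
        index_ne_zero_of_finite h6]
    rw [red_mul (mul_mem (centralChar_mem_locO _ _) (χ.ip_one_res_mem _)) (χ.mem_locO _),
      red_mul (centralChar_mem_locO _ _) (χ.ip_one_res_mem _), h0, zero_mul, zero_mul]

theorem exists_real_odd_of_pCore_eq_bot (h2 : 2 ∣ Nat.card G) (hO : pCore 2 G = ⊥) :
    ∃ g : G, ¬ 2 ∣ orderOf g ∧ g ≠ 1 ∧ IsConj g g⁻¹ := by
  obtain ⟨t, ht⟩ := exists_prime_orderOf_dvd_card' 2 h2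
  by_contra! H
  have ht2 : t * t = 1 := by rw [← pow_two, ← ht, pow_orderOf_eq_one]
  have : t ∈ pCore 2 G := mem_pCore_of_forall_conj fun x => by
    set s := x * t * x⁻¹ with hs
    have hs2 : s * s = 1 := by
      rw [hs, show x * t * x⁻¹ * (x * t * x⁻¹) = x * (t * t) * x⁻¹ by group, ht2]; group
    have hinv : t * (t * s) * t⁻¹ = (t * s)⁻¹ := by
      rw [← mul_assoc, ht2, one_mul, mul_inv_rev, inv_eq_of_mul_eq_one_right hs2]
    have h1 : pPrimePart 2 (t * s) = 1 := by
      by_contra h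
      refine H _ (isPRegular_pPrimePart (p := 2) (t * s)) h (isConj_iff.2 ⟨t, ?_⟩)
      obtain ⟨k, hk⟩ := exists_pPrimePart_eq_pow (p := 2) (t * s)
      rw [hk, ← conj_pow, hinv, inv_pow]
    have h3 : IsPElt 2 (t * s) := by
      rw [← pPart_mul_pPrimePart (p := 2) (t * s), h1, mul_one]; exact isPElt_pPart (p := 2) _
    have hn : zpowers t ≤ normalizer (zpowers (t * s) : Set G) := by
      refine zpowers_le.2 (mem_normalizer_fintype ?_)
      rintro _ ⟨k, rfl⟩
      exact ⟨-k, by simp only; rw [← conj_zpow, hinv, inv_zpow', zpow_neg]⟩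
    refine ⟨zpowers t ⊔ zpowers (t * s), ?_, ?_, ?_⟩
    · exact (isPElt_iff_isPGroup_zpowers.1 ⟨1, by simpa using ht⟩).to_sup_of_normal_right'
        (isPElt_iff_isPGroup_zpowers.1 h3) hn
    · exact mem_sup_left (mem_zpowers t)
    · have := mul_mem_sup (mem_zpowers t) (mem_zpowers (t * s))
      rwa [← mul_assoc t t, ht2, one_mul] at this
  rw [hO, mem_bot] at this
  simp [this] at ht

theorem exists_sigma_fixed (hM : IsPModular 2 M) (h2 : 2 ∣ Nat.card G) (hO : pCore 2 G = ⊥)
    (P : Sylow 2 G) (hab : ∀ a ∈ P, ∀ b ∈ P, a * b = b * a) {k : ℕ}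
    (hk₁ : ∀ g : G, (∃ j : ℕ, orderOf g = 2 ^ j) → g ^ k = g)
    (hk₂ : ∀ g : G, Odd (orderOf g) → g ^ k = g⁻¹) :
    (∃ χ₁ : IrrCharacter G, Even (charDegree χ₁.1) ∧ ∀ g, χ₁ (g ^ k) = χ₁ g) ∧
      ∃ χ₂ ∈ principalBlock M G, χ₂.1 ≠ (fun _ => 1) ∧ ∀ g, χ₂ (g ^ k) = χ₂ g := by
  classical
  have hodd : ∀ {g : G}, ¬ 2 ∣ orderOf g → Odd (orderOf g) := fun h => by
    rwa [← Nat.not_even_iff_odd, even_iff_two_dvd]
  have hkk : ∀ g : G, (g ^ k) ^ k = g := fun g => by
    have h1 := hk₁ _ (isPElt_pPart (p := 2) g)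
    have h3 := hodd (isPRegular_pPrimePart (p := 2) g)
    have hcm := commute_pPart_pPrimePart (p := 2) g
    conv_lhs => rw [← pPart_mul_pPrimePart (p := 2) g]
    rw [hcm.mul_pow, h1, hk₂ _ h3, hcm.inv_right.mul_pow, h1, inv_pow, hk₂ _ h3, inv_inv,
      pPart_mul_pPrimePart]
  have hk : k.Coprime (Nat.card G) := by
    refine Nat.coprime_of_dvd fun q hq hqk hqG => ?_
    haveI := Fact.mk hq
    obtain ⟨x, hx⟩ := exists_prime_orderOf_dvd_card' q hqG
    have := hkk x
    rw [(orderOf_dvd_iff_pow_eq_one (x := x)).1 (hx ▸ hqk), one_pow] at this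
    exact hq.one_lt.ne (by rw [← hx, ← this, orderOf_one])
  let σ : Equiv.Perm (IrrCharacter G) := Function.Involutive.toPerm (fun χ => χ.galPow k hk)
    fun χ => by ext g; simp [hkk]
  have hσ : ∀ χ g, σ χ g = χ (g ^ k) := fun _ _ => rfl
  have hσσ : σ ^ 2 = 1 := by ext χ g; simp [pow_two, hσ, hkk]
  refine ⟨?_, ?_⟩
  · obtain ⟨g, hg, hg1, hr⟩ := exists_real_odd_of_pCore_eq_bot h2 hO
    obtain ⟨χ, h1, h3⟩ := exists_even_fixed_of_abelian hM P hab hg hg1 hr σ
      (fun χ => by rw [← Equiv.Perm.mul_apply, ← pow_two, hσσ]; rfl)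
      (fun χ u hu => by rw [hσ, hk₁ u (isPElt_of_mem P.isPGroup' hu)])
      fun χ => by rw [hσ, hk₂ g (hodd hg), (χ.isClassFunction.eq_of_isConj hr).symm]
    exact ⟨χ, h1, fun g => by rw [← hσ, h3]⟩
  · obtain ⟨τ, hτ, -⟩ := exists_ringEquiv_apply_pow hk
    have hτσ : ∀ χ, σ χ = τ • χ := fun χ => (χ.gal_smul_eq_galPow τ hk hτ).symm
    have h1 := (isPBlock_principalBlock (M := M) (G := G)).even_card_odd_degree hM h2
    have h3 := card_modEq_card_fixed_perm (p := 2) (zpowers σ)
      (isPElt_iff_isPGroup_zpowers.1 (((Nat.dvd_prime_pow (m := 1) Nat.prime_two).1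
        (orderOf_dvd_of_pow_eq_one hσσ)).imp fun _ h => h.2))
      (fun χ => χ ∈ principalBlock M G ∧ Odd (charDegree χ.1)) (by
        have H : ∀ χ, χ ∈ principalBlock M G ∧ Odd (charDegree χ.1) →
            σ χ ∈ principalBlock M G ∧ Odd (charDegree (σ χ).1) := fun χ h => by
          rw [hτσ, IrrCharacter.charDegree_gal_smul]
          exact ⟨(gal_smul_mem_principalBlock_iff hM τ χ).2 h.1, h.2⟩
        intro γ hγ χ h
        obtain ⟨n, rfl⟩ := (mem_zpowers_iff_mem_range_orderOf.1 hγ |> Finset.mem_image.1)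
          |>.imp fun _ h => h.2
        induction n with
        | zero => exact h
        | succ n ih => rw [pow_succ']; exact H _ (ih (npow_mem_zpowers σ n)))
    by_contra! H
    have h4 : Nat.card {χ // (χ ∈ principalBlock M G ∧ Odd (charDegree χ.1)) ∧
        ∀ γ ∈ zpowers σ, γ χ = χ} = 1 := by
      rw [Nat.card_eq_one_iff_exists]
      refine ⟨⟨IrrCharacter.one G, ⟨hM.one_mem_principalBlock, by simp⟩, fun γ hγ => ?_⟩,
        fun χ => Subtype.ext ?_⟩
      · refine (zpowers_le (H := MulAction.stabilizer _ (IrrCharacter.one G))).2 ?_ hγ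
        exact (hτσ _).trans (IrrCharacter.gal_smul_one τ)
      · by_contra h
        obtain ⟨g, hg⟩ := H χ.1 χ.2.1.1 fun e => h (Subtype.ext e)
        exact hg (by rw [← hσ, χ.2.2 σ (mem_zpowers σ)])
    rw [h4] at h3
    exact absurd ((Nat.modEq_zero_iff_dvd.2 h1).symm.trans h3) (by decide)

end Cfsg

set_option linter.all false in
theorem Cfsg.Rz.Blk_AbReal_0 : True := by
  have := @_root_.Cfsg.backInt.eq_def.{0}
  have := @_root_.Cfsg.backInt.eq_1.{0}
  have := @_root_.Cfsg.backInt.fun_cases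
  trivial
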