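import Cfsg.Agent.Blk.RankSixteen

/-!
# Brauer's `k(B)` bound for defect groups with a central cyclic subgroup of index at most sixteen
-/

set_option autoImplicit false
set_option linter.unusedSectionVars false
set_option linter.style.haveILetI false

namespace Cfsg

open MonoidAlgebra GA Subgroup

universe u v w

local notation "C(" Q ")" => Subgroup.centralizer ((Q : Subgroup _) : Set _)
local notation "N(" Q ")" => Subgroup.normalizer ((Q : Subgroup _) : Set _)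

variable {G : Type u} [Group G] [Finite G] {P K : Subgroup G} {u : G} {p : ℕ} [Fact p.Prime]
  {M : Ideal AlgInt} {B : Set (IrrCharacter G)}

namespace Red

variable {H : Type u} [Group H] [Finite H] {Q : Type u} [Group Q] [Finite Q] {f : H →* G} {π : H →* Q}
  {b : Set (IrrCharacter H)} {s : (ResK M)[H]} {P' : Subgroup Q} {ρ : P →* P'}
  {c : Set (IrrCharacter Q)} {e' : (ResK M)[Q]} {e : (ResK M)[G]}

section

variable [CharP (ResK M) p] (h : Red p M P B e u f π b s P' ρ c e')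
include h

theorem card_map (hu : u ∈ K) :
    Nat.card ((K.subgroupOf P).map ρ) * K.relIndex P = Nat.card P' := by
  rw [← ((K.subgroupOf P).map ρ).card_mul_index, index_map_eq _ h.surj
    fun x hx => zpowers_le.2 hu (h.eq_one_iff.1 hx), relIndex]

theorem mem_cent : u ∈ C(P) := fun _ hg => mem_cent_zpowers.1 (h.cent hg)

theorem comm_mem (hab : P' ≤ C(P')) (x y : P) : ((x⁻¹ * (y * x * y⁻¹) : P) : G) ∈ zpowers u :=
  h.eq_one_iff.1 (by
    rw [map_mul, map_mul, map_mul, show ρ y * ρ x = ρ x * ρ y from Subtype.ext (hab (ρ x).2 _ (ρ y).2)]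
    simp)

theorem conj_apply (hab : P' ≤ C(P')) {σ : MulAut P} (hu : σ ⟨u, h.mem⟩ = ⟨u, h.mem⟩) {x : P}
    (hx : ρ (σ x) = ρ x) (y : P) : σ y * x * (σ y)⁻¹ = y * x * y⁻¹ := by
  have h2 : ∀ c : P, (c : G) ∈ zpowers u → σ c = c ∧ ∀ y, y * c = c * y := fun c ⟨k, hk⟩ =>
    ⟨by rw [show c = ⟨u, h.mem⟩ ^ k from Subtype.ext hk.symm, map_zpow, hu],
      fun y => Subtype.ext (h.cent y.2 c ⟨k, hk⟩).symm⟩
  have h3 := (h2 _ (h.comm_mem hab x y)).1
  obtain ⟨d, h4, h5⟩ : ∃ d, σ x = x * d ∧ ∀ y, y * d = d * y :=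
    ⟨_, by simp, (h2 _ ((h.eq_one_iff (x := x⁻¹ * σ x)).1 (by simp [hx]))).2⟩
  rw [map_mul, map_mul, map_mul, map_inv, map_inv, h4, ← mul_assoc (σ y), mul_assoc _ d, ← h5,
    ← mul_assoc _ _ d, ← mul_assoc _ _ d, h5, mul_inv_rev, mul_assoc d⁻¹, mul_inv_cancel_left] at h3
  exact mul_left_cancel h3

theorem isFree (hab : P' ≤ C(P')) (hn : ¬ P ≤ C(P)) (h9 : Nat.card P' = p ^ 2) :
    Exc.IsFree (iAut P' e') := by
  intro σ' hσ' a ha1 ha
  obtain ⟨σ, -, hu, h1⟩ := h.bwd_iAut hσ'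
  obtain ⟨x, rfl⟩ := h.surj a
  have hp : p.Prime := Fact.out
  have h3 : ∀ K : Subgroup G, u ∈ K → (x : G) ∈ K → ¬ P ≤ K →
      Nat.card ((K.subgroupOf P).map ρ) = p ∧ K.relIndex P = p := fun K h3 h4 h5 => by
    have h6 := (h.card_map h3).trans h9
    obtain ⟨k, hk, h7⟩ := (Nat.dvd_prime_pow hp).1 (Dvd.intro _ h6)
    rw [h7] at h6 ⊢
    interval_cases k
    · exact absurd ((card_eq_one.1 h7).le (mem_map_of_mem ρ h4)) ha1
    · exact ⟨pow_one p, Nat.eq_of_mul_eq_mul_left hp.pos (by rw [← sq, ← h6, pow_one])⟩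
    · exact absurd (relIndex_eq_one.1 ((Nat.mul_eq_left (pow_pos hp.pos 2).ne').1 h6)) h5
  have h4 := (h3 C(zpowers (x : G)) (mem_cent_zpowers.2 (h.mem_cent x x.2).symm) (mem_cent_zpowers.2 rfl)
    fun e => hn (le_centralizer_iff_isMulCommutative.2 (isMulCommutative_of_prime_relIndex
      (Z := P ⊓ C(P)) inf_le_right inf_le_left ((h3 (P ⊓ C(P)) ⟨h.mem, h.mem_cent⟩ ⟨x.2, fun g hg =>
        mem_cent_zpowers.1 (e hg)⟩ fun e => hn (e.trans inf_le_right)).2.symm ▸ hp)))).1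
  refine aut_eq_one_of_coprime (congrArg Subtype.val (pow_card_eq_one' (x := (⟨σ', hσ'⟩ : iAut P' e'))))
    (h4.symm ▸ hp.coprime_iff_not_dvd.2 (h.max.not_dvd_card_iAut h.modular hab)) (fun k hk => ?_)
    fun a => ?_
  · obtain ⟨j, hj⟩ := mem_zpowers_of_prime_card h4
      (g := ⟨ρ x, mem_map_of_mem ρ (mem_cent_zpowers.2 rfl)⟩) (fun e => ha1 (congrArg Subtype.val e))
      (g' := ⟨k, hk⟩)
    rw [show k = ρ x ^ j from (congrArg Subtype.val hj).symm, map_zpow, ha]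
  · obtain ⟨y, rfl⟩ := h.surj a
    rw [h1, ← map_inv, ← map_mul]
    refine mem_map_of_mem ρ (mem_cent_zpowers.2 (conj_eq_iff_comm.1 (congrArg Subtype.val
      (show y⁻¹ * σ y * x * (y⁻¹ * σ y)⁻¹ = x from ?_))))
    rw [show y⁻¹ * σ y * x * (y⁻¹ * σ y)⁻¹ = y⁻¹ * (σ y * x * (σ y)⁻¹) * y by group,
      h.conj_apply hab hu ((h1 x).symm.trans ha)]
    group

end

variable [CharP (ResK M) 2] (h : Red 2 M P B e u f π b s P' ρ c e')
include h

theorem not_seven (hab : P' ≤ C(P')) (hn : ¬ P ≤ C(P)) (h16 : Nat.card P' ≤ 16)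
    (h2 : ∀ x : P', x ^ 2 = 1) : ¬ 7 ∣ Nat.card (iAut P' e') := fun h7 => by
  obtain ⟨σ', hσ', h7⟩ := exists_orderOf_eq 7 (by norm_num) h7
  obtain ⟨σ, hσ, hu, h1⟩ := h.bwd_iAut hσ'
  obtain ⟨g, hg, h3⟩ := mem_iAut.1 hσ
  have h4 : ∀ x ∈ P, ∀ y ∈ P, x⁻¹ * (y * x * y⁻¹) ∈ zpowers u ∧ orderOf (x⁻¹ * (y * x * y⁻¹)) ∣ 2 :=
    fun x hx y hy => ⟨h.comm_mem hab ⟨x, hx⟩ ⟨y, hy⟩, orderOf_dvd_of_pow_eq_one (by
      have h4 := h.cent hy _ ((h.eq_one_iff (x := ⟨x, hx⟩ ^ 2)).1 (by rw [map_pow, h2]))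
      have h5 := h.cent (inv_mem hx) _ (h.comm_mem hab ⟨x, hx⟩ ⟨y, hy⟩)
      simp only [coe_mul, coe_inv, coe_pow] at h4 h5
      rw [sq, ← mul_assoc, h5, mul_assoc, mul_assoc, conj_mul, ← sq, ← h4]
      simp [sq])⟩
  have h5 : ∀ x ∈ P, ∀ y ∈ P, y * x * y⁻¹ ≠ x → orderOf (x⁻¹ * (y * x * y⁻¹)) = 2 := fun x hx y hy e =>
    ((Nat.dvd_prime Nat.prime_two).1 (h4 x hx y hy).2).resolve_left fun e' =>
      e (inv_mul_eq_one.1 (orderOf_eq_one_iff.1 e')).symm
  obtain ⟨z, hz, D⟩ : ∃ z ∈ zpowers u, IsD2 P z := by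
    obtain ⟨x, hx, y, hy, e⟩ : ∃ x ∈ P, ∃ y ∈ P, y * x * y⁻¹ ≠ x := by
      by_contra! e
      exact hn fun x hx y hy => conj_eq_iff_comm.1 (e x hx y hy)
    have h6 := h5 x hx y hy e
    refine ⟨_, (h4 x hx y hy).1, zpowers_le.2 h.mem (h4 x hx y hy).1, fun e => by simp [e] at h6,
      mul_self_of_orderOf_eq_two h6, zpowers_le.2 h.mem_cent (h4 x hx y hy).1, fun g hg a ha =>
        (em _).imp_right fun e => inv_mul_eq_iff_eq_mul.1 (eq_of_orderOf_eq_two_of_mem_zpowers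
          (h4 a ha g hg).1 (h4 x hx y hy).1 (h5 a ha g hg e) h6), hn⟩
  have h6 := card_two_cases h.max.pair.isPGroup (by omega)
  have h8 := card_modEq_of_orderOf' (by norm_num) h7
  have h9 := card_two_cases (h.max.pair.isPGroup.to_subgroup (autFix σ')) (by omega)
  have key : ∀ K : Subgroup G, u ∈ K → (∀ a : P, (a : G) ∈ K → (σ a : G) ∈ K) →
      Nat.card ((K.subgroupOf P).map ρ) % 7 = Nat.card ((K.subgroupOf P).map ρ ⊓ autFix σ' : Subgroup _) % 7 :=
    fun K _ hK => card_modEq_of_orderOf (by norm_num) h7 (by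
      rintro _ ⟨a, ha, rfl⟩; exact ⟨_, hK a ha, (h1 a).symm⟩)
  have h10 := key C(P) h.mem_cent fun a ha => h3 a ▸ conj_mem_cent hg.1 ha
  have h11 := h.card_map h.mem_cent
  have h12 := card_le_of_le (inf_le_right (a := (C(P).subgroupOf P).map ρ) (b := autFix σ'))
  have h13 := Nat.card_pos (α := ((C(P).subgroupOf P).map ρ ⊓ autFix σ' : Subgroup _))
  have h14 := card_mul_relIndex (inf_le_left (a := P) (b := C(P)))
  rw [inf_relIndex_left] at h14
  by_cases h15 : C(P).relIndex P ≤ 8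
  · obtain ⟨a, ha, b, hb, e⟩ := D.exists_ne
    have := (D.isZ4 (by nlinarith)).card_eq' ha fun e' => e (e' b hb)
    rw [show C(P).relIndex P = 4 from Nat.eq_of_mul_eq_mul_left Nat.card_pos
      (h14.trans (this.trans (mul_comm _ _)))] at h11
    omega
  have h16 : Nat.card ((C(P).subgroupOf P).map ρ) = 1 := by
    have := Nat.card_pos (α := (C(P).subgroupOf P).map ρ)
    nlinarith
  obtain ⟨a, ha, ha1⟩ := (autFix σ').bot_or_exists_ne_one.resolve_left fun e => by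
    rw [h16] at h11; rw [card_eq_one.2 e] at h8; omega
  obtain ⟨x, rfl⟩ := h.surj a
  have h17 := D.card_eq x.2 fun e => ha1 ((card_eq_one.1 h16).le (mem_map_of_mem ρ e))
  have h18 : u ∈ C(zpowers (x : G)) := mem_cent_zpowers.2 (h.mem_cent x x.2).symm
  have h19 := key _ h18 fun a ha => mem_cent_zpowers.2 (conj_eq_iff_comm.1 ((congrArg Subtype.val
    (h.conj_apply hab hu ((h1 x).symm.trans ‹_›) a)).trans (conj_eq_iff_comm.2 (mem_cent_zpowers.1 ha))))
  have h20 := h.card_map h18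
  have h21 := card_mul_relIndex (inf_le_left (a := P) (b := C(zpowers (x : G))))
  rw [inf_relIndex_left] at h21
  rw [show C(zpowers (x : G)).relIndex P = 2 from Nat.eq_of_mul_eq_mul_left Nat.card_pos
    (h21.trans (h17.trans (mul_comm _ _)))] at h20
  have h22 := card_le_of_le (inf_le_right (a := (C(zpowers (x : G)).subgroupOf P).map ρ) (b := autFix σ'))
  have h23 := (one_lt_card_iff_ne_bot ((C(zpowers (x : G)).subgroupOf P).map ρ ⊓ autFix σ')).2 fun e =>
    ha1 (e.le ⟨mem_map_of_mem ρ (mem_cent_zpowers.2 rfl), ha⟩)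
  omega

end Red

theorem IsPModular.card_le_of_cent [CharP (ResK M) p] {e : (ResK M)[G]} (hM : IsPModular p M)
    (hB : IsPBlock M B) (hP : IsMaxPair p (blockIdem M B) P e) (hD : IsDefectGroup p M B P)
    (hu : u ∈ P) (hc : u ∈ C(P)) (h : Nat.card P ≤ 16 * orderOf u) : Nat.card B ≤ Nat.card P := by
  have hp : p.Prime := Fact.out
  obtain ⟨H', _, _, Q, _, _, f', π, b', s', P', ρ, c', e', hR⟩ := hM.exists_red hB hP hu
    (le_cent_zpowers hc)
  have h1 : Nat.card P' ≤ 16 := Nat.le_of_mul_le_mul_right (hR.card_mul ▸ h) (orderOf_pos u)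
  by_cases h2 : IsCyclic P'
  · obtain ⟨x, hx⟩ := isCyclic_iff_exists_zpowers_eq_top.1 h2
    obtain ⟨x, rfl⟩ := hR.surj x
    refine hR.card_eq ▸ hD.card_le_of_two_gen hM hB (x := ⟨u, hu⟩) (y := x)
      (fun d => Subtype.ext (hc d d.2)) (top_le_iff.1 fun a _ => ?_)
    obtain ⟨k, hk⟩ := hx.ge (mem_top (ρ a))
    obtain ⟨j, hj⟩ := (hR.eq_one_iff (x := a * (x ^ k)⁻¹)).1 (by simp [← hk])
    exact (mul_mem_cancel_right (inv_mem (mem_sup_right (zpow_mem (mem_zpowers x) k)))).1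
      (mem_sup_left ⟨j, Subtype.ext hj⟩)
  obtain ⟨k, hk⟩ := hR.max.pair.isPGroup.exists_card_eq
  have h3 : 2 ≤ k := by
    by_contra! e
    exact h2 (isCyclic_of_card_dvd_prime (hk ▸ (pow_dvd_pow p (Nat.le_of_lt_succ e)).trans (pow_one p).dvd))
  have h4 := (Nat.pow_le_pow_right hp.pos h3).trans (hk ▸ h1)
  obtain rfl | rfl : p = 2 ∨ p = 3 := by
    have := hp.two_le
    have : p ≠ 4 := fun e => by rw [e] at hp; norm_num at hp
    have : p ≤ 4 := by nlinarith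
    omega
  · by_cases hab : P ≤ C(P)
    · letI : CommGroup P := { (inferInstance : Group P) with
        mul_comm := fun a b => Subtype.ext (hab b.2 a a.2) }
      obtain ⟨v, h5, h6⟩ := exists_not_seven hP.pair.isPGroup (hP.not_dvd_card_iAut hM hab)
        (z := ⟨u, hu⟩) (by rwa [← orderOf_coe])
      obtain ⟨H', _, _, Q, _, _, f', π, b', s', P', ρ, c', e', hR⟩ := hM.exists_red hB hP v.2
        (le_cent_zpowers (hab v.2))
      exact hR.card_le_of_comm (hR.comm hab) (Nat.le_of_mul_le_mul_right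
        (hR.card_mul ▸ orderOf_coe v ▸ h5) (orderOf_pos _)) fun _ => hR.card_iAut hab ▸ h6
    · exact (em _).elim (fun h5 => hR.card_le_of_comm h5 h1 (hR.not_seven h5 hab h1)) fun h5 =>
        hR.card_le_of_le_three (hM.rank_le_of_sixteen hR.block hR.max h5 h1)
  · obtain rfl : k = 2 := h3.antisymm' (by
      by_contra! e
      have := (Nat.pow_le_pow_right (by norm_num : 0 < 3) e).trans (hk ▸ h1)
      omega)
    by_cases hab : P ≤ C(P)
    · letI : CommGroup P := { (inferInstance : Group P) with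
        mul_comm := fun a b => Subtype.ext (hab b.2 a a.2) }
      obtain ⟨v, h5⟩ := exists_stab_le_two hP.pair.isPGroup (hP.not_dvd_card_iAut hM hab)
        (z := ⟨u, hu⟩) (by
          have h5 := (zpowers (⟨u, hu⟩ : P)).card_mul_index
          rw [Nat.card_zpowers, ← orderOf_coe, ← hR.card_mul, hk, mul_comm _ (orderOf u)] at h5
          exact (Nat.eq_of_mul_eq_mul_left (orderOf_pos u) h5).le)
      exact hM.card_le_of_lrk_le_two hB hP v.2 (hab v.2)
        (hP.lrk_eq_card_stab hM hB hab v (h5.trans (by norm_num)) ▸ h5)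
    · have h5 : P' ≤ C(P') := fun a ha b hb =>
        congrArg Subtype.val ((IsPGroup.commutative_of_card_eq_prime_sq hk) ⟨b, hb⟩ ⟨a, ha⟩)
      exact hR.card_le_of_free h5 (hR.isFree h5 hab hk)

end Cfsg
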