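import Cfsg.Agent.Blk.Ext27B
import Cfsg.Agent.Blk.SecOrth

/-!
# Principal 3-block, extraspecial Sylow subgroup of order 27 and exponent 3, `N(P) ≤ C(Z(P))`
-/

set_option autoImplicit false
set_option linter.unusedSectionVars false
set_option linter.unusedVariables false
set_option linter.style.haveILetI false

namespace Cfsg

open scoped ComplexConjugate Classical
open Ext27C

universe u v

variable {G : Type u} [Group G] [Finite G] {H : Type v} [Group H] [Finite H] {M : Ideal AlgInt}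

local notation "B₀" => principalBlock M

theorem exists_cube_root : ∃ w : ℂ, w ^ 3 = 1 ∧ w ≠ 1 :=
  ⟨_, (Complex.isPrimitiveRoot_exp 3 (by norm_num)).pow_eq_one,
    (Complex.isPrimitiveRoot_exp 3 (by norm_num)).ne_one (by norm_num)⟩

theorem sq_add_of_cube {w : ℂ} (hw : w ^ 3 = 1) (hw1 : w ≠ 1) : w * w + w + 1 = 0 := by
  have : (w - 1) * (w * w + w + 1) = 0 := by linear_combination hw
  exact (mul_eq_zero.1 this).resolve_left (sub_ne_zero.2 hw1)

theorem conj_of_cube {w : ℂ} (hw : w ^ 3 = 1) (hw1 : w ≠ 1) : conj w = -1 - w := by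
  have h1 := mul_conj_eq_one_of_cube hw
  have h2 := sq_add_of_cube hw hw1
  linear_combination (-conj w) * hw + (w * w) * h1 + h2

theorem cube_root_cases {w l : ℂ} (hw : w ^ 3 = 1) (hw1 : w ≠ 1) (hl : l ^ 3 = 1) :
    l = 1 ∨ l = w ∨ l = -1 - w := by
  have h2 := sq_add_of_cube hw hw1
  have : (l - 1) * ((l - w) * (l - (-1 - w))) = 0 := by linear_combination hl - (l - 1) * h2
  rcases mul_eq_zero.1 this with h | h
  · exact Or.inl (sub_eq_zero.1 h)
  · exact Or.inr ((mul_eq_zero.1 h).imp sub_eq_zero.1 sub_eq_zero.1)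

theorem q_cast {w : ℂ} (hw : w ^ 3 = 1) (hw1 : w ≠ 1) (a b a' b' : ℤ) :
    ((q a b a' b' : ℤ) : ℂ) = (a + b * w) * conj (a' + b' * w) +
      conj ((a + b * w) * conj (a' + b' * w)) := by
  have h2 := sq_add_of_cube hw hw1
  simp only [map_mul, map_add, map_intCast, Complex.conj_conj, q]
  rw [conj_of_cube hw hw1]
  push_cast
  linear_combination (2 * (b : ℂ) * b') * h2

section

variable {f : H →* G} {y : G}

theorem IsSec.reg_secFun_eq (h : IsSec 3 f y) (hM : IsPModular 3 M) {χ : IrrCharacter G}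
    (hχ : χ ∈ B₀ G) : pRegularPart 3 (secFun f y χ.1) = subPart 3 f y (B₀ H) χ.1 := by
  funext s
  by_cases hs : IsPRegular 3 s
  · rw [pRegularPart_of_reg hs, subPart_apply_of_reg _ _ _ _ hs, secFun_apply]
    exact h.irr_apply_eq_principal hM hχ hs
  · rw [pRegularPart_of_not_reg hs, subPart_apply_of_not_reg _ _ _ _ hs]

theorem IsSec.ip_reg_secFun (h : IsSec 3 f y) {y₀ : H} (hy : f y₀ = y) (χ : IrrCharacter G)
    {a r : IrrCharacter H → ℤ} (ha : ∀ ψ, ip (χ.1 ∘ f) ψ.1 = a ψ) {i : IrrCharacter H}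
    (hr : ∀ ψ, 9 * ip (pRegularPart 3 ψ.1) i.1 = r ψ) :
    9 * ip (pRegularPart 3 (secFun f y χ.1)) i.1 = ∑ ψ, a ψ * (ψ y₀ / ψ 1 * r ψ) := by
  rw [h.secFun_eq_sum hy χ.isClassFunction, pRegularPart_sum, ip_sum_left, Finset.mul_sum]
  refine Finset.sum_congr rfl fun ψ _ => ?_
  rw [pRegularPart_smul, ip_smul_left, ha, ← hr]; ring

theorem IsSec.dvd_sum_sub (h : IsSec 3 f y) (hM : IsPModular 3 M) {y₀ : H} (hy : f y₀ = y)
    (hy3 : y₀ ^ 3 = 1) {χ : IrrCharacter G} (hχ : χ ∈ B₀ G)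
    {a : IrrCharacter H → ℤ} (ha : ∀ ψ, ip (χ.1 ∘ f) ψ.1 = a ψ) :
    (3 : ℤ) ∣ ∑ ψ, a ψ * (if ψ ∈ B₀ H then (charDegree ψ.1 : ℤ) else 0) - charDegree χ.1 := by
  haveI := hM.fact
  refine hM.dvd_sub_of_red_eq ?_
  have h1 := χ.isCharacter.isGen.red_mul_eq hM (Commute.one_right y) h.pElt
  have h2 := h.irr_apply_eq_principal hM hχ isPRegular_one
  rw [map_one, h.secFun_eq_sum hy χ.isClassFunction, blockPart_sum_smul_irr,
    finsum_mem_irr_eq_sum, Finset.sum_filter] at h2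
  have hl : ∀ ψ : IrrCharacter H, (ψ y₀ / ψ 1) ^ 3 ^ 1 = 1 := fun ψ =>
    ψ.div_pow_eq_one_of_mem_center (h.mem_center hy) hy3
  have hm : ∀ ψ : IrrCharacter H, ψ y₀ / ψ 1 ∈ locO M := fun ψ =>
    mem_locO_of_pow_eq_one (by norm_num) (hl ψ)
  rw [Int.cast_natCast, ← χ.apply_one, ← h1, h2, red_sum, red_intCast, Int.cast_sum]
  · refine Finset.sum_congr rfl fun ψ _ => ?_
    split_ifs
    · rw [ha, red_mul (mul_mem (intCast_mem _ _) (hm ψ)) (ψ.isCharacter.isGen.mem_locO 1),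
        red_mul (intCast_mem _ _) (hm ψ), hM.red_eq_one_of_pow (hl ψ), ψ.apply_one]
      simp
    · simp
  · intro ψ _
    split_ifs
    · rw [ha]
      exact mul_mem (mul_mem (intCast_mem _ _) (hm ψ)) (ψ.isCharacter.isGen.mem_locO 1)
    · exact zero_mem _

theorem IsSec.exists_coord (h : IsSec 3 f y) (hM : IsPModular 3 M) {y₀ : H} (hy : f y₀ = y)
    (hy3 : y₀ ^ 3 = 1) {w : ℂ} (hw : w ^ 3 = 1) (hw1 : w ≠ 1) {χ : IrrCharacter G}
    (hχ : χ ∈ B₀ G) {r : IrrCharacter H → ℤ} {i : IrrCharacter H}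
    (r1 : ∀ ψ, 9 * ip (pRegularPart 3 ψ.1) i.1 = r ψ) (r2 : ∀ ψ ∉ B₀ H, r ψ = 0)
    (r4 : ∀ ψ ∈ B₀ H, 3 ∣ r ψ - r (IrrCharacter.one H) * charDegree ψ.1)
    (r5 : ∀ ψ ∈ B₀ H, ψ y₀ / ψ 1 ≠ 1 → 3 ∣ charDegree ψ.1) :
    ∃ A B : ℤ, 9 * ip (pRegularPart 3 (secFun f y χ.1)) i.1 = A + B * w ∧
      9 * ip (pRegularPart 3 (secFun f y⁻¹ χ.1)) i.1 = conj (A + B * w) ∧
      3 ∣ A - r (IrrCharacter.one H) * charDegree χ.1 ∧ 3 ∣ B := by
  haveI := hM.fact
  choose a ha using fun ψ : IrrCharacter H =>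
    (χ.isCharacter.isGen.comp f).exists_ip_eq_int ψ.isCharacter.isGen
  have key : ∀ ψ : IrrCharacter H, ∃ α β : ℤ, ψ y₀ / ψ 1 * r ψ = α + β * w ∧
      3 ∣ α - r (IrrCharacter.one H) * (if ψ ∈ B₀ H then (charDegree ψ.1 : ℤ) else 0) ∧
      3 ∣ β := by
    intro ψ
    by_cases hψ : ψ ∈ B₀ H
    swap
    · exact ⟨0, 0, by simp [r2 ψ hψ], by simp [hψ], dvd_zero _⟩
    rw [if_pos hψ]
    have h4 := r4 ψ hψ
    by_cases e : ψ y₀ / ψ 1 = 1
    · exact ⟨r ψ, 0, by simp [e], h4, dvd_zero _⟩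
    have h5 : (3 : ℤ) ∣ r (IrrCharacter.one H) * charDegree ψ.1 :=
      Dvd.dvd.mul_left (by exact_mod_cast r5 ψ hψ e) _
    have h6 : 3 ∣ r ψ := (dvd_sub_left h5).1 h4
    rcases cube_root_cases hw hw1 (ψ.div_pow_eq_one_of_mem_center (h.mem_center hy) hy3) with
      e' | e' | e'
    · exact absurd e' e
    · exact ⟨0, r ψ, by rw [e']; push_cast; ring, by omega, h6⟩
    · exact ⟨-r ψ, -r ψ, by rw [e']; push_cast; ring, by omega, by omega⟩
  choose α β k1 k2 k3 using key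
  have e1 : 9 * ip (pRegularPart 3 (secFun f y χ.1)) i.1 =
      ((∑ ψ, a ψ * α ψ : ℤ) : ℂ) + ((∑ ψ, a ψ * β ψ : ℤ) : ℂ) * w := by
    rw [h.ip_reg_secFun hy χ ha r1]
    push_cast
    rw [Finset.sum_mul, ← Finset.sum_add_distrib]
    exact Finset.sum_congr rfl fun ψ _ => by rw [k1]; ring
  refine ⟨_, _, e1, ?_, ?_, Finset.dvd_sum fun ψ _ => (k3 ψ).mul_left _⟩
  · rw [← e1, h.ip_reg_secFun hy χ ha r1,
      h.inv.ip_reg_secFun (y₀ := y₀⁻¹) (by rw [map_inv, hy]) χ ha r1, map_sum]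
    exact Finset.sum_congr rfl fun ψ _ => by
      rw [ψ.div_inv_eq, map_mul, map_mul, map_intCast, map_intCast]
  · have h1 := h.dvd_sum_sub hM hy hy3 hχ ha
    have h2 : (3 : ℤ) ∣ ∑ ψ, a ψ * (α ψ - r (IrrCharacter.one H) *
        (if ψ ∈ B₀ H then (charDegree ψ.1 : ℤ) else 0)) :=
      Finset.dvd_sum fun ψ _ => (k2 ψ).mul_left _
    have h3 := dvd_add h2 (h1.mul_left (r (IrrCharacter.one H)))
    have : ∀ ψ, a ψ * (α ψ - r (IrrCharacter.one H) *
        (if ψ ∈ B₀ H then (charDegree ψ.1 : ℤ) else 0)) = a ψ * α ψ -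
      r (IrrCharacter.one H) * (a ψ * if ψ ∈ B₀ H then (charDegree ψ.1 : ℤ) else 0) :=
        fun ψ => by ring
    rw [Finset.sum_congr rfl fun ψ _ => this ψ, Finset.sum_sub_distrib, ← Finset.mul_sum,
      mul_sub, sub_add_sub_cancel] at h3
    exact h3

theorem sum_irr_eq_sum_principal {F : IrrCharacter G → ℂ} (h : ∀ χ ∉ B₀ G, F χ = 0) :
    ∑ χ, F χ = ∑ χ : B₀ G, F χ := by
  rw [← finsum_mem_irr_eq_sum_coe, finsum_mem_irr_eq_sum]
  exact (Finset.sum_subset (Finset.filter_subset _ _) fun χ _ hχ => h χ (by simpa using hχ)).symm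

theorem IsSec.ip_secInd_eq_zero (h : IsSec 3 f y) (hM : IsPModular 3 M) {i : IrrCharacter H}
    (hi : i ∈ B₀ H) {χ : IrrCharacter G} (hχ : χ ∉ B₀ G) : ip (secInd 3 f y i.1) χ.1 = 0 := by
  rw [← h.blockPart_secInd_of_induces hM (h.induces_principal hM) (blockPart_irr_of_mem hi),
    ip_blockPart_of_notMem _ hχ]

theorem ip_secInd_eq_conj (f : H →* G) (y : G) (i : IrrCharacter H) (χ : IrrCharacter G) :
    ip (secInd 3 f y i.1) χ.1 = conj (ip (pRegularPart 3 (secFun f y χ.1)) i.1) := by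
  rw [ip_secInd_irr, conj_ip, ip_pRegularPart_comm]

theorem IsSec.sum_ip_mul_conj (h : IsSec 3 f y) (hM : IsPModular 3 M) {i j : IrrCharacter H}
    (hj : j ∈ B₀ H) :
    ∑ χ : B₀ G, ip (pRegularPart 3 (secFun f y χ.1.1)) i.1 *
      conj (ip (pRegularPart 3 (secFun f y χ.1.1)) j.1) = ip (pRegularPart 3 j.1) i.1 := by
  haveI := hM.fact
  rw [← h.ip_secInd_secInd j.1 i.isClassFunction,
    (isClassFunction_secInd f y j.1).ip_eq_sum (isClassFunction_secInd f y i.1),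
    sum_irr_eq_sum_principal (M := M) fun χ hχ => by rw [h.ip_secInd_eq_zero hM hj hχ, zero_mul]]
  refine Finset.sum_congr rfl fun χ _ => ?_
  rw [ip_secInd_eq_conj, ip_secInd_eq_conj, Complex.conj_conj, mul_comm]

theorem IsSec.sum_conj_ip_mul (h : IsSec 3 f y) (hM : IsPModular 3 M) {i : IrrCharacter H}
    (hi : i ∈ B₀ H) {g : G} (hg : g ∉ pSection 3 y) :
    ∑ χ : B₀ G, conj (ip (pRegularPart 3 (secFun f y χ.1.1)) i.1) * χ.1 g = 0 := by
  haveI := hM.fact
  rw [← h.secInd_apply_of_notMem i.1 hg, (isClassFunction_secInd f y i.1).apply_eq_sum,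
    sum_irr_eq_sum_principal (M := M) fun χ hχ => by rw [h.ip_secInd_eq_zero hM hi hχ, zero_mul]]
  exact Finset.sum_congr rfl fun χ _ => by rw [ip_secInd_eq_conj]

theorem IsSec.ip_indicator_eq (h : IsSec 3 f y) (hM : IsPModular 3 M) {z₀ : H}
    (hz : z₀ ∈ Subgroup.center H) (hz1 : z₀ ≠ 1) (hz3 : z₀ ^ 3 = 1) {w : ℂ} (hw : w ^ 3 = 1)
    {χ : IrrCharacter G} (hχ : χ ∈ B₀ G) (ψ : IrrCharacter G) :
    ip ((pSection 3 y).indicator χ.1) ψ.1 = 3 * ∑ i : lamSet (B₀ H) z₀ w,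
      ip (pRegularPart 3 (secFun f y χ.1)) i.1.1 *
        conj (ip (pRegularPart 3 (secFun f y ψ.1)) i.1.1) := by
  haveI := hM.fact
  rw [h.ip_indicator_pSection χ.isClassFunction ψ.isClassFunction]
  refine ip_eq_sum_lamSet hz hz1 hz3 hw ?_ (pRegularPart_idem _) _
  rw [h.reg_secFun_eq hM hχ, isPBlock_principalBlock.blockPart_subPart hM]

end

theorem card_height_zero_eq (hM : IsPModular 3 M) :
    Nat.card {χ : IrrCharacter G // χ ∈ B₀ G ∧ blockHeight 3 (B₀ G) (χ : G → ℂ) = 0} =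
      (hz fun χ : B₀ G => (charDegree χ.1.1 : ℤ)).card := by
  rw [← Fintype.card_coe, ← Nat.card_eq_fintype_card]
  refine Nat.card_congr ⟨fun χ => ⟨⟨χ.1, χ.2.1⟩, ?_⟩, fun χ => ⟨χ.1.1, χ.1.2, ?_⟩,
    fun _ => rfl, fun _ => rfl⟩
  · have := χ.2.2
    rw [blockHeight_principalBlock_eq hM, Nat.factorization_eq_zero_iff] at this
    rw [mem_hz]
    have h0 := χ.1.charDegree_pos
    intro hd
    have hd' : 3 ∣ charDegree χ.1.1 := by exact_mod_cast hd
    rcases this with e | e | e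
    · exact e Nat.prime_three
    · exact e hd'
    · omega
  · rw [blockHeight_principalBlock_eq hM]
    exact Nat.factorization_eq_zero_of_not_dvd fun hd => mem_hz.1 χ.2 (by exact_mod_cast hd)

theorem Ext27.invariants {z : G} {U : Finset G} (h : Ext27 z U) (hM : IsPModular 3 M)
    {f : H →* G} (hs : IsSec 3 f z) {z₀ : H} (hz : f z₀ = z) {U' : Finset H} (h' : Ext27 z₀ U')
    (hc : U'.card = U.card) (hr : ∀ u ∈ U, IsConj u u⁻¹) (hr' : ∀ u ∈ U', IsConj u u⁻¹)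
    (hU : U.Nonempty) :
    Nat.card {χ : IrrCharacter G // χ ∈ B₀ G ∧ blockHeight 3 (B₀ G) (χ : G → ℂ) = 0} = 6 ∧
      blockRank 3 (B₀ G) + U.card = 6 ∧ Nat.card (B₀ G) + 2 * U.card = 18 := by
  haveI := hM.fact
  obtain ⟨w, hw, hw1⟩ := exists_cube_root
  have hzc := hs.mem_center hz
  obtain ⟨h6, r, r1, r2, r3, r4, r5⟩ := h'.exists_frame hM hzc hr'
    (Finset.card_pos.1 (hc ▸ hU.card_pos)) hw hw1
  obtain ⟨u, hu⟩ := hU
  obtain ⟨x, hx, hu'⟩ := h.exists_ucols hM hr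
  choose A B k1 k2 k3 k4 using fun (χ : B₀ G) (i : lamSet (B₀ H) z₀ w) =>
    hs.exists_coord hM hz h'.z_cube hw hw1 χ.2 (r := fun ψ => r ψ i) (fun ψ => r1 ψ i)
      (fun ψ hψ => r2 ψ hψ i) (fun ψ hψ => r4 ψ hψ i) r5
  have col : ∀ i j, ∑ χ, q (A χ i) (B χ i) (A χ j) (B χ j) = if i = j then 54 else 0 := by
    intro i j
    have e1 := hs.sum_ip_mul_conj hM (i := i.1) j.2.1
    have e2 := h'.ip_lamSet hM hzc hw1 j i
    have e3 : ∑ χ, ((A χ i : ℂ) + B χ i * w) * conj ((A χ j : ℂ) + B χ j * w) =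
        if j = i then 27 else 0 := by
      simp only [← k1, map_mul, map_ofNat]
      rw [show (if j = i then 27 else 0 : ℂ) = 27 * if j = i then 1 else 0 by simp, ← e2, ← e1,
        Finset.mul_sum, Finset.mul_sum]
      exact Finset.sum_congr rfl fun χ _ => by ring
    have e4 : ((∑ χ, q (A χ i) (B χ i) (A χ j) (B χ j) : ℤ) : ℂ) =
        ((if i = j then 54 else 0 : ℤ) : ℂ) := by
      rw [Int.cast_sum, Finset.sum_congr rfl fun χ _ => q_cast hw hw1 _ _ _ _,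
        Finset.sum_add_distrib, ← map_sum, e3]
      by_cases e : i = j
      · rw [if_pos e, if_pos e.symm, map_ofNat]; norm_num
      · rw [if_neg e, if_neg (Ne.symm e)]; simp
    exact_mod_cast e4
  have hrow : ∀ χ : B₀ G, 54 * ip (pRegularPart 3 χ.1.1) χ.1.1 +
      ((2 * (∑ i, q (A χ i) (B χ i) (A χ i) (B χ i) + 3 * ∑ v, x v χ * x v χ) : ℤ) : ℂ) = 54 := by
    intro χ
    have e := h.ip_eq hM χ.2 χ.2
    rw [IrrCharacter.ip_self, hs.ip_indicator_eq hM hzc h'.z_ne h'.z_cube hw χ.2,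
      hs.inv.ip_indicator_eq hM hzc h'.z_ne h'.z_cube hw χ.2] at e
    simp only [hx, map_intCast, ← Finset.sum_div] at e
    have e1 : ∑ i, ((q (A χ i) (B χ i) (A χ i) (B χ i) : ℤ) : ℂ) =
        81 * ∑ i : lamSet (B₀ H) z₀ w, ip (pRegularPart 3 (secFun f z χ.1.1)) i.1.1 *
          conj (ip (pRegularPart 3 (secFun f z χ.1.1)) i.1.1) +
        81 * ∑ i : lamSet (B₀ H) z₀ w, ip (pRegularPart 3 (secFun f z⁻¹ χ.1.1)) i.1.1 *
          conj (ip (pRegularPart 3 (secFun f z⁻¹ χ.1.1)) i.1.1) := by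
      rw [Finset.mul_sum, Finset.mul_sum, ← Finset.sum_add_distrib]
      refine Finset.sum_congr rfl fun i _ => ?_
      rw [q_cast hw hw1, map_mul (starRingEnd ℂ) _ (conj _), ← k2, ← k1]
      simp only [map_mul, map_ofNat]
      have e2 := k2 χ i
      rw [← k1, map_mul, map_ofNat] at e2
      have e3 := mul_left_cancel₀ (by norm_num : (9 : ℂ) ≠ 0) e2
      rw [e3, Complex.conj_conj]
      ring
    push_cast
    rw [e1]
    linear_combination (-54) * e
  refine (hu'.main ⟨u, hu⟩ A B (fun i => r (IrrCharacter.one H) i) r3 k3 k4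
    (fun i j => by convert col i j)
    (fun i => ?_) (fun χ => ?_) (fun χ => ?_) (by rw [Fintype.card_coe, ← hc, h6])).elim
    fun m1 m2 => ?_
  rotate_right
  · refine ⟨?_, ?_, ?_⟩
    · rw [card_height_zero_eq hM, m1]
    · have e := Finset.sum_congr rfl fun χ (_ : χ ∈ (Finset.univ : Finset (B₀ G))) => hrow χ
      rw [Finset.sum_add_distrib, ← Finset.mul_sum, ← finsum_mem_irr_eq_sum_coe (B₀ G)
        fun χ => ip (pRegularPart 3 χ.1) χ.1, ← isPBlock_principalBlock.blockRank_eq_finsum hM,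
        ← Int.cast_sum, ← Finset.mul_sum, Finset.sum_add_distrib, Finset.sum_comm,
        ← Finset.mul_sum, Finset.sum_comm (f := fun χ v => x v χ * x v χ),
        Finset.sum_congr rfl fun i _ => col i i, Finset.sum_congr rfl fun v _ => hu'.norm v] at e
      simp only [if_true, Finset.sum_const, Finset.card_univ, nsmul_eq_mul, Fintype.card_coe,
        m2] at e
      have e' : 54 * (blockRank 3 (B₀ G) : ℤ) + 2 * (Fintype.card (lamSet (B₀ H) z₀ w) * 54 +
        3 * (U.card * 9)) = (6 + 2 * Fintype.card (lamSet (B₀ H) z₀ w)) * 54 := by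
        exact_mod_cast e
      omega
    · rw [Nat.card_eq_fintype_card]; omega
  · have e := hs.sum_conj_ip_mul hM i.2.1 (g := u) (by
      rw [mem_pSection_iff_isConj (h.isPElt hu)]; exact h.not_isConj_z hu)
    have e1 : ∑ χ, conj ((A χ i : ℂ) + B χ i * w) * x ⟨u, hu⟩ χ = 0 := by
      rw [← mul_zero 9, ← e, Finset.mul_sum]
      exact Finset.sum_congr rfl fun χ _ => by rw [← k1, ← hx, map_mul, map_ofNat]; ring
    have e2 := congrArg conj e1
    rw [map_sum, map_zero] at e2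
    have e3 : ((∑ χ, x ⟨u, hu⟩ χ * (2 * A χ i - B χ i) : ℤ) : ℂ) = 0 := by
      rw [← add_zero (0 : ℂ)]
      nth_rewrite 1 [← e1]
      rw [← e2, ← Finset.sum_add_distrib, Int.cast_sum]
      refine Finset.sum_congr rfl fun χ _ => ?_
      simp only [map_mul, map_add, map_intCast, Complex.conj_conj]
      rw [conj_of_cube hw hw1]
      push_cast; ring
    exact_mod_cast e3
  · have e := congrArg Complex.re (hrow χ)
    have h0 : 0 ≤ (ip (pRegularPart 3 χ.1.1) χ.1.1).re := by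
      rw [ip_pRegularPart_eq_both_left]; exact ip_self_re_nonneg _
    rw [Complex.add_re, Complex.intCast_re] at e
    simp only [Complex.mul_re, Complex.re_ofNat, Complex.im_ofNat, zero_mul, sub_zero] at e
    have e1 : ((2 * (∑ i, q (A χ i) (B χ i) (A χ i) (B χ i) + 3 * ∑ v, x v χ * x v χ) : ℤ) : ℝ) ≤
      ((54 : ℤ) : ℝ) := by push_cast at e ⊢; linarith
    have e2 := Int.cast_le.1 e1
    omega
  · by_contra hn
    push Not at hn
    have e := hs.vM_contrib_of_height_zero hM (hs.induces_principal hM)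
      (by rw [hM.blockDefect_principalBlock, hM.blockDefect_principalBlock, h.card, h'.card])
      hM.one_mem_principalBlock χ.2
      (by rw [blockHeight_principalBlock_eq hM, charDegree_one_irr]; simp)
    rw [contrib, ← hs.reg_secFun_eq hM χ.2,
      ← hs.ip_indicator_pSection χ.1.isClassFunction (IrrCharacter.one G).isClassFunction,
      hs.ip_indicator_eq hM hzc h'.z_ne h'.z_cube hw χ.2, Finset.sum_eq_zero fun i _ => ?_] at e
    · simp only [mul_zero, map_zero] at e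
      exact (pow_pos hM.vM_prime_pos _).ne e
    · have := k1 χ i
      rw [(hn i).1, (hn i).2] at this
      rw [(mul_eq_zero.1 (this.trans (by simp))).resolve_left (by norm_num), zero_mul]

theorem Ext27.invariants_nilp {z : G} {U : Finset G} (h : Ext27 z U) (hM : IsPModular 3 M)
    (hU : U.card = 8) (hG : HasNormalPComplement 3 G) :
    Nat.card (B₀ G) = 11 ∧
      Nat.card {χ : IrrCharacter G // χ ∈ B₀ G ∧ blockHeight 3 (B₀ G) (χ : G → ℂ) = 0} = 9 ∧
      blockRank 3 (B₀ G) = 1 := by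
  haveI := hM.fact
  have hk : Nat.card (B₀ G) = 11 := by
    rw [card_principal_eq_sum_blockRank hM h.isPElt_reps h.reps,
      Finset.sum_congr rfl fun x _ => (hG.to_subgroup _).blockRank_principal hM, h.sum_reps]
    simp [hU]
  refine ⟨hk, ?_, hG.blockRank_principal hM⟩
  have e := finsum_principal_mul_conj_self hM (isPElt_one 3) (hG.to_subgroup _)
  rw [finsum_mem_irr_eq_sum_coe, card_centralizer_one, h.card] at e
  simp only [IrrCharacter.apply_one, map_natCast] at e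
  obtain ⟨d, hd⟩ : ∃ d : B₀ G → ℤ, d = fun χ => (charDegree χ.1.1 : ℤ) := ⟨_, rfl⟩
  have e1 : ∑ χ, d χ * d χ = 27 := by rw [hd]; dsimp only; exact_mod_cast e
  have hpos : ∀ χ, 1 ≤ d χ := fun χ => by
    rw [hd]; dsimp only; exact_mod_cast χ.1.charDegree_pos
  have hk' : Fintype.card (B₀ G) = 11 := by rw [← Nat.card_eq_fintype_card, hk]
  have e2 : ∑ χ, (d χ * d χ - 1) = 16 := by
    rw [Finset.sum_sub_distrib, e1]; simp [hk']
  have hle : ∀ χ, d χ ≤ 4 := fun χ => by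
    have := Finset.single_le_sum (f := fun χ => d χ * d χ - 1)
      (fun ψ _ => by have := hpos ψ; nlinarith) (Finset.mem_univ χ)
    rw [e2] at this
    have := hpos χ
    nlinarith
  obtain ⟨a, ha⟩ : ∃ a : B₀ G → ℤ, a = fun χ => if d χ = 3 then 1 else 0 := ⟨_, rfl⟩
  obtain ⟨b, hb⟩ : ∃ b : B₀ G → ℤ, b = fun χ => if d χ = 2 then 1 else if d χ = 4 then 5 else 0 :=
    ⟨_, rfl⟩
  have e3 : ∀ χ, d χ * d χ - 1 = 8 * a χ + 3 * b χ ∧ 0 ≤ a χ ∧ 0 ≤ b χ := fun χ => by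
    have h1 := hpos χ
    have h2 := hle χ
    rw [ha, hb]
    dsimp only
    interval_cases d χ <;> simp
  rw [Finset.sum_congr rfl fun χ _ => (e3 χ).1, Finset.sum_add_distrib, ← Finset.mul_sum,
    ← Finset.mul_sum] at e2
  have p1 : 0 ≤ ∑ χ, a χ := Finset.sum_nonneg fun χ _ => (e3 χ).2.1
  have p2 : 0 ≤ ∑ χ, b χ := Finset.sum_nonneg fun χ _ => (e3 χ).2.2
  have e4 : ∑ χ, a χ = 2 := by omega
  have e5 : ∑ χ, a χ = ((hz d)ᶜ.card : ℤ) := by
    rw [ha, Finset.sum_boole]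
    congr 2
    ext χ
    have h1 := hpos χ
    have h2 := hle χ
    simp only [Finset.mem_filter, Finset.mem_univ, true_and, Finset.mem_compl, mem_hz, not_not]
    omega
  have e6 := Finset.card_add_card_compl (hz d)
  rw [card_height_zero_eq hM, ← hd]
  omega

end Cfsg
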