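import Mathlib

/-!
# Combinatorics for the principal 3-block with extraspecial Sylow subgroup of order 27
-/

set_option autoImplicit false
set_option linter.unusedSectionVars false
set_option linter.unusedVariables false

namespace Cfsg.Ext27C

open scoped Classical

variable {ι κ μ : Type*} [Fintype ι] [Fintype κ] [Fintype μ]

/-- The columns of the noncentral elements. -/
structure UCols (d : ι → ℤ) (x : μ → ι → ℤ) (o : ι) : Prop where
  d_o : d o = 1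
  x_o : ∀ u, x u o = 1
  cong : ∀ u χ, 3 ∣ x u χ - d χ
  norm : ∀ u, ∑ χ, x u χ * x u χ = 9
  orth : ∀ u v, u ≠ v → ∑ χ, x u χ * x v χ = 0
  deg : ∀ u, ∑ χ, x u χ * d χ = 0

/-- The rows of height zero. -/
noncomputable def hz (d : ι → ℤ) : Finset ι := Finset.univ.filter fun χ => ¬ 3 ∣ d χ

theorem mem_hz {d : ι → ℤ} {χ : ι} : χ ∈ hz d ↔ ¬ 3 ∣ d χ := by simp [hz]

/-- The sign congruent to `n` modulo 3. -/
def sg (n : ℤ) : ℤ := if n % 3 = 2 then -1 else 1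

theorem sg_mul_self (n : ℤ) : sg n * sg n = 1 := by unfold sg; split_ifs <;> norm_num

theorem sg_cases (n : ℤ) : sg n = 1 ∨ sg n = -1 := by unfold sg; split_ifs <;> simp

theorem dvd_sg_mul {n : ℤ} (h : ¬ 3 ∣ n) : 3 ∣ sg n * n - 1 := by
  unfold sg; split_ifs <;> omega

namespace UCols

variable {d : ι → ℤ} {x : μ → ι → ℤ} {o : ι}

theorem o_mem (h : UCols d x o) : o ∈ hz d := by rw [mem_hz, h.d_o]; norm_num

theorem sq_le (h : UCols d x o) (u : μ) {χ : ι} (hχ : χ ≠ o) : x u χ * x u χ ≤ 8 := by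
  have e := h.norm u
  have h1 : ∑ ψ ∈ ({χ, o} : Finset ι), x u ψ * x u ψ ≤ ∑ ψ, x u ψ * x u ψ :=
    Finset.sum_le_sum_of_subset_of_nonneg (Finset.subset_univ _) fun _ _ _ => mul_self_nonneg _
  rw [Finset.sum_pair hχ, h.x_o] at h1
  omega

theorem bounds (h : UCols d x o) (u : μ) (χ : ι) : -2 ≤ x u χ ∧ x u χ ≤ 2 := by
  by_cases hχ : χ = o
  · rw [hχ, h.x_o]; norm_num
  · have := h.sq_le u hχ
    constructor <;> nlinarith

theorem eq_zero (h : UCols d x o) (u : μ) {χ : ι} (hχ : χ ∉ hz d) : x u χ = 0 := by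
  rw [mem_hz, not_not] at hχ
  have h1 := h.bounds u χ
  have h2 := h.cong u χ
  omega

theorem cases (h : UCols d x o) (u : μ) {χ : ι} (hχ : χ ∈ hz d) :
    sg (d χ) * x u χ = 1 ∨ sg (d χ) * x u χ = -2 := by
  rw [mem_hz] at hχ
  have h1 := h.bounds u χ
  have h2 := h.cong u χ
  unfold sg; split_ifs <;> omega

/-- `1` if the entry is `± 2`. -/
noncomputable def tau (x : μ → ι → ℤ) (u : μ) (χ : ι) : ℤ := if x u χ * x u χ = 4 then 1 else 0

theorem tau_cases (u : μ) (χ : ι) : tau x u χ = 0 ∨ tau x u χ = 1 := by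
  unfold tau; split_ifs <;> simp

theorem tau_nonneg (u : μ) (χ : ι) : 0 ≤ tau x u χ := by
  rcases tau_cases (x := x) u χ with h | h <;> omega

theorem sq_eq (h : UCols d x o) (u : μ) {χ : ι} (hχ : χ ∈ hz d) :
    x u χ * x u χ = 1 + 3 * tau x u χ := by
  have h1 := h.cases u hχ
  unfold tau
  rcases sg_cases (d χ) with e | e <;> rw [e] at h1 <;> rcases h1 with h1 | h1
  · have : x u χ = 1 := by omega
    rw [this]; norm_num
  · have : x u χ = -2 := by omega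
    rw [this]; norm_num
  · have : x u χ = -1 := by omega
    rw [this]; norm_num
  · have : x u χ = 2 := by omega
    rw [this]; norm_num

theorem sg_mul_eq (h : UCols d x o) (u : μ) {χ : ι} (hχ : χ ∈ hz d) :
    sg (d χ) * x u χ = 1 - 3 * tau x u χ := by
  have h1 := h.cases u hχ
  have h2 := h.sq_eq u hχ
  have h3 : (sg (d χ) * x u χ) * (sg (d χ) * x u χ) = 1 + 3 * tau x u χ := by
    rw [← h2]; linear_combination (x u χ * x u χ) * sg_mul_self (d χ)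
  rcases h1 with h1 | h1 <;> rw [h1] at h3 ⊢ <;> omega

theorem sum_hz (h : UCols d x o) (u : μ) (F : ι → ℤ) :
    ∑ χ, x u χ * F χ = ∑ χ ∈ hz d, x u χ * F χ :=
  (Finset.sum_subset (Finset.subset_univ _) fun χ _ hχ => by rw [h.eq_zero u hχ, zero_mul]).symm

theorem card_add (h : UCols d x o) (u : μ) :
    ((hz d).card : ℤ) + 3 * ∑ χ ∈ hz d, tau x u χ = 9 := by
  have e := h.norm u
  rw [h.sum_hz, Finset.sum_congr rfl fun χ hχ => h.sq_eq u hχ, Finset.sum_add_distrib,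
    ← Finset.mul_sum] at e
  simpa using e

theorem tau_o (h : UCols d x o) (u : μ) : tau x u o = 0 := by
  unfold tau; rw [h.x_o]; norm_num

theorem card_cases (h : UCols d x o) (u : μ) : (hz d).card = 6 ∨ (hz d).card = 9 := by
  have e := h.card_add u
  have h0 : 0 ≤ ∑ χ ∈ hz d, tau x u χ := Finset.sum_nonneg fun χ _ => tau_nonneg u χ
  have h1 : ∑ χ ∈ hz d, tau x u χ + ∑ χ ∈ hz d, (1 - tau x u χ) = (hz d).card := by
    rw [← Finset.sum_add_distrib]; simp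
  have h2 : ∑ χ ∈ hz d, (1 - tau x u χ) =
      1 + ∑ χ ∈ (hz d).erase o, (1 - tau x u χ) := by
    rw [← Finset.add_sum_erase _ _ h.o_mem, h.tau_o, sub_zero]
  have h3 : ∀ χ ∈ (hz d).erase o, 0 ≤ 1 - tau x u χ := fun χ _ => by
    rcases tau_cases (x := x) u χ with h | h <;> omega
  have h4 := Finset.sum_nonneg h3
  by_contra hne
  have h5 : ∑ χ ∈ (hz d).erase o, (1 - tau x u χ) = 0 := by omega
  rw [Finset.sum_eq_zero_iff_of_nonneg h3] at h5
  have h6 := h.deg u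
  rw [h.sum_hz, ← Finset.add_sum_erase _ _ h.o_mem, h.x_o, h.d_o] at h6
  have h7 : (2 : ℤ) ∣ ∑ χ ∈ (hz d).erase o, x u χ * d χ := by
    refine Finset.dvd_sum fun χ hχ => Dvd.dvd.mul_right ?_ _
    have a1 := h5 χ hχ
    have a2 := h.sg_mul_eq u (Finset.mem_of_mem_erase hχ)
    rcases sg_cases (d χ) with e | e <;> rw [e] at a2 <;> omega
  omega

theorem tau_eq_zero (h : UCols d x o) (h9 : (hz d).card = 9) (u : μ) {χ : ι} (hχ : χ ∈ hz d) :
    tau x u χ = 0 := by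
  have e := h.card_add u
  rw [h9] at e
  have h5 : ∑ χ ∈ hz d, tau x u χ = 0 := by push_cast at e; omega
  exact (Finset.sum_eq_zero_iff_of_nonneg fun χ _ => tau_nonneg u χ).1 h5 χ hχ

theorem odd_of_nine (h : UCols d x o) (h9 : (hz d).card = 9) (u : μ) {χ : ι} (hχ : χ ∈ hz d) :
    x u χ = 1 ∨ x u χ = -1 := by
  have a2 := h.sg_mul_eq u hχ
  rw [h.tau_eq_zero h9 u hχ] at a2
  rcases sg_cases (d χ) with e | e <;> rw [e] at a2 <;> omega

theorem subsingleton_of_nine (h : UCols d x o) (h9 : (hz d).card = 9) (u v : μ) : u = v := by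
  by_contra hne
  have e := h.orth u v hne
  rw [h.sum_hz] at e
  have h7 : (2 : ℤ) ∣ ∑ χ ∈ hz d, (x u χ * x v χ - 1) := by
    refine Finset.dvd_sum fun χ hχ => ?_
    rcases h.odd_of_nine h9 u hχ with a | a <;> rcases h.odd_of_nine h9 v hχ with b | b <;>
      rw [a, b] <;> norm_num
  rw [Finset.sum_sub_distrib, e] at h7
  simp [h9] at h7

theorem card_eq_one_of_nine (h : UCols d x o) (h9 : (hz d).card = 9) (u : μ) :
    Fintype.card μ = 1 :=
  Fintype.card_eq_one_iff.2 ⟨u, fun v => h.subsingleton_of_nine h9 v u⟩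

/-- The centralizer of the central element. -/
theorem card_add_eq_six (h : UCols d x o) (u : μ) (r : ι → κ → ℤ)
    (hk : (hz d).card = Fintype.card κ + Fintype.card μ)
    (h0 : ∀ χ ∈ hz d, ∀ i, r χ i ≠ 0)
    (hr : ∀ χ ∈ hz d, ∀ ψ ∈ hz d,
      ∑ i, r χ i * r ψ i + ∑ v, x v χ * x v ψ = if χ = ψ then 9 else 0) :
    Fintype.card κ + Fintype.card μ = 6 := by
  rcases h.card_cases u with h6 | h9
  · omega
  exfalso
  have hc := h.card_eq_one_of_nine h9 u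
  have hl : Fintype.card κ = 8 := by omega
  have hsum : ∀ F : μ → ℤ, ∑ v, F v = F u := fun F =>
    Finset.sum_eq_single u (fun v _ hv => absurd (h.subsingleton_of_nine h9 v u) hv) (by simp)
  have hodd : ∀ χ ∈ hz d, ∀ i, r χ i = 1 ∨ r χ i = -1 := by
    intro χ hχ
    have e := hr χ hχ χ hχ
    rw [if_pos rfl, hsum, h.sq_eq u hχ, h.tau_eq_zero h9 u hχ] at e
    have h3 : ∀ i ∈ (Finset.univ : Finset κ), 0 ≤ r χ i * r χ i - 1 := fun i _ => by
      have := h0 χ hχ i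
      have : 0 < r χ i * r χ i := mul_self_pos.2 this
      omega
    have h4 : ∑ i, (r χ i * r χ i - 1) = 0 := by
      rw [Finset.sum_sub_distrib]; simp [hl]; omega
    intro i
    have := (Finset.sum_eq_zero_iff_of_nonneg h3).1 h4 i (Finset.mem_univ _)
    exact mul_self_eq_one_iff.1 (by omega)
  obtain ⟨ψ, hψ, hne⟩ : ∃ ψ ∈ hz d, ψ ≠ o :=
    Finset.exists_mem_ne (by omega) o
  have e := hr ψ hψ o h.o_mem
  rw [if_neg hne, hsum, h.x_o] at e
  have h7 : (2 : ℤ) ∣ ∑ i, (r ψ i * r o i - 1) := by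
    refine Finset.dvd_sum fun i _ => ?_
    rcases hodd ψ hψ i with a | a <;> rcases hodd o h.o_mem i with b | b <;>
      rw [a, b] <;> norm_num
  rw [Finset.sum_sub_distrib] at h7
  simp [hl] at h7
  rcases h.odd_of_nine h9 u hψ with a | a <;> rw [a] at e <;> omega

end UCols

/-- Twice the real part of the hermitian product of `a + b ω` and `a' + b' ω`. -/
def q (a b a' b' : ℤ) : ℤ := 2 * a * a' + 2 * b * b' - a * b' - b * a'

theorem q_sum (a b : κ → ℤ) :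
    ∑ i, ∑ j, q (a i) (b i) (a j) (b j) = q (∑ i, a i) (∑ i, b i) (∑ i, a i) (∑ i, b i) := by
  simp only [q, Finset.sum_sub_distrib, Finset.sum_add_distrib, mul_assoc, ← Finset.mul_sum,
    ← Finset.sum_mul]

theorem q_self_nonneg (a b : ℤ) : 0 ≤ q a b a b := by
  unfold q; nlinarith [sq_nonneg (a - b), sq_nonneg a, sq_nonneg b]

theorem two_le_q {a b : ℤ} (h : a ≠ 0 ∨ b ≠ 0) : 2 ≤ q a b a b := by
  have h1 : q a b a b = 2 * (a * a - a * b + b * b) := by unfold q; ring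
  have h2 : 0 < a * a - a * b + b * b := by
    rcases h with h | h
    · nlinarith [sq_nonneg (a - 2 * b), mul_self_pos.2 h]
    · nlinarith [sq_nonneg (2 * a - b), mul_self_pos.2 h]
  omega

theorem eq_zero_of_q {a b : ℤ} (h : q a b a b ≤ 1) : a = 0 ∧ b = 0 := by
  by_contra hne
  have := two_le_q (a := a) (b := b) (by tauto)
  omega

/-- rows of positive height -/
theorem row_pos (a b : κ → ℤ) (h : ∑ i, q (a i) (b i) (a i) (b i) ≤ 3)
    (nz : ∃ i, a i ≠ 0 ∨ b i ≠ 0) :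
    ∑ i, q (a i) (b i) (a i) (b i) = 2 ∧
      q (∑ i, a i) (∑ i, b i) (∑ i, a i) (∑ i, b i) = 2 := by
  obtain ⟨i, hi⟩ := nz
  have h1 := two_le_q hi
  have h2 : ∀ j, j ≠ i → a j = 0 ∧ b j = 0 := fun j hj => by
    have h3 : ∑ k ∈ ({j, i} : Finset κ), q (a k) (b k) (a k) (b k) ≤
        ∑ k, q (a k) (b k) (a k) (b k) :=
      Finset.sum_le_sum_of_subset_of_nonneg (Finset.subset_univ _)
        fun _ _ _ => q_self_nonneg _ _
    rw [Finset.sum_pair hj] at h3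
    exact eq_zero_of_q (by omega)
  have e1 : ∑ j, a j = a i := Finset.sum_eq_single i (fun j _ hj => (h2 j hj).1) (by simp)
  have e2 : ∑ j, b j = b i := Finset.sum_eq_single i (fun j _ hj => (h2 j hj).2) (by simp)
  have e3 : ∑ j, q (a j) (b j) (a j) (b j) = q (a i) (b i) (a i) (b i) :=
    Finset.sum_eq_single i (fun j _ hj => by rw [(h2 j hj).1, (h2 j hj).2]; rfl) (by simp)
  have h4 : q (a i) (b i) (a i) (b i) = 2 * (a i * a i - a i * b i + b i * b i) := by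
    unfold q; ring
  rw [e3] at h
  rw [e1, e2, e3]
  omega

theorem entry_cases {a b : ℤ} (h : 2 * (2 * a - b) + 3 * q a b a b ≤ 4) :
    (a = 0 ∧ b = 0) ∨ (a = -1 ∧ b = 0) ∨ (a = 0 ∧ b = 1) ∨ (a = -1 ∧ b = -1) := by
  unfold q at h
  have h0 : 27 * (a * a) + 18 * a ≤ 25 := by nlinarith [sq_nonneg (6 * b - 3 * a - 1)]
  have h1 : -1 ≤ a := by nlinarith
  have h2 : a ≤ 0 := by nlinarith
  have h3 : -1 ≤ b := by nlinarith [sq_nonneg (2 * a - b), sq_nonneg (a - 1), sq_nonneg (a + 1)]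
  have h4 : b ≤ 1 := by nlinarith [sq_nonneg (2 * a - b), sq_nonneg (a - 1), sq_nonneg (a + 1)]
  interval_cases a <;> interval_cases b <;> simp_all

theorem phi_nonneg (a b : ℤ) : 0 ≤ 2 * (2 * a - b) + 3 * q a b a b := by
  by_contra h
  rcases entry_cases (a := a) (b := b) (by omega) with ⟨rfl, rfl⟩ | ⟨rfl, rfl⟩ | ⟨rfl, rfl⟩ |
    ⟨rfl, rfl⟩ <;> simp [q] at h

/-- rows of height zero -/
theorem row_zero (a b : κ → ℤ) (τ : ℤ) (hτ : 0 ≤ τ)
    (h : 3 * (2 * ∑ i, (2 * a i - b i) + 3 * ∑ i, q (a i) (b i) (a i) (b i)) + 9 * τ ≤ 14) :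
    ∑ i, (2 * a i - b i) + q (∑ i, a i) (∑ i, b i) (∑ i, a i) (∑ i, b i) ≤
        ∑ i, q (a i) (b i) (a i) (b i) ∧
      2 * ∑ i, q (a i) (b i) (a i) (b i) ≤
        2 * (1 - τ) + q (∑ i, a i) (∑ i, b i) (∑ i, a i) (∑ i, b i) ∧
      0 ≤ ∑ i, (2 * a i - b i) + ∑ i, q (a i) (b i) (a i) (b i) ∧
      (τ ≠ 0 → ∀ i, 2 * a i - b i = 0) := by
  have hs : 2 * ∑ i, (2 * a i - b i) + 3 * ∑ i, q (a i) (b i) (a i) (b i) =
      ∑ i, (2 * (2 * a i - b i) + 3 * q (a i) (b i) (a i) (b i)) := by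
    rw [Finset.sum_add_distrib, ← Finset.mul_sum, ← Finset.mul_sum]
  have hc : ∀ i, (a i = 0 ∧ b i = 0) ∨ (a i = -1 ∧ b i = 0) ∨ (a i = 0 ∧ b i = 1) ∨
      (a i = -1 ∧ b i = -1) := fun i => by
    refine entry_cases ?_
    have := Finset.single_le_sum (f := fun i => 2 * (2 * a i - b i) + 3 * q (a i) (b i) (a i) (b i))
      (fun i _ => phi_nonneg _ _) (Finset.mem_univ i)
    omega
  obtain ⟨P, hP⟩ : ∃ P : κ → ℤ, P = fun i => if a i = -1 ∧ b i = 0 then 1 else 0 := ⟨_, rfl⟩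
  obtain ⟨Q, hQ⟩ : ∃ Q : κ → ℤ, Q = fun i => if a i = 0 ∧ b i = 1 then 1 else 0 := ⟨_, rfl⟩
  obtain ⟨R, hR⟩ : ∃ R : κ → ℤ, R = fun i => if a i = -1 ∧ b i = -1 then 1 else 0 := ⟨_, rfl⟩
  have key : ∀ i, a i = -P i - R i ∧ b i = Q i - R i ∧
      q (a i) (b i) (a i) (b i) = 2 * (P i + Q i + R i) ∧ 0 ≤ P i ∧ 0 ≤ Q i ∧ 0 ≤ R i := fun i => by
    rcases hc i with ⟨h1, h2⟩ | ⟨h1, h2⟩ | ⟨h1, h2⟩ | ⟨h1, h2⟩ <;>
      simp [hP, hQ, hR, h1, h2, q]
  have e1 : ∑ i, a i = -∑ i, P i - ∑ i, R i := by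
    rw [← Finset.sum_neg_distrib, ← Finset.sum_sub_distrib]
    exact Finset.sum_congr rfl fun i _ => (key i).1
  have e2 : ∑ i, b i = ∑ i, Q i - ∑ i, R i := by
    rw [← Finset.sum_sub_distrib]
    exact Finset.sum_congr rfl fun i _ => (key i).2.1
  have e3 : ∑ i, q (a i) (b i) (a i) (b i) = 2 * (∑ i, P i + ∑ i, Q i + ∑ i, R i) := by
    rw [← Finset.sum_add_distrib, ← Finset.sum_add_distrib, Finset.mul_sum]
    exact Finset.sum_congr rfl fun i _ => (key i).2.2.1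
  have e4 : ∑ i, (2 * a i - b i) = 2 * ∑ i, a i - ∑ i, b i := by
    rw [Finset.sum_sub_distrib, Finset.mul_sum]
  have p1 : 0 ≤ ∑ i, P i := Finset.sum_nonneg fun i _ => (key i).2.2.2.1
  have p2 : 0 ≤ ∑ i, Q i := Finset.sum_nonneg fun i _ => (key i).2.2.2.2.1
  have p3 : 0 ≤ ∑ i, R i := Finset.sum_nonneg fun i _ => (key i).2.2.2.2.2
  have hz : τ ≠ 0 → ∀ i, 2 * a i - b i = 0 := fun h0 i => by
    have := Finset.single_le_sum (f := fun i => 2 * (2 * a i - b i) + 3 * q (a i) (b i) (a i) (b i))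
      (fun i _ => phi_nonneg _ _) (Finset.mem_univ i)
    obtain ⟨k1, k2, k3, k4, k5, k6⟩ := key i
    omega
  refine ⟨?_, ?_, ?_, hz⟩
  all_goals
    rw [e4, e3, e1, e2] at h
    try rw [e4]
    rw [e3]
    try rw [e1, e2]
    generalize ∑ i, P i = α at *
    generalize ∑ i, Q i = β at *
    generalize ∑ i, R i = γ at *
    have b1 : α ≤ 2 := by omega
    have b2 : β ≤ 1 := by omega
    have b3 : γ ≤ 1 := by omega
    have b4 : τ ≤ 1 := by omega
    interval_cases α <;> interval_cases β <;> interval_cases γ <;> interval_cases τ <;>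
      first | omega | simp [q]

theorem UCols.main' {d : ι → ℤ} {x : μ → ι → ℤ} {o : ι} (h : UCols d x o) (u : μ)
    (A B a b : ι → κ → ℤ)
    (hA : ∀ χ ∈ hz d, ∀ i, A χ i = 1 + 3 * a χ i) (hA' : ∀ χ ∉ hz d, ∀ i, A χ i = 3 * a χ i)
    (hB : ∀ χ i, B χ i = 3 * b χ i)
    (col : ∀ i j, ∑ χ, q (A χ i) (B χ i) (A χ j) (B χ j) = if i = j then 54 else 0)
    (ucol : ∀ i, ∑ χ, x u χ * (sg (d χ) * (2 * A χ i - B χ i)) = 0)
    (row : ∀ χ, ∑ i, q (A χ i) (B χ i) (A χ i) (B χ i) + 3 * ∑ v, x v χ * x v χ ≤ 27)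
    (nz : ∀ χ, ∃ i, A χ i ≠ 0 ∨ B χ i ≠ 0) (hc : Fintype.card κ + Fintype.card μ = 6) :
    (hz d).card = 6 ∧ Fintype.card ι = 6 + 2 * Fintype.card κ := by
  obtain ⟨l, hl⟩ : ∃ l : ℤ, (Fintype.card κ : ℤ) = l := ⟨_, rfl⟩
  obtain ⟨c, hcc⟩ : ∃ c : ℤ, (Fintype.card μ : ℤ) = c := ⟨_, rfl⟩
  have hc1 : 1 ≤ c := by
    have : 0 < Fintype.card μ := Fintype.card_pos_iff.2 ⟨u⟩
    omega
  have hlc : l + c = 6 := by omega
  obtain ⟨t, ht⟩ : ∃ t : ι → ℤ, t = fun χ => ∑ i, (2 * a χ i - b χ i) := ⟨_, rfl⟩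
  obtain ⟨n, hn⟩ : ∃ n : ι → ℤ, n = fun χ => ∑ i, q (a χ i) (b χ i) (a χ i) (b χ i) := ⟨_, rfl⟩
  obtain ⟨N, hN⟩ : ∃ N : ι → ℤ, N = fun χ =>
    q (∑ i, a χ i) (∑ i, b χ i) (∑ i, a χ i) (∑ i, b χ i) := ⟨_, rfl⟩
  obtain ⟨τ, hτ⟩ : ∃ τ : ι → ℤ, τ = fun χ => ∑ v, UCols.tau x v χ := ⟨_, rfl⟩
  have hD : ∀ χ ∈ hz d, ∑ i, q (A χ i) (B χ i) (A χ i) (B χ i) = 2 * l + 6 * t χ + 9 * n χ := by
    intro χ hχ
    have : ∀ i, q (A χ i) (B χ i) (A χ i) (B χ i) =
        2 + 6 * (2 * a χ i - b χ i) + 9 * q (a χ i) (b χ i) (a χ i) (b χ i) := fun i => by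
      rw [hA χ hχ, hB]; unfold q; ring
    rw [Finset.sum_congr rfl fun i _ => this i, Finset.sum_add_distrib, Finset.sum_add_distrib,
      ← Finset.mul_sum, ← Finset.mul_sum, ht, hn]
    simp [hl, mul_comm]
  have hD' : ∀ χ ∉ hz d, ∑ i, q (A χ i) (B χ i) (A χ i) (B χ i) = 9 * n χ := by
    intro χ hχ
    rw [hn, Finset.mul_sum]
    exact Finset.sum_congr rfl fun i _ => by rw [hA' χ hχ, hB]; unfold q; ring
  have hsB : ∀ χ, ∑ i, B χ i = 3 * ∑ i, b χ i := fun χ => by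
    rw [Finset.mul_sum]; exact Finset.sum_congr rfl fun i _ => hB χ i
  have hS : ∀ χ ∈ hz d, q (∑ i, A χ i) (∑ i, B χ i) (∑ i, A χ i) (∑ i, B χ i) =
      2 * l * l + 6 * l * t χ + 9 * N χ := by
    intro χ hχ
    have e1 : ∑ i, A χ i = l + 3 * ∑ i, a χ i := by
      rw [Finset.sum_congr rfl fun i _ => hA χ hχ i, Finset.sum_add_distrib, ← Finset.mul_sum]
      simp [hl]
    rw [e1, hsB, ht, hN]
    simp only [Finset.sum_sub_distrib, ← Finset.mul_sum]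
    unfold q; ring
  have hS' : ∀ χ ∉ hz d, q (∑ i, A χ i) (∑ i, B χ i) (∑ i, A χ i) (∑ i, B χ i) = 9 * N χ := by
    intro χ hχ
    have e1 : ∑ i, A χ i = 3 * ∑ i, a χ i := by
      rw [Finset.mul_sum]; exact Finset.sum_congr rfl fun i _ => hA' χ hχ i
    rw [e1, hsB, hN]
    unfold q; ring
  have hpos : ∀ χ ∉ hz d, n χ = 2 ∧ N χ = 2 := by
    intro χ hχ
    have r := row χ
    have r0 : 0 ≤ ∑ v, x v χ * x v χ := Finset.sum_nonneg fun v _ => mul_self_nonneg _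
    rw [hD' χ hχ] at r
    rw [hn, hN]
    refine row_pos (a χ) (b χ) ?_ ?_
    · have : n χ ≤ 3 := by omega
      rwa [hn] at this
    · obtain ⟨i, hi⟩ := nz χ
      rw [hA' χ hχ, hB] at hi
      exact ⟨i, by omega⟩
  have hτ0 : ∀ χ, 0 ≤ τ χ := fun χ => by
    rw [hτ]; exact Finset.sum_nonneg fun v _ => UCols.tau_nonneg v χ
  have hzero : ∀ χ ∈ hz d, t χ + N χ ≤ n χ ∧ 2 * n χ ≤ 2 * (1 - τ χ) + N χ ∧ 0 ≤ t χ + n χ ∧
      (τ χ ≠ 0 → ∀ i, 2 * a χ i - b χ i = 0) := by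
    intro χ hχ
    have r := row χ
    have r0 : ∑ v, x v χ * x v χ = c + 3 * τ χ := by
      rw [Finset.sum_congr rfl fun v _ => h.sq_eq v hχ, Finset.sum_add_distrib, ← Finset.mul_sum,
        hτ]
      simp [hcc]
    rw [hD χ hχ, r0] at r
    have := row_zero (a χ) (b χ) (τ χ) (hτ0 χ) (by
      have : 3 * (2 * t χ + 3 * n χ) + 9 * τ χ ≤ 14 := by omega
      rwa [ht, hn] at this)
    rw [ht, hn, hN]
    exact this
  -- the sums
  have split : ∀ F : ι → ℤ, ∑ χ, F χ = ∑ χ ∈ hz d, F χ + ∑ χ ∈ (hz d)ᶜ, F χ := fun F =>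
    (Finset.sum_add_sum_compl _ _).symm
  obtain ⟨k₀, hk₀⟩ : ∃ k : ℤ, ((hz d).card : ℤ) = k := ⟨_, rfl⟩
  obtain ⟨k₁, hk₁⟩ : ∃ k : ℤ, ((hz d)ᶜ.card : ℤ) = k := ⟨_, rfl⟩
  have sD : k₀ * (2 * l) + 6 * ∑ χ ∈ hz d, t χ + 9 * ∑ χ ∈ hz d, n χ + k₁ * 18 = 54 * l := by
    have e : ∑ i, ∑ χ, q (A χ i) (B χ i) (A χ i) (B χ i) = 54 * l := by
      rw [Finset.sum_congr rfl fun i _ => col i i]; simp [hl, mul_comm]
    rw [Finset.sum_comm, split, Finset.sum_congr rfl hD,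
      Finset.sum_congr rfl fun χ hχ => (hD' χ (Finset.mem_compl.1 hχ)).trans
        (by rw [(hpos χ (Finset.mem_compl.1 hχ)).1]),
      Finset.sum_add_distrib, Finset.sum_add_distrib, ← Finset.mul_sum _ _ 6,
      ← Finset.mul_sum _ _ 9, Finset.sum_const, Finset.sum_const, nsmul_eq_mul, nsmul_eq_mul,
      hk₀, hk₁] at e
    linarith
  have sS : k₀ * (2 * l * l) + 6 * l * ∑ χ ∈ hz d, t χ + 9 * ∑ χ ∈ hz d, N χ + k₁ * 18 =
      54 * l := by
    have e : ∑ i, ∑ j, ∑ χ, q (A χ i) (B χ i) (A χ j) (B χ j) = 54 * l := by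
      simp [col, hl, mul_comm]
    rw [Finset.sum_congr rfl fun i _ => Finset.sum_comm, Finset.sum_comm,
      Finset.sum_congr rfl fun χ _ => q_sum (A χ) (B χ), split, Finset.sum_congr rfl hS,
      Finset.sum_congr rfl fun χ hχ => (hS' χ (Finset.mem_compl.1 hχ)).trans
        (by rw [(hpos χ (Finset.mem_compl.1 hχ)).2]),
      Finset.sum_add_distrib, Finset.sum_add_distrib, ← Finset.mul_sum _ _ (6 * l),
      ← Finset.mul_sum _ _ 9, Finset.sum_const, Finset.sum_const, nsmul_eq_mul, nsmul_eq_mul,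
      hk₀, hk₁] at e
    linarith
  have hcu := h.card_add u
  have sU : ∀ i, 2 * k₀ - 6 * ∑ χ ∈ hz d, UCols.tau x u χ +
      3 * ∑ χ ∈ hz d, (2 * a χ i - b χ i) = 0 := by
    intro i
    have e := ucol i
    have : ∀ χ ∈ hz d, x u χ * (sg (d χ) * (2 * A χ i - B χ i)) =
        2 - 6 * UCols.tau x u χ + 3 * (2 * a χ i - b χ i) := fun χ hχ => by
      rw [← mul_assoc, mul_comm (x u χ), h.sg_mul_eq u hχ, hA χ hχ, hB]
      rcases UCols.tau_cases (x := x) u χ with e | e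
      · rw [e]; ring
      · have h1 : UCols.tau x u χ ≤ τ χ := by
          rw [hτ]
          exact Finset.single_le_sum (f := fun v => UCols.tau x v χ)
            (fun v _ => UCols.tau_nonneg v χ) (Finset.mem_univ u)
        have h2 := (hzero χ hχ).2.2.2 (by omega) i
        rw [e]; linear_combination (-9) * h2
    rw [h.sum_hz, Finset.sum_congr rfl this, Finset.sum_add_distrib, Finset.sum_sub_distrib,
      ← Finset.mul_sum, ← Finset.mul_sum, Finset.sum_const, nsmul_eq_mul, hk₀] at e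
    linarith
  have sT : ∀ m : ℤ, (∀ i, ∑ χ ∈ hz d, (2 * a χ i - b χ i) = m) → ∑ χ ∈ hz d, t χ = l * m := by
    intro m hm
    rw [ht, Finset.sum_comm, Finset.sum_congr rfl fun i _ => hm i]
    simp [hl]
  have i1 : ∑ χ ∈ hz d, t χ + ∑ χ ∈ hz d, N χ ≤ ∑ χ ∈ hz d, n χ := by
    rw [← Finset.sum_add_distrib]; exact Finset.sum_le_sum fun χ hχ => (hzero χ hχ).1
  have i2 : 2 * ∑ χ ∈ hz d, n χ ≤ 2 * (k₀ - ∑ χ ∈ hz d, τ χ) + ∑ χ ∈ hz d, N χ := by
    have := Finset.sum_le_sum fun χ hχ => (hzero χ hχ).2.1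
    rw [← Finset.mul_sum, Finset.sum_add_distrib, ← Finset.mul_sum, Finset.sum_sub_distrib,
      Finset.sum_const, nsmul_eq_mul, hk₀, mul_one] at this
    exact this
  have i3 : 0 ≤ ∑ χ ∈ hz d, t χ + ∑ χ ∈ hz d, n χ := by
    rw [← Finset.sum_add_distrib]; exact Finset.sum_nonneg fun χ hχ => (hzero χ hχ).2.2.1
  rw [hk₀] at hcu
  rcases h.card_cases u with h6 | h9
  · refine ⟨h6, ?_⟩
    have k6 : k₀ = 6 := by omega
    have st := sT (-2) fun i => by have := sU i; omega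
    have sτ : ∑ χ ∈ hz d, τ χ = c := by
      rw [hτ, Finset.sum_comm, Finset.sum_congr rfl fun v _ =>
        show ∑ χ ∈ hz d, UCols.tau x v χ = 1 by have := h.card_add v; omega]
      simp [hcc]
    rw [st, k6] at sD sS
    rw [st] at i3
    rw [sτ, k6] at i2
    have e1 : ∑ χ ∈ hz d, N χ = ∑ χ ∈ hz d, n χ := by linarith
    have e2 := Finset.card_add_card_compl (hz d)
    omega
  · exfalso
    have k9 : k₀ = 9 := by omega
    have := h.card_eq_one_of_nine h9 u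
    have l5 : l = 5 := by omega
    have st := sT (-6) fun i => by have := sU i; omega
    rw [st, k9, l5] at sD sS
    rw [st, l5] at i1
    omega

theorem UCols.main {d : ι → ℤ} {x : μ → ι → ℤ} {o : ι} (h : UCols d x o) (u : μ)
    (A B : ι → κ → ℤ) (kap : κ → ℤ) (hκ : ∀ i, ¬ 3 ∣ kap i)
    (hA : ∀ χ i, 3 ∣ A χ i - kap i * d χ) (hB : ∀ χ i, 3 ∣ B χ i)
    (col : ∀ i j, ∑ χ, q (A χ i) (B χ i) (A χ j) (B χ j) = if i = j then 54 else 0)
    (ucol : ∀ i, ∑ χ, x u χ * (2 * A χ i - B χ i) = 0)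
    (row : ∀ χ, ∑ i, q (A χ i) (B χ i) (A χ i) (B χ i) + 3 * ∑ v, x v χ * x v χ ≤ 27)
    (nz : ∀ χ, ∃ i, A χ i ≠ 0 ∨ B χ i ≠ 0) (hc : Fintype.card κ + Fintype.card μ = 6) :
    (hz d).card = 6 ∧ Fintype.card ι = 6 + 2 * Fintype.card κ := by
  have ha : ∀ χ i, ∃ a : ℤ, sg (d χ) * sg (kap i) * A χ i =
      (if χ ∈ hz d then 1 else 0) + 3 * a := by
    intro χ i
    obtain ⟨m, hm⟩ := hA χ i
    have e : A χ i = kap i * d χ + 3 * m := by omega
    obtain ⟨k, hk⟩ := dvd_sg_mul (hκ i)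
    split_ifs with hχ
    · obtain ⟨k', hk'⟩ := dvd_sg_mul (mem_hz.1 hχ)
      refine ⟨sg (d χ) * sg (kap i) * m + k + k' + 3 * k * k', ?_⟩
      rw [e]
      linear_combination (sg (d χ) * d χ) * hk + (1 + 3 * k) * hk'
    · rw [mem_hz, not_not] at hχ
      obtain ⟨k', hk'⟩ := hχ
      exact ⟨sg (d χ) * sg (kap i) * (m + kap i * k'), by
        rw [e]; linear_combination (sg (d χ) * sg (kap i) * kap i) * hk'⟩
  choose a ha using ha
  choose b hb using hB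
  have hq : ∀ χ i j, q (sg (d χ) * sg (kap i) * A χ i) (sg (d χ) * sg (kap i) * B χ i)
      (sg (d χ) * sg (kap j) * A χ j) (sg (d χ) * sg (kap j) * B χ j) =
      sg (kap i) * sg (kap j) * q (A χ i) (B χ i) (A χ j) (B χ j) := fun χ i j => by
    unfold q
    linear_combination (sg (kap i) * sg (kap j) * (2 * A χ i * A χ j + 2 * B χ i * B χ j -
      A χ i * B χ j - B χ i * A χ j)) * sg_mul_self (d χ)
  refine h.main' u (fun χ i => sg (d χ) * sg (kap i) * A χ i)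
    (fun χ i => sg (d χ) * sg (kap i) * B χ i) a (fun χ i => sg (d χ) * sg (kap i) * b χ i)
    (fun χ hχ i => by rw [ha, if_pos hχ]) (fun χ hχ i => by rw [ha, if_neg hχ, zero_add])
    (fun χ i => by rw [hb]; ring) (fun i j => ?_) (fun i => ?_) (fun χ => ?_) (fun χ => ?_) hc
  · rw [Finset.sum_congr rfl fun χ _ => hq χ i j, ← Finset.mul_sum, col]
    split_ifs with hij
    · rw [hij, sg_mul_self]; norm_num
    · simp
  · have : ∀ χ, x u χ * (sg (d χ) * (2 * (sg (d χ) * sg (kap i) * A χ i) -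
        sg (d χ) * sg (kap i) * B χ i)) = sg (kap i) * (x u χ * (2 * A χ i - B χ i)) :=
      fun χ => by
        linear_combination (sg (kap i) * (x u χ * (2 * A χ i - B χ i))) * sg_mul_self (d χ)
    rw [Finset.sum_congr rfl fun χ _ => this χ, ← Finset.mul_sum, ucol, mul_zero]
  · rw [Finset.sum_congr rfl fun i _ => hq χ i i]
    simpa [sg_mul_self] using row χ
  · obtain ⟨i, hi⟩ := nz χ
    refine ⟨i, ?_⟩
    rcases sg_cases (d χ) with e | e <;> rcases sg_cases (kap i) with e' | e' <;>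
      simpa [e, e'] using hi

end Cfsg.Ext27C

set_option linter.all false in
theorem Cfsg.Rz.Blk_Ext27Comb_0 : True := by
  have := @_root_.Cfsg.Ext27C.sg.eq_def
  have := @_root_.Cfsg.Ext27C.sg.eq_1
  have := @_root_.Cfsg.Ext27C.sg.fun_cases
  have := @_root_.Cfsg.Ext27C.hz.eq_def.{0}
  have := @_root_.Cfsg.Ext27C.hz.fun_cases
  have := @_root_.Cfsg.Ext27C.UCols.mk.congr_simp.{0, 0}
  have := @_root_.Cfsg.Ext27C.q.eq_def
  have := @_root_.Cfsg.Ext27C.q.fun_cases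
  have := @_root_.Cfsg.Ext27C.UCols.tau.eq_def.{0, 0}
  have := @_root_.Cfsg.Ext27C.UCols.tau.eq_1.{0, 0}
  have := @_root_.Cfsg.Ext27C.UCols.tau.fun_cases.{0, 0}
  trivial
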