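import Cfsg.Agent.Blk.PrinAb
import Cfsg.Agent.Blk.Ext27Comb
import Cfsg.Agent.Grp.Ext27

/-!
# Principal 3-block, extraspecial Sylow subgroup of order 27 : columns of the noncentral elements
-/

set_option autoImplicit false
set_option linter.unusedSectionVars false
set_option linter.unusedVariables false
set_option linter.style.haveILetI false

namespace Cfsg

open scoped ComplexConjugate Classical
open Ext27C

universe u v

variable {G : Type u} [Group G] [Finite G] {M : Ideal AlgInt}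

local notation "C₁(" u ")" => Subgroup.centralizer ({u} : Set _)
local notation "B₀" => principalBlock M

theorem isPElt_three_of_cube {g : G} (h : g ^ 3 = 1) : IsPElt 3 g :=
  haveI : Fact (Nat.Prime 3) := ⟨Nat.prime_three⟩
  isPElt_iff_pow_eq_one.2 ⟨1, by simpa using h⟩

theorem IrrCharacter.exists_int_of_cube (χ : IrrCharacter G) {u : G} (hu : u ^ 3 = 1)
    (hr : IsConj u u⁻¹) : ∃ m : ℤ, χ u = m := by
  refine χ.isCharacter.isGen.exists_int_of_forall_pow fun k hk => ?_
  by_cases h1 : u = 1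
  · rw [h1, one_pow]
  have ho : orderOf u = 3 :=
    haveI : Fact (Nat.Prime 3) := ⟨Nat.prime_three⟩
    orderOf_eq_prime hu h1
  rw [ho] at hk
  have h3 : ¬ 3 ∣ k := (Nat.Prime.coprime_iff_not_dvd Nat.prime_three).1 hk.symm
  rw [← Nat.div_add_mod k 3, pow_add, pow_mul, hu, one_pow, one_mul]
  have : k % 3 = 1 ∨ k % 3 = 2 := by omega
  rcases this with e | e
  · rw [e, pow_one]
  · rw [e, show u ^ 2 = u⁻¹ from eq_inv_of_mul_eq_one_left (by rw [← pow_succ, hu])]
    exact (χ.isClassFunction.eq_of_isConj hr).symm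

theorem IsPModular.dvd_sub_of_red_eq (hM : IsPModular 3 M) {a b : ℤ}
    (h : red M (a : ℂ) = red M (b : ℂ)) : 3 ∣ a - b := by
  have := (red_eq_red_iff (intCast_mem _ a) (intCast_mem _ b)).1 h
  rw [← Int.cast_sub, hM.vM_intCast_lt_one_iff] at this
  exact_mod_cast this

theorem indicator_pSection_one {p : ℕ} [Fact p.Prime] (θ : G → ℂ) :
    (pSection p (1 : G)).indicator θ = pRegularPart p θ := by
  funext g
  by_cases hg : IsPRegular p g
  · rw [pRegularPart_of_reg hg, Set.indicator_of_mem]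
    rw [mem_pSection, pPart_eq_one_iff.2 hg]
  · rw [pRegularPart_of_not_reg hg, Set.indicator_of_notMem]
    rw [mem_pSection, isConj_one_left, pPart_eq_one_iff]
    exact hg

namespace Ext27

variable {z : G} {U : Finset G}

theorem isPElt_z (h : Ext27 z U) : IsPElt 3 z := isPElt_three_of_cube h.z_cube

theorem isPElt_zinv (h : Ext27 z U) : IsPElt 3 z⁻¹ :=
  isPElt_three_of_cube (by rw [inv_pow, h.z_cube, inv_one])

theorem isPElt (h : Ext27 z U) {u : G} (hu : u ∈ U) : IsPElt 3 u :=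
  isPElt_three_of_cube (h.cube u hu)

theorem z_ne_inv (h : Ext27 z U) : z ≠ z⁻¹ := fun e => h.z_ne (by
  have e1 : z * z = 1 := by nth_rewrite 1 [e]; exact inv_mul_cancel z
  have e2 := h.z_cube
  rwa [pow_succ, pow_two, e1, one_mul] at e2)

theorem one_notMem (h : Ext27 z U) : (1 : G) ∉ U := fun e => by
  have e1 := h.cardu 1 e
  rw [card_centralizer_one, h.card] at e1
  omega

theorem z_notMem (h : Ext27 z U) : z ∉ U := fun e => by
  have e1 := h.cardu z e
  rw [h.cardz] at e1
  omega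

theorem zinv_notMem (h : Ext27 z U) : z⁻¹ ∉ U := fun e => by
  have e1 := h.cardu _ e
  have : (C₁(z⁻¹) : Subgroup G) = C₁(z) := by
    ext g
    simp only [Subgroup.mem_centralizer_singleton_iff]
    exact ⟨fun e => (Commute.inv_right_iff.1 e : Commute g z),
      fun e => (Commute.inv_right e : Commute g z⁻¹)⟩
  rw [this, h.cardz] at e1
  omega

theorem sum_reps {α : Type*} [AddCommMonoid α] (h : Ext27 z U) (F : G → α) :
    ∑ x ∈ insert 1 (insert z (insert z⁻¹ U)), F x = F 1 + F z + F z⁻¹ + ∑ u : U, F u := by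
  rw [Finset.sum_insert, Finset.sum_insert, Finset.sum_insert h.zinv_notMem,
    ← Finset.sum_coe_sort U, add_assoc, add_assoc]
  · simp [h.z_ne_inv, h.z_notMem]
  · simp [h.z_ne.symm, h.one_notMem, h.z_ne]

theorem isPElt_reps (h : Ext27 z U) :
    ∀ x ∈ insert 1 (insert z (insert z⁻¹ U)), IsPElt 3 x := by
  intro x hx
  simp only [Finset.mem_insert] at hx
  rcases hx with rfl | rfl | rfl | hx
  exacts [isPElt_one 3, h.isPElt_z, h.isPElt_zinv, h.isPElt hx]

theorem eq_of_isConj (h : Ext27 z U) {x y : G} (hx : x ∈ insert 1 (insert z (insert z⁻¹ U)))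
    (hy : y ∈ insert 1 (insert z (insert z⁻¹ U))) (hc : IsConj x y) : x = y :=
  (h.reps x (h.isPElt_reps x hx)).unique ⟨hx, IsConj.refl x⟩ ⟨hy, hc⟩

theorem mem_reps (h : Ext27 z U) {u : G} (hu : u ∈ U) :
    u ∈ insert 1 (insert z (insert z⁻¹ U)) := by simp [hu]

theorem not_isConj_z (h : Ext27 z U) {u : G} (hu : u ∈ U) : ¬ IsConj u z := fun e =>
  h.z_notMem (h.eq_of_isConj (h.mem_reps hu) (by simp) e ▸ hu)

theorem ip_eq (h : Ext27 z U) (hM : IsPModular 3 M) {χ ψ : IrrCharacter G} (hχ : χ ∈ B₀ G)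
    (hψ : ψ ∈ B₀ G) :
    ip χ.1 ψ.1 = ip (pRegularPart 3 χ.1) ψ.1 + ip ((pSection 3 z).indicator χ.1) ψ.1 +
      ip ((pSection 3 z⁻¹).indicator χ.1) ψ.1 + ∑ u : U, χ u * conj (ψ u) / 9 := by
  haveI := hM.fact
  conv_lhs => rw [← sum_indicator_pSection h.reps χ.1, ip_sum_left, h.sum_reps]
  rw [indicator_pSection_one]
  congr 1
  refine Finset.sum_congr rfl fun u _ => ?_
  have : (pSection 3 (u : G)).indicator χ.1 = χ u • secOne 3 (u : G) := by
    funext g
    by_cases hg : g ∈ pSection 3 (u : G)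
    · rw [Set.indicator_of_mem hg, Pi.smul_apply, secOne_of_mem hg, smul_eq_mul, mul_one]
      exact irr_apply_of_mem_pSection hM (h.isPElt u.2) (h.nilp _ u.2) hχ hg
    · rw [Set.indicator_of_notMem hg, Pi.smul_apply, secOne_of_notMem hg, smul_zero]
  rw [this, ip_smul_left, ip_secOne_irr hM (h.isPElt u.2) (h.nilp _ u.2) hψ, h.cardu _ u.2]
  norm_num [mul_div_assoc]

theorem exists_ucols (h : Ext27 z U) (hM : IsPModular 3 M) (hr : ∀ u ∈ U, IsConj u u⁻¹) :
    ∃ x : U → B₀ G → ℤ, (∀ u χ, χ.1 u = x u χ) ∧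
      UCols (fun χ : B₀ G => (charDegree χ.1.1 : ℤ)) x ⟨_, hM.one_mem_principalBlock⟩ := by
  haveI := hM.fact
  choose x hx using fun (u : U) (χ : B₀ G) =>
    χ.1.exists_int_of_cube (h.cube _ u.2) (hr _ u.2)
  have key : ∀ (u : U) (g : G), ∑ χ : B₀ G, χ.1 g * x u χ = 9 * secOne 3 (u : G) g := by
    intro u g
    have e := finsum_principal_mul_conj hM (h.isPElt u.2) (h.nilp _ u.2) g
    rw [finsum_mem_irr_eq_sum_coe, h.cardu _ u.2] at e
    simp only [hx, map_intCast] at e
    rw [e]; norm_num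
  refine ⟨x, hx, ?_, fun u => ?_, fun u χ => ?_, fun u => ?_, fun u v huv => ?_, fun u => ?_⟩
  · exact_mod_cast charDegree_eq_of_apply_one (n := 1) (by simp)
  · have := hx u ⟨_, hM.one_mem_principalBlock⟩
    rw [IrrCharacter.one_apply] at this
    exact_mod_cast this.symm
  · refine hM.dvd_sub_of_red_eq ?_
    have := χ.1.isCharacter.isGen.red_mul_eq hM (Commute.one_right (u : G)) (h.isPElt u.2)
    rw [mul_one, hx, χ.1.apply_one] at this
    rw [this, Int.cast_natCast]
  · have e := key u u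
    rw [secOne_of_mem (self_mem_pSection (h.isPElt u.2))] at e
    simp only [hx] at e
    exact_mod_cast e
  · have e := key v u
    rw [secOne_of_notMem] at e
    · simp only [hx] at e
      exact_mod_cast e
    · rw [mem_pSection_iff_isConj (h.isPElt u.2)]
      exact fun hc => huv (Subtype.ext (h.eq_of_isConj (h.mem_reps u.2) (h.mem_reps v.2) hc))
  · have e := key u 1
    rw [secOne_of_notMem] at e
    · simp only [IrrCharacter.apply_one, mul_comm] at e
      exact_mod_cast e
    · rw [mem_pSection_iff_isConj (isPElt_one 3), isConj_one_right]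
      exact fun hc => h.one_notMem (hc ▸ u.2)

end Ext27

/-- The members of `b` on which `z` acts as the scalar `w`. -/
def lamSet (b : Set (IrrCharacter G)) (z : G) (w : ℂ) : Set (IrrCharacter G) :=
  {ψ | ψ ∈ b ∧ ψ z / ψ 1 = w}

theorem IrrCharacter.apply_central_mul (ψ : IrrCharacter G) {z : G} (hz : z ∈ Subgroup.center G)
    (g : G) : ψ (z * g) = ψ z / ψ 1 * ψ g := by
  have := ψ.apply_mul_of_mem_center hz g
  rw [Subgroup.mem_center_iff.1 hz] at this
  have h1 := ψ.apply_one_ne_zero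
  field_simp
  linear_combination this

theorem eq_sum_lamSet {b : Set (IrrCharacter G)} {z : G} (hz : z ∈ Subgroup.center G)
    (hz1 : z ≠ 1) (hz3 : z ^ 3 = 1) {w : ℂ} (hw : w ^ 3 = 1) {η : G → ℂ}
    (h1 : blockPart b η = η) (h2 : pRegularPart 3 η = η) :
    η = ∑ i : lamSet b z w, (3 * ip η i.1.1) • pRegularPart 3 i.1.1 := by
  haveI : Fact (Nat.Prime 3) := ⟨Nat.prime_three⟩
  funext s
  rw [Finset.sum_apply]
  by_cases hs : IsPRegular 3 s
  swap
  · rw [← h2, pRegularPart_of_not_reg hs]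
    simp [pRegularPart_of_not_reg hs]
  have hv : ∀ y : G, y ∈ Subgroup.center G → y ≠ 1 → y ^ 3 = 1 → η (y * s) = 0 := by
    intro y hy hy1 hy3
    rw [← h2, pRegularPart_of_not_reg]
    rw [← pPart_eq_one_iff, pPart_mul_eq (Subgroup.mem_center_iff.1 hy s).symm
      (isPElt_three_of_cube hy3) hs]
    exact hy1
  have hzz : z * z ≠ 1 := fun e => hz1 (by rwa [pow_succ, pow_two, e, one_mul] at hz3)
  have e0 := congrFun (blockPart_eq_sum_of_eq h1)
  simp only [Finset.sum_apply, Pi.smul_apply, smul_eq_mul] at e0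
  have e1 := hv z hz hz1 hz3
  have e2 := hv (z * z) (mul_mem hz hz) hzz (by
    rw [(Commute.refl z).mul_pow, hz3, one_mul])
  rw [e0] at e1 e2
  have e3 : η s = ∑ χ : IrrCharacter G with χ ∈ b,
      if χ z / χ 1 = w then 3 * ip η χ.1 * χ s else 0 := by
    rw [← add_zero (η s), ← add_zero (0 : ℂ), e0 s]
    nth_rewrite 1 [← mul_zero (w ^ 2), ← e1]
    nth_rewrite 1 [← mul_zero w, ← e2]
    rw [Finset.mul_sum, Finset.mul_sum, ← Finset.sum_add_distrib, ← Finset.sum_add_distrib]
    refine Finset.sum_congr rfl fun χ _ => ?_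
    rw [mul_assoc z, χ.apply_central_mul hz, χ.apply_central_mul hz (z * s),
      χ.apply_central_mul hz s]
    have h3 := χ.div_pow_eq_one_of_mem_center hz hz3
    generalize χ z / χ 1 = l at *
    split_ifs with hl
    · rw [hl]; linear_combination (2 * ip η χ.1 * χ s) * hw
    · have h4 : (l - w) * (1 + w ^ 2 * l + w * l * l) = 0 := by
        linear_combination w * h3 - l * hw
      have h5 := (mul_eq_zero.1 h4).resolve_left (sub_ne_zero.2 hl)
      linear_combination (ip η χ.1 * χ s) * h5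
  rw [e3, ← Finset.sum_filter, Finset.filter_filter]
  rw [Finset.sum_subtype (p := (· ∈ lamSet b z w)) _ (by simp [lamSet])]
  exact Finset.sum_congr rfl fun i _ => by
    rw [Pi.smul_apply, pRegularPart_of_reg hs, smul_eq_mul]

theorem ip_eq_sum_lamSet {b : Set (IrrCharacter G)} {z : G} (hz : z ∈ Subgroup.center G)
    (hz1 : z ≠ 1) (hz3 : z ^ 3 = 1) {w : ℂ} (hw : w ^ 3 = 1) {η : G → ℂ}
    (h1 : blockPart b η = η) (h2 : pRegularPart 3 η = η) (φ : G → ℂ) :
    ip η φ = 3 * ∑ i : lamSet b z w, ip η i.1.1 * conj (ip (pRegularPart 3 φ) i.1.1) := by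
  conv_lhs => rw [eq_sum_lamSet hz hz1 hz3 hw h1 h2]
  rw [ip_sum_left, Finset.mul_sum]
  refine Finset.sum_congr rfl fun i _ => ?_
  rw [ip_smul_left, conj_ip, ip_pRegularPart_comm, mul_assoc]

end Cfsg

set_option linter.all false in
theorem Cfsg.Rz.Blk_Ext27A_0 : True := by
  have := @_root_.Cfsg.lamSet.eq_def.{0}
  have := @_root_.Cfsg.lamSet.fun_cases
  trivial
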