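import Cfsg.Agent.Blk.Ext27A

/-!
# Principal 3-block, extraspecial Sylow subgroup of order 27 : the centralizer of the centre
-/

set_option autoImplicit false
set_option linter.unusedSectionVars false
set_option linter.unusedVariables false
set_option linter.style.haveILetI false

namespace Cfsg

open scoped ComplexConjugate Classical
open Ext27C

universe u v

variable {H : Type u} [Group H] [Finite H] {M : Ideal AlgInt}

local notation "B₀" => principalBlock M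

theorem mul_conj_eq_one_of_cube {l : ℂ} (h : l ^ 3 = 1) : l * conj l = 1 := by
  have h1 : ‖l‖ = 1 := by
    have : ‖l‖ ^ 3 = 1 := by rw [← norm_pow, h, norm_one]
    exact (pow_eq_one_iff_of_nonneg (norm_nonneg l) (by norm_num)).1 this
  rw [Complex.mul_conj, Complex.normSq_eq_norm_sq, h1]; simp

theorem IrrCharacter.div_inv_eq (ψ : IrrCharacter H) (z : H) :
    ψ z⁻¹ / ψ 1 = conj (ψ z / ψ 1) := by
  rw [ψ.apply_inv, map_div₀, ψ.apply_one, map_natCast]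

theorem ip_indicator_central {y : H} (hy : y ∈ Subgroup.center H) (hy3 : y ^ 3 = 1)
    {χ ψ : IrrCharacter H} (e : χ y / χ 1 = ψ y / ψ 1) :
    ip ((pSection 3 y).indicator χ.1) ψ.1 = ip (pRegularPart 3 χ.1) ψ.1 := by
  haveI : Fact (Nat.Prime 3) := ⟨Nat.prime_three⟩
  have hs : ∀ θ : IrrCharacter H, secFun (MonoidHom.id H) y θ.1 = (θ y / θ 1) • θ.1 := fun θ =>
    funext fun g => θ.apply_central_mul hy g
  rw [(isSec_id (isPElt_three_of_cube hy3) hy).ip_indicator_pSection χ.isClassFunction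
    ψ.isClassFunction, hs, hs, pRegularPart_smul, ip_smul_left, ip_smul_right, ← mul_assoc, e,
    mul_conj_eq_one_of_cube (ψ.div_pow_eq_one_of_mem_center hy hy3), one_mul]

namespace Ext27

variable {z : H} {U : Finset H}

theorem ip_central (h : Ext27 z U) (hM : IsPModular 3 M) (hz : z ∈ Subgroup.center H)
    {χ ψ : IrrCharacter H} (hχ : χ ∈ B₀ H) (hψ : ψ ∈ B₀ H) (e : χ z / χ 1 = ψ z / ψ 1) :
    ip χ.1 ψ.1 = 3 * ip (pRegularPart 3 χ.1) ψ.1 + ∑ u : U, χ u * conj (ψ u) / 9 := by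
  rw [h.ip_eq hM hχ hψ, ip_indicator_central hz h.z_cube e,
    ip_indicator_central (inv_mem hz) (by rw [inv_pow, h.z_cube, inv_one])
      (by rw [χ.div_inv_eq, ψ.div_inv_eq, e])]
  ring

theorem apply_eq_zero (h : Ext27 z U) (hz : z ∈ Subgroup.center H) {ψ : IrrCharacter H}
    (e : ψ z / ψ 1 ≠ 1) {u : H} (hu : u ∈ U) : ψ u = 0 := by
  have h1 := ψ.isClassFunction.eq_of_isConj (h.shift u hu)
  rw [Subgroup.mem_center_iff.1 hz, ψ.apply_central_mul hz] at h1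
  have : (ψ z / ψ 1 - 1) * ψ u = 0 := by linear_combination -h1
  exact (mul_eq_zero.1 this).resolve_left (sub_ne_zero.2 e)

theorem ip_lamSet (h : Ext27 z U) (hM : IsPModular 3 M) (hz : z ∈ Subgroup.center H) {w : ℂ}
    (hw : w ≠ 1) (i j : lamSet (B₀ H) z w) :
    3 * ip (pRegularPart 3 i.1.1) j.1.1 = if i = j then 1 else 0 := by
  have e := h.ip_central hM hz i.2.1 j.2.1 (i.2.2.trans j.2.2.symm)
  rw [Finset.sum_eq_zero fun u _ => by
    rw [h.apply_eq_zero hz (i.2.2.trans_ne hw) u.2, zero_mul, zero_div], add_zero,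
    IrrCharacter.ip_eq] at e
  rw [← e]
  simp [Subtype.ext_iff]

theorem ip_reg (h : Ext27 z U) (hM : IsPModular 3 M) (hz : z ∈ Subgroup.center H) {w : ℂ}
    (hw : w ^ 3 = 1) {χ : IrrCharacter H} (hχ : χ ∈ B₀ H) (ψ : IrrCharacter H) :
    ip (pRegularPart 3 χ.1) ψ.1 = 3 * ∑ i : lamSet (B₀ H) z w,
      ip (pRegularPart 3 χ.1) i.1.1 * ip (pRegularPart 3 ψ.1) i.1.1 := by
  haveI := hM.fact
  rw [ip_eq_sum_lamSet hz h.z_ne h.z_cube hw
    (isPBlock_principalBlock.blockPart_pRegularPart_irr hM hχ) (pRegularPart_idem _)]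
  simp only [conj_ip_pRegularPart]

theorem blockRank_eq (h : Ext27 z U) (hM : IsPModular 3 M) (hz : z ∈ Subgroup.center H) {w : ℂ}
    (hw : w ^ 3 = 1) :
    (blockRank 3 (B₀ H) : ℂ) = ∑ i : lamSet (B₀ H) z w, 3 * ip (pRegularPart 3 i.1.1) i.1.1 := by
  haveI := hM.fact
  rw [isPBlock_principalBlock.blockRank_eq_finsum hM, finsum_mem_irr_eq_sum_coe,
    Finset.sum_congr rfl fun (χ : B₀ H) _ => h.ip_reg hM hz hw χ.2 χ.1, ← Finset.mul_sum,
    Finset.sum_comm, Finset.mul_sum]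
  refine Finset.sum_congr rfl fun i _ => ?_
  rw [← isPBlock_principalBlock.finsum_contrib_mul hM i.2.1 i.1, finsum_mem_irr_eq_sum_coe]
  simp only [ip_pRegularPart_symm i.1]

theorem card_lamSet (h : Ext27 z U) (hM : IsPModular 3 M) (hz : z ∈ Subgroup.center H) {w : ℂ}
    (hw : w ^ 3 = 1) (hw1 : w ≠ 1) : Fintype.card (lamSet (B₀ H) z w) = blockRank 3 (B₀ H) := by
  have e := h.blockRank_eq hM hz hw
  simp only [h.ip_lamSet hM hz hw1, if_true, Finset.sum_const, Finset.card_univ, nsmul_eq_mul,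
    mul_one] at e
  exact_mod_cast e.symm

section

variable {x : U → principalBlock M H → ℤ} {o : principalBlock M H}

theorem notMem_hz (h : Ext27 z U) (hz : z ∈ Subgroup.center H) (hx : ∀ u χ, χ.1 u = x u χ)
    (hc : UCols (fun χ : B₀ H => (charDegree χ.1.1 : ℤ)) x o) (u : U) {ψ : B₀ H}
    (e : ψ.1 z / ψ.1 1 ≠ 1) : 3 ∣ charDegree ψ.1.1 := by
  by_contra hn
  have h1 := hc.cases u (χ := ψ) (mem_hz.2 (by exact_mod_cast hn))
  have h2 := h.apply_eq_zero hz e u.2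
  rw [hx, Int.cast_eq_zero] at h2
  rw [h2] at h1
  omega

theorem mem_hz_iff (h : Ext27 z U) (hM : IsPModular 3 M) (hz : z ∈ Subgroup.center H)
    (hx : ∀ u χ, χ.1 u = x u χ) (hc : UCols (fun χ : B₀ H => (charDegree χ.1.1 : ℤ)) x o) (u : U)
    (ψ : B₀ H) : ψ ∈ Ext27C.hz (fun χ : B₀ H => (charDegree χ.1.1 : ℤ)) ↔ ψ.1 z / ψ.1 1 = 1 := by
  haveI := hM.fact
  constructor
  · intro hψ
    by_contra e
    exact mem_hz.1 hψ (by exact_mod_cast h.notMem_hz hz hx hc u e)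
  · intro e
    by_contra hψ
    have h1 := h.ip_central hM hz ψ.2 hM.one_mem_principalBlock (by simpa using e)
    rw [Finset.sum_eq_zero fun v _ => by rw [hx, hc.eq_zero v hψ]; simp, add_zero,
      IrrCharacter.ip_of_ne, ip_pRegularPart_symm] at h1
    · exact (mem_principalBlock_iff_ip hM ψ.1).1 ψ.2
        ((mul_eq_zero.1 h1.symm).resolve_left (by norm_num))
    · intro e1
      apply hψ
      rw [mem_hz, e1, charDegree_one_irr]; norm_num

theorem card_hz (h : Ext27 z U) (hM : IsPModular 3 M) (hz : z ∈ Subgroup.center H)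
    (hx : ∀ u χ, χ.1 u = x u χ) (hc : UCols (fun χ : B₀ H => (charDegree χ.1.1 : ℤ)) x o) (u : U) :
    (Ext27C.hz (fun χ : B₀ H => (charDegree χ.1.1 : ℤ))).card =
      blockRank 3 (B₀ H) + Fintype.card U := by
  have e := h.blockRank_eq hM hz (one_pow 3)
  obtain ⟨F, hF⟩ : ∃ F : IrrCharacter H → ℂ, F = fun χ => 3 * ip (pRegularPart 3 χ.1) χ.1 :=
    ⟨_, rfl⟩
  have e1 : ∑ i : lamSet (B₀ H) z 1, F i.1 =
      ∑ χ ∈ Ext27C.hz (fun χ : B₀ H => (charDegree χ.1.1 : ℤ)), F χ.1 := by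
    symm
    refine Finset.sum_bij (fun χ hχ => ⟨χ.1, χ.2, (h.mem_hz_iff hM hz hx hc u χ).1 hχ⟩)
      (fun _ _ => Finset.mem_univ _) (fun a _ b _ hab => Subtype.ext (congrArg (·.1) hab))
      (fun i _ => ⟨⟨i.1, i.2.1⟩, (h.mem_hz_iff hM hz hx hc u _).2 i.2.2, rfl⟩) fun _ _ => rfl
  have e2 : ∀ χ : B₀ H, F χ.1 = 1 - ((∑ v : U, x v χ * x v χ : ℤ) : ℂ) / 9 := fun χ => by
    have := h.ip_central hM hz χ.2 χ.2 rfl
    rw [IrrCharacter.ip_self] at this
    simp only [hx, map_intCast, ← Finset.sum_div] at this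
    rw [hF]; push_cast; linear_combination -this
  have e3 : ∑ χ ∈ Ext27C.hz (fun χ : B₀ H => (charDegree χ.1.1 : ℤ)),
      ∑ v : U, x v χ * x v χ = 9 * Fintype.card U := by
    rw [Finset.sum_comm, Finset.sum_congr rfl fun v _ => (hc.sum_hz v _).symm.trans (hc.norm v)]
    simp [mul_comm]
  rw [hF] at e1
  rw [e1, ← hF, Finset.sum_congr rfl fun χ _ => e2 χ, Finset.sum_sub_distrib, ← Finset.sum_div,
    ← Int.cast_sum, e3, Finset.sum_const, nsmul_eq_mul, mul_one] at e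
  have e4 : ((Ext27C.hz (fun χ : B₀ H => (charDegree χ.1.1 : ℤ))).card : ℂ) =
      blockRank 3 (B₀ H) + Fintype.card U := by
    rw [e]; push_cast; ring
  exact_mod_cast e4

theorem factorization_lamSet (h : Ext27 z U) (hM : IsPModular 3 M) (hz : z ∈ Subgroup.center H)
    (hx : ∀ u χ, χ.1 u = x u χ) (hc : UCols (fun χ : B₀ H => (charDegree χ.1.1 : ℤ)) x o) (u : U)
    {w : ℂ} (hw : w ≠ 1) (i : lamSet (B₀ H) z w) : (charDegree i.1.1).factorization 3 = 1 := by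
  have h1 := h.notMem_hz hz hx hc u (ψ := ⟨i.1, i.2.1⟩) (i.2.2.trans_ne hw)
  have h2 : 1 ≤ (charDegree i.1.1).factorization 3 :=
    (Nat.prime_three.dvd_iff_one_le_factorization i.1.charDegree_pos.ne').1 h1
  have h3 := isPBlock_principalBlock.vM_contrib_lt hM i.2.1 i.2.1
    (by rw [blockHeight_principalBlock_eq hM]; omega)
  have h4 := h.ip_lamSet hM hz hw i i
  rw [if_pos rfl] at h4
  rw [hM.blockDefect_principalBlock, h.card, blockHeight_principalBlock_eq hM,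
    show ((3 : ℕ) : ℂ) ^ 3 * ip (pRegularPart 3 i.1.1) i.1.1 = ((3 : ℕ) : ℂ) ^ 2 by
      push_cast; linear_combination 9 * h4, map_pow, hM.vM_prime_pow_lt_iff] at h3
  omega

theorem exists_r (h : Ext27 z U) (hM : IsPModular 3 M) {i : IrrCharacter H} (hi : i ∈ B₀ H)
    (h1 : (charDegree i.1).factorization 3 = 1) :
    ∃ r : IrrCharacter H → ℤ, (∀ ψ, 9 * ip (pRegularPart 3 ψ.1) i.1 = r ψ) ∧
      (∀ ψ ∉ B₀ H, r ψ = 0) ∧ ¬ 3 ∣ r (IrrCharacter.one H) ∧
      ∀ ψ ∈ B₀ H, 3 ∣ r ψ - r (IrrCharacter.one H) * charDegree ψ.1 := by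
  haveI := hM.fact
  have hB : IsPBlock M (B₀ H) := isPBlock_principalBlock
  obtain ⟨c, hc⟩ : ∃ c : ℂ, c = Nat.card H / (((3 : ℕ) : ℂ) ^ 2 * i 1) := ⟨_, rfl⟩
  have hc1 : vM M c = 1 := by
    rw [hc, map_div₀, map_mul, map_pow, hM.vM_apply_one, hM.vM_card, h1, h.card, ← pow_add,
      div_self (pow_pos hM.vM_prime_pos _).ne']
  have ho : ∀ θ : H → ℂ, omega i.1 (regElt 3 θ) = c * (9 * ip (pRegularPart 3 i.1) θ) := by
    intro θ
    have := i.apply_one_ne_zero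
    rw [omega_regElt, hc]; push_cast; field_simp; norm_num
  have hv : ∀ θ : H → ℂ, vM M (omega i.1 (regElt 3 θ)) = vM M (9 * ip (pRegularPart 3 i.1) θ) :=
    fun θ => by rw [ho, map_mul, hc1, one_mul]
  have hr : ∀ ψ : IrrCharacter H, ∃ r : ℤ, 9 * ip (pRegularPart 3 i.1) ψ.1 = r := by
    intro ψ
    obtain ⟨n, hn⟩ := exists_int_pow_mul_ip (p := 3) i ψ
    rw [h.card] at hn
    have e : 9 * ip (pRegularPart 3 i.1) ψ.1 = n / ((3 : ℕ) : ℂ) ^ 1 := by
      rw [← hn]; push_cast; ring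
    have h2 : (n : ℂ) / ((3 : ℕ) : ℂ) ^ 1 ∈ locO M := by
      rw [← e, mem_locO_iff, ← hv, ← mem_locO_iff]
      exact omega_regElt_mem ψ i
    obtain ⟨r, hr⟩ := hM.pow_dvd_of_div_mem h2
    exact ⟨r, by rw [e, hr]; push_cast; ring⟩
  choose r hr using hr
  refine ⟨r, fun ψ => by rw [ip_pRegularPart_symm, hr], fun ψ hψ => ?_, fun hd => ?_,
    fun ψ hψ => ?_⟩
  · have := hr ψ
    rw [hB.ip_pRegularPart_eq_zero hM hi hψ, mul_zero] at this
    exact_mod_cast this.symm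
  · have h2 := vM_eq_one_of_red_ne_zero
      ((hB.red_omega_regElt_ne_zero_iff hM hM.one_mem_principalBlock hi).2
        (by rw [blockHeight_principalBlock_eq hM, charDegree_one_irr]; simp))
    rw [hv, hr] at h2
    exact ((hM.vM_intCast_lt_one_iff _).2 hd).ne h2
  · have hg : IsGeneralizedCharacter H
        (ψ.1 - ((charDegree ψ.1 : ℤ) : ℂ) • (IrrCharacter.one H).1) :=
      ψ.isCharacter.isGen.sub ((IrrCharacter.one H).isCharacter.isGen.zsmul _)
    have h2 := (hB.red_omega_regElt_ne_zero_iff' hM hi hg).not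
    rw [blockPart_sub, blockPart_smul, blockPart_irr_of_mem hψ,
      blockPart_irr_of_mem hM.one_mem_principalBlock, not_not, not_not] at h2
    have h3 := h2.2 (by simp [IrrCharacter.apply_one])
    have e : 9 * ip (pRegularPart 3 i.1)
        (ψ.1 - ((charDegree ψ.1 : ℤ) : ℂ) • (IrrCharacter.one H).1) =
        ((r ψ - r (IrrCharacter.one H) * charDegree ψ.1 : ℤ) : ℂ) := by
      rw [ip_sub_right, ip_smul_right, map_intCast]
      push_cast
      rw [← hr, ← hr]; ring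
    rw [red_eq_zero_iff, hv, e] at h3
    · exact (hM.vM_intCast_lt_one_iff _).1 h3
    · rw [mem_locO_iff, hv, e, ← mem_locO_iff]; exact intCast_mem _ _

end

/-- Summary of the facts on the centralizer of `z`. -/
theorem exists_frame (h : Ext27 z U) (hM : IsPModular 3 M) (hz : z ∈ Subgroup.center H)
    (hr : ∀ u ∈ U, IsConj u u⁻¹) (hU : U.Nonempty) {w : ℂ} (hw : w ^ 3 = 1) (hw1 : w ≠ 1) :
    Fintype.card (lamSet (B₀ H) z w) + U.card = 6 ∧
    ∃ r : IrrCharacter H → lamSet (B₀ H) z w → ℤ,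
      (∀ ψ i, 9 * ip (pRegularPart 3 ψ.1) i.1.1 = r ψ i) ∧
      (∀ ψ ∉ B₀ H, ∀ i, r ψ i = 0) ∧ (∀ i, ¬ 3 ∣ r (IrrCharacter.one H) i) ∧
      (∀ ψ ∈ B₀ H, ∀ i, 3 ∣ r ψ i - r (IrrCharacter.one H) i * charDegree ψ.1) ∧
      ∀ ψ ∈ B₀ H, ψ z / ψ 1 ≠ 1 → 3 ∣ charDegree ψ.1 := by
  obtain ⟨u, hu⟩ := hU
  obtain ⟨x, hx, hc⟩ := h.exists_ucols hM hr
  choose r r1 r2 r3 r4 using fun i : lamSet (B₀ H) z w =>
    h.exists_r hM i.2.1 (h.factorization_lamSet hM hz hx hc ⟨u, hu⟩ hw1 i)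
  refine ⟨?_, fun ψ i => r i ψ, fun ψ i => r1 i ψ, fun ψ hψ i => r2 i ψ hψ, r3,
    fun ψ hψ i => r4 i ψ hψ, fun ψ hψ e => h.notMem_hz hz hx hc ⟨u, hu⟩ (ψ := ⟨ψ, hψ⟩) e⟩
  rw [← Fintype.card_coe U]
  refine hc.card_add_eq_six ⟨u, hu⟩ (fun χ i => r i χ.1) ?_ (fun χ hχ i e => ?_)
    fun χ hχ ψ hψ => ?_
  · rw [h.card_hz hM hz hx hc ⟨u, hu⟩, h.card_lamSet hM hz hw hw1]
  · have h1 := r4 i χ.1 χ.2
    rw [e, zero_sub, dvd_neg] at h1
    rcases Int.prime_three.dvd_or_dvd h1 with h2 | h2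
    exacts [r3 i h2, mem_hz.1 hχ h2]
  · have h1 := h.ip_central hM hz χ.2 ψ.2
      (((h.mem_hz_iff hM hz hx hc ⟨u, hu⟩ χ).1 hχ).trans
        ((h.mem_hz_iff hM hz hx hc ⟨u, hu⟩ ψ).1 hψ).symm)
    rw [h.ip_reg hM hz hw χ.2 ψ.1, IrrCharacter.ip_eq] at h1
    simp only [hx, map_intCast, ← Finset.sum_div] at h1
    have h2 : ∑ i : lamSet (B₀ H) z w, ((r i χ.1 : ℂ) * r i ψ.1) = 81 * ∑ i : lamSet (B₀ H) z w,
        ip (pRegularPart 3 χ.1.1) i.1.1 * ip (pRegularPart 3 ψ.1.1) i.1.1 := by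
      rw [Finset.mul_sum]
      exact Finset.sum_congr rfl fun i _ => by rw [← r1, ← r1]; ring
    have h3 : ((∑ i, r i χ.1 * r i ψ.1 + ∑ v, x v χ * x v ψ : ℤ) : ℂ) =
        ((if χ = ψ then 9 else 0 : ℤ) : ℂ) := by
      push_cast
      rw [h2]
      by_cases e : χ = ψ
      · rw [if_pos (congrArg _ e)] at h1
        rw [if_pos e]; linear_combination (-9) * h1
      · rw [if_neg fun e' => e (Subtype.ext e')] at h1
        rw [if_neg e]; linear_combination (-9) * h1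
    exact_mod_cast h3

end Ext27

end Cfsg
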