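import Cfsg.Agent.Blk.CentIdx
import Cfsg.Agent.Grp.GenTwo

/-!
# Nilpotent `2`-blocks with some defect groups of order 32
-/

set_option autoImplicit false
set_option linter.unusedSectionVars false
set_option linter.style.haveILetI false

namespace Cfsg

open MonoidAlgebra GA Subgroup

universe u v w

local notation "C(" Q ")" => Subgroup.centralizer ((Q : Subgroup _) : Set _)
local notation "N(" Q ")" => Subgroup.normalizer ((Q : Subgroup _) : Set _)

variable {G : Type u} [Group G] [Finite G] {A F K M P Q : Subgroup G} {c g s t x z : G} {n : ℕ}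

section Field

variable {k : Type w} [Field k] {p : ℕ} [Fact p.Prime] [CharP k p] {b e f : k[G]}

theorem GA.IsMaxPair.exists_extend_cent (hP : IsMaxPair p b P e) (h : BFus p P e Q g) (hQ : Q ≤ C(Q))
    (h2 : P ≤ C(cjS g Q)) : ∃ c ∈ C(cjS g Q), BFus p P e (P ⊓ C(Q)) (c * g) :=
  let ⟨_, _, hf⟩ := h
  h.exists_extend hP.pair hf (by
    rw [inf_eq_left.2 h2]
    exact hP.isDefGrp_of_le_centralizer hf (hf.left hP.pair).isInertial_centralizer h2)
    (le_inf h.le hQ) (inf_le_inf_left _ (centralizer_le_normalizer' Q))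
    (le_sup_of_le_right (by rw [← cjS_centralizer]; exact cjS_mono g inf_le_right))

theorem GA.IsCrit.mem_of_cmod (h : IsCrit p P e Q f) (hP : IsBPair p P e) (hK : K ≤ Q)
    (hN : ∀ g : G, g ∈ N(Q) → g ∈ N(K)) (hr : ∀ g : G, g ∈ N(Q) → IsPRegular p g → g ∈ C(K))
    (ht : t ∈ P) (h1 : t ∈ N(K)) (h2 : ∀ q ∈ Q, q⁻¹ * (t * q * t⁻¹) ∈ K) : t ∈ Q :=
  h.rad (⨅ q : Q, cmod K q) (fun g hg => mem_normalizer_of_forall_conj_mem fun x hx => mem_iInf.2 fun q =>
    have := mem_iInf.1 hx ⟨_, conj_mem_of_mem_normalizer (inv_mem hg.1) q.2⟩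
    ⟨mul_mem (mul_mem (hN g hg.1) this.1) (inv_mem (hN g hg.1)), by
      convert conj_mem_of_mem_normalizer (hN g hg.1) this.2 using 1; group⟩)
    (fun x hx hx' e => mem_cent_of_series (h.le.left hP).isPGroup hK e
      (fun s hs => conj_eq_iff_comm.2 (hr x hx'.1 e s hs).symm) fun q hq => (mem_iInf.1 hx ⟨q, hq⟩).2)
    ⟨⟨ht, mem_normalizer_fintype fun q hq => by simpa using mul_mem hq (hK (h2 q hq))⟩,
      mem_iInf.2 fun q => ⟨h1, h2 q q.2⟩⟩

end Field

namespace IsS7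

variable (h : IsS7 P M F K s c z) (hZ : P ⊓ C(P) ≤ zpowers z)
include h hZ

section Field

variable {k : Type w} [Field k] [IsAlgClosed k] [CharP k 2] {b e f : k[G]} (hP : IsMaxPair 2 b P e)
include hP

theorem eq_of_mem_fClass {u : P} (hu : u ∈ fClass 2 P e ⟨z, h.z_mem⟩) (H : (u : G) ∈ F) : (u : G) = z := by
  obtain ⟨g, h1, h2 : z = _⟩ := mem_fClass_symm hu
  have h3 : cjS g (zpowers (u : G)) = zpowers z := by rw [cjS_zpowers, ← h2]
  obtain ⟨d, hd, h4⟩ := hP.exists_extend_cent h1 (zpowers_le_centralizer_zpowers' _)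
    (h3 ▸ le_cent_zpowers h.cent)
  have h5 : d * g * u * (d * g)⁻¹ = z := by
    rw [← (conj_eq_iff_comm (g := d) (u := z)).2 (mem_cent_zpowers.1 (h3 ▸ hd)), h2]; group
  by_cases e : P ⊓ C(zpowers (u : G)) = P
  · exact (eq_one_or_eq_of_mem_zpowers_of_orderOf_two h.ord (hZ ⟨u.2, fun a ha =>
      mem_cent_zpowers.1 (e.ge ha).2⟩)).resolve_left fun e => h.z_ne (by simpa [e] using h2)
  have I := idx2_cent_of_conj (fun g hg => h.conj_F hg H) h.z_sq h.cent
  have D := h.isD2 hZ I e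
  have D' := h.isD2 hZ (idx2_of_card h4.cjS_le (by rw [card_cjS]; exact I.card_le)) fun e' =>
    e (eq_of_le_of_card_ge inf_le_left (by rw [← card_cjS (d * g) (_ ⊓ _), e']))
  obtain ⟨a, ha, a', ha', h6⟩ := D.exists_ne
  have h7 := D'.conj_of_ne (conj_mem_cjS.2 ha') (conj_mem_cjS.2 ha) (by rw [conj_mul, conj_mul]; simpa)
  refine (MulAut.conj (d * g)).injective (h5.trans (mul_left_cancel (h7.symm.trans ?_)))
  rw [MulAut.conj_apply, conj_mul (a := a), ← D.conj_of_ne ha' ha h6]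
  group

theorem conj_eq (hg : BFus 2 P e Q g) (hz : z ∈ Q) (H : g * z * g⁻¹ ∈ F) : g * z * g⁻¹ = z :=
  h.eq_of_mem_fClass hZ hP (u := ⟨_, h.F_le H⟩) (hg.mem_fClass hP.pair hz rfl) H

theorem not_le (hQ : IsCrit 2 P e Q f) : ¬ Q ≤ M := fun hM => by
  have D := h.isD2_M hZ
  rcases hM.eq_or_lt with rfl | hlt
  · obtain ⟨v, hv, hv'⟩ := h.exM
    have hK := h.idxK.le.trans h.idxF.le
    have hN : ∀ g : G, g ∈ N(Q) → g ∈ N(K) := fun g hg => mem_normalizer_of_forall_conj_mem fun a => h.conj_K hg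
    exact hv' (hQ.mem_of_cmod hP.pair hK hN (fun g hg hr => (h.idx_z hZ).mem_cent_of_regular
      (hP.pair.isPGroup.to_le (hK.trans h.idxM.le)) hr (hN g hg) fun a ha => conj_eq_iff_comm.2
        (comm_of_mem_zpowers (conj_eq_iff_comm.1 (D.fix hg)) ha)) hv
      (hN v (mem_normalizer_of_forall_conj_mem fun a => h.idxM.conj_mem hv))
      fun q hq => h.comm q (h.idxM.le hq) v hv)
  have hK : K ≤ Q := fun a ha => hQ.centric ⟨h.F_le (h.idxK.le ha), centralizer_anti hM (h.K_cent ha)⟩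
  have hz := hK h.z_K
  obtain ⟨t, ht, ht'⟩ := SetLike.exists_of_lt hlt
  refine ht' (hQ.mem_of_series hP.pair (S := {1, z}) (Set.pair_subset (one_mem _) hz) (fun g hg => ?_)
    (h.idxM.le ht) (by simp [D.cent t ht]) fun q hq => (D.conj t ht q (hM hq)).imp
      (fun e => by rw [e]; simp) fun e => by rw [e]; simp)
  have h1 := hQ.bFus hP.pair hg
  have h2 := conj_mem_of_mem_normalizer hg.1 hz
  suffices g * z * g⁻¹ = z by simp [this]
  refine h.conj_eq hZ hP h1 hz (by_contra fun e => ?_)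
  have key : ∀ a ∈ K, a ∉ zpowers z → g * a * g⁻¹ ∈ K := fun a ha ha' => by_contra fun e' => by
    have h3 := conj_mem_of_mem_normalizer hg.1 (hK ha)
    have h4 : g * a * g⁻¹ * (g * z * g⁻¹) = g * z * g⁻¹ * (g * a * g⁻¹) := by
      rw [conj_mul, conj_mul, h.cent a (h.F_le (h.idxK.le ha))]
    obtain ⟨r, hr, h5⟩ := h.exists_conj hZ (hM h2) e (h.mem_K (h.idxF.inv_mul (hM h2) (hM h3) e
      fun e'' => e' (h.mem_K e'' (hM h2) e h4)) (hM h2) e (by
        rw [mul_assoc, h4, inv_mul_cancel_left, mul_inv_cancel_left]))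
    refine ha' (h.eq_of_mem_fClass hZ hP (u := ⟨a, h.F_le (h.idxK.le ha)⟩) (hP.pair.mem_fClass_trans
      (hP.pair.mem_fClass_trans (h1.mem_fClass hP.pair (v := ⟨_, hQ.le.le h2⟩) hz rfl)
        (hP.pair.mem_fClass_of_conj (v := ⟨_, hQ.le.le h3⟩) hr (by rw [h5, mul_inv_cancel_left])))
      (mem_fClass_symm (h1.mem_fClass hP.pair (hK ha) rfl))) (h.idxK.le ha) ▸ mem_zpowers z)
  have h3 := mt (zpowers_le.2 h.cent ·) h.c_not
  exact e (h.idxK.le ((mul_mem_cancel_left (key c h.c_mem h3)).1 (by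
    rw [conj_mul]
    exact key _ (mul_mem h.c_mem h.z_K) (mt (mul_mem_cancel_right (mem_zpowers z)).1 h3))))

end Field

theorem rank_eq {I : Ideal AlgInt} {B : Set (IrrCharacter G)} [CharP (ResK I) 2] {e : (ResK I)[G]}
    (hM : IsPModular 2 I) (hB : IsPBlock I B) (hP : IsMaxPair 2 (blockIdem I B) P e) :
    blockRank 2 B = 1 :=
  hB.blockRank_eq_one_of_nilp hM (hP.isNilpIn_of_crit fun _ _ hQ _ hg hr =>
    let ⟨_, hv, hv'⟩ := SetLike.not_le_iff_exists.1 (h.not_le hZ hP hQ)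
    have hz := hQ.mem_of_cent h.z_mem h.cent
    h.reg hZ hP.pair.isPGroup hQ.le.le hz hv hv' hg.1 hr (h.conj_eq hZ hP (hQ.bFus hP.pair hg) hz))

end IsS7

theorem IsDbl.rank_eq (h : IsDbl n P A x t z) (H : ∀ w ∈ P, w ∉ A → w * w ≠ 1) {I : Ideal AlgInt}
    {B : Set (IrrCharacter G)} [CharP (ResK I) 2] {e : (ResK I)[G]}
    (hM : IsPModular 2 I) (hB : IsPBlock I B) (hP : IsMaxPair 2 (blockIdem I B) P e) :
    blockRank 2 B = 1 :=
  hB.blockRank_eq_one_of_nilp hM (hP.isNilpIn_of_crit fun Q _ hQ _ hg hr => (em (Q = P)).elim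
    (fun e => by subst e; exact h.reg hg.1 hr) fun e =>
    let ⟨_, h1, h2, _⟩ := h.crit hP hQ e
    (H _ (h1.cjS_le (conj_mem_cjS.2 (hQ.mem_of_cent h.z_mem'.1 h.z_cent))) h2 (by
      rw [conj_mul, h.z_sq]; simp)).elim)

end Cfsg
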