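import Cfsg.Agent.Blk.FongInd
import Cfsg.Agent.Char.Cover

/-!
# Harada's statement for `p`-solvable groups (Kiyota–Okuyama)
-/

set_option autoImplicit false
set_option linter.unusedSectionVars false
set_option linter.unusedVariables false
set_option linter.style.haveILetI false

namespace Cfsg

open MonoidAlgebra GA
open scoped ComplexConjugate Pointwise

universe u v w

variable {p : ℕ} [Fact p.Prime] {M : Ideal AlgInt}
  {G : Type u} [Group G] [Finite G] {N : Type v} [Group N] [Finite N]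

/-- The `p`-regular elements of a coset of a normal `p`-subgroup are conjugate. -/
theorem exists_conj_eq_of_isPRegular_mul {P : Subgroup G} [P.Normal] (hP : IsPGroup p P) {g u : G}
    (hg : ¬ p ∣ orderOf g) (hu : u ∈ P) (hgu : ¬ p ∣ orderOf (g * u)) :
    ∃ n ∈ P, n * (g * u) * n⁻¹ = g := by
  haveI := hP.isNilpotent
  have c1 : (Nat.card P).Coprime (Nat.card (Subgroup.zpowers g)) := by
    rw [Nat.card_zpowers]; exact IsPGroup.coprime_card_of_not_dvd hP hg
  have c2 : (Nat.card P).Coprime (Nat.card (Subgroup.zpowers (g * u))) := by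
    rw [Nat.card_zpowers]; exact IsPGroup.coprime_card_of_not_dvd hP hgu
  obtain ⟨n, hn, h⟩ := exists_map_conj_le_of_coprime c1 c2 (Subgroup.zpowers_le.2
    (Subgroup.mul_mem_sup (Subgroup.mem_zpowers g) hu)) (Or.inl inferInstance)
  refine ⟨n, hn, ?_⟩
  have h1 : n * (g * u) * n⁻¹ ∈ Subgroup.zpowers g := h ⟨g * u, Subgroup.mem_zpowers _, rfl⟩
  have h2 : g⁻¹ * (n * (g * u) * n⁻¹) ∈ P ⊓ Subgroup.zpowers g := by
    refine Subgroup.mem_inf.2 ⟨?_, mul_mem (inv_mem (Subgroup.mem_zpowers g)) h1⟩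
    have : g⁻¹ * (n * (g * u) * n⁻¹) = g⁻¹ * n * g⁻¹⁻¹ * (u * n⁻¹) := by group
    rw [this]
    exact mul_mem (Subgroup.Normal.conj_mem inferInstance n hn g⁻¹) (mul_mem hu (inv_mem hn))
  rw [inf_eq_bot_of_coprime_card c1, Subgroup.mem_bot, inv_mul_eq_one] at h2
  exact h2.symm

theorem blockPart_regChar_apply (U : Set (IrrCharacter G)) (g : G) :
    blockPart U (regChar G) g = ∑ᶠ χ ∈ U, χ 1 * χ g := by
  rw [blockPart_eq]
  refine finsum_mem_congr rfl fun χ _ => ?_
  rw [ip_regChar_left, χ.apply_one, map_natCast]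

theorem ip_blockPart_regChar_of_mem {U : Set (IrrCharacter G)} {χ : IrrCharacter G} (h : χ ∈ U) :
    ip (blockPart U (regChar G)) χ.1 = χ 1 := by
  rw [ip_blockPart_of_mem _ h, ip_regChar_left, χ.apply_one, map_natCast]

theorem isCharacter_blockPart_regChar (U : Set (IrrCharacter G)) :
    IsCharacter G (blockPart U (regChar G)) := by
  refine isCharacter_iff.2 ⟨isClassFunction_blockPart _ _, fun χ => ?_⟩
  by_cases h : χ ∈ U
  · exact ⟨_, by rw [ip_blockPart_regChar_of_mem h, χ.apply_one]⟩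
  · exact ⟨0, by rw [ip_blockPart_of_notMem _ h, Nat.cast_zero]⟩

theorem ip_blockPart_regChar {A U : Set (IrrCharacter G)} (h : A ⊆ U) :
    ip (blockPart A (regChar G)) (blockPart U (regChar G)) = blockPart A (regChar G) 1 := by
  rw [(isClassFunction_blockPart _ _).ip_eq_sum (isClassFunction_blockPart _ _),
    (isClassFunction_blockPart A _).apply_eq_sum]
  refine Finset.sum_congr rfl fun χ _ => ?_
  by_cases hχ : χ ∈ A
  · rw [ip_blockPart_regChar_of_mem (h hχ), χ.apply_one, map_natCast]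
  · rw [ip_blockPart_of_notMem _ hχ, zero_mul, zero_mul]

theorem sum_coset_blockPart_regChar (U : Set (IrrCharacter G)) (P : Subgroup G) [P.Normal]
    [Fintype P] (g : G) : ∑ u : P, blockPart U (regChar G) (g * u) =
      Nat.card P * blockPart {χ ∈ U | ∀ u ∈ P, χ u = χ 1} (regChar G) g := by
  classical
  simp only [blockPart_regChar_apply, finsum_mem_irr_eq_sum, Finset.sum_filter]
  rw [Finset.sum_comm, Finset.mul_sum]
  refine Finset.sum_congr rfl fun χ _ => ?_
  by_cases h1 : χ ∈ U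
  · by_cases h2 : ∀ u ∈ P, χ u = χ 1
    · have : ∀ u : P, χ (g * u) = χ g := fun u =>
        χ.isCharacter.apply_mul_of_mem_kerSet (h2 u u.2) g
      rw [if_pos (show χ ∈ {χ ∈ U | ∀ u ∈ P, χ u = χ 1} from ⟨h1, h2⟩)]
      simp only [if_pos h1, this, Finset.sum_const, Finset.card_univ, nsmul_eq_mul,
        Nat.card_eq_fintype_card]
    · rw [if_neg (show χ ∉ {χ ∈ U | ∀ u ∈ P, χ u = χ 1} from fun h => h2 h.2)]
      simp only [if_pos h1, ← Finset.mul_sum, χ.sum_coset_eq_zero P h2, mul_zero]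
  · rw [if_neg (show χ ∉ {χ ∈ U | ∀ u ∈ P, χ u = χ 1} from fun h => h1 h.1)]
    simp only [if_neg h1, Finset.sum_const_zero, mul_zero]

/-- A central idempotent supported on `p`-regular elements is supported on the centralizer of
every normal `p`-subgroup. -/
theorem mem_centralizer_of_blockPart_regChar_ne_zero {U : Set (IrrCharacter G)}
    (hU : ∀ g, p ∣ orderOf g → blockPart U (regChar G) g = 0) {P : Subgroup G} [P.Normal]
    (hP : IsPGroup p P) {g : G} (hg : blockPart U (regChar G) g ≠ 0) :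
    g ∈ Subgroup.centralizer (P : Set G) := by
  classical
  haveI := Fintype.ofFinite G
  have hsub : {χ ∈ U | ∀ u ∈ P, χ u = χ 1} ⊆ U := fun χ h => h.1
  have e1 := ip_blockPart_regChar hsub
  have e2 := ip_blockPart_regChar (Set.Subset.refl U)
  have e3 := sum_coset_blockPart_regChar U P
  have hc := isClassFunction_blockPart U (regChar G)
  generalize blockPart {χ ∈ U | ∀ u ∈ P, χ u = χ 1} (regChar G) = ω' at e1 e3
  generalize blockPart U (regChar G) = ω at *
  have e4 : Nat.card P * ω' 1 = ω 1 := by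
    rw [← e3, Finset.sum_eq_single 1]
    · simp
    · intro u _ hu
      rw [one_mul]
      by_contra h
      exact hu (Subtype.ext ((isPElt_of_mem hP u.2).eq_one_of_isPRegular fun h' => h (hU _ h')))
    · simp
  set n : G → ℕ := fun x => (Finset.univ.filter fun u : P => ¬ p ∣ orderOf (x * u)).card with hn
  have e5 : ∀ x, Nat.card P * ω' x * conj (ω x) = ((n x * ‖ω x‖ ^ 2 : ℝ) : ℂ) := by
    intro x
    by_cases hx : p ∣ orderOf x
    · simp [hU x hx]
    · have : ∑ u : P, ω (x * u) = n x * ω x := by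
        rw [← Finset.sum_filter_add_sum_filter_not _ fun u : P => ¬ p ∣ orderOf (x * u),
          Finset.sum_eq_zero (s := Finset.univ.filter fun u : P => ¬ ¬ p ∣ orderOf (x * u))
            fun u hu => hU _ (not_not.1 (Finset.mem_filter.1 hu).2), add_zero,
          Finset.sum_congr rfl (g := fun _ => ω x), Finset.sum_const, nsmul_eq_mul]
        intro u hu
        obtain ⟨m, -, h⟩ := exists_conj_eq_of_isPRegular_mul hP hx u.2 (Finset.mem_filter.1 hu).2
        rw [← hc (x * u) m, h]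
      rw [← e3, this, mul_assoc, Complex.mul_conj, Complex.normSq_eq_norm_sq]
      push_cast
      rfl
  have e6 : ∑ x, (n x * ‖ω x‖ ^ 2 : ℝ) = ∑ x, ‖ω x‖ ^ 2 := by
    have h0 := natCard_cast_ne_zero G
    rw [ip_def] at e1 e2
    have : (((∑ x, n x * ‖ω x‖ ^ 2 : ℝ)) : ℂ) = ((∑ x, ‖ω x‖ ^ 2 : ℝ) : ℂ) := by
      rw [Complex.ofReal_sum, ← Finset.sum_congr rfl fun x _ => e5 x, Complex.ofReal_sum]
      simp only [mul_assoc, ← Finset.mul_sum]
      rw [← mul_right_inj' (inv_ne_zero h0), mul_left_comm, e1, e4, ← e2]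
      congr 1
      refine Finset.sum_congr rfl fun x _ => ?_
      rw [Complex.mul_conj, Complex.normSq_eq_norm_sq]
    exact_mod_cast this
  have hmem : ∀ x, ω x ≠ 0 → (1 : P) ∈ Finset.univ.filter fun u : P => ¬ p ∣ orderOf (x * u) :=
    fun x hx => Finset.mem_filter.2 ⟨Finset.mem_univ _, fun h => hx (hU x (by simpa using h))⟩
  have e7 : ∀ x ∈ Finset.univ, ‖ω x‖ ^ 2 ≤ n x * ‖ω x‖ ^ 2 := by
    intro x _
    by_cases hx : ω x = 0
    · simp [hx]
    · have : (1 : ℝ) ≤ n x := by exact_mod_cast Finset.card_pos.2 ⟨_, hmem x hx⟩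
      exact le_mul_of_one_le_left (sq_nonneg _) this
  have e8 := (Finset.sum_eq_sum_iff_of_le e7).1 e6.symm g (Finset.mem_univ _)
  have e9 : n g = 1 := by
    have h0 : ‖ω g‖ ^ 2 ≠ 0 := pow_ne_zero _ (norm_ne_zero_iff.2 hg)
    have : (n g : ℝ) = 1 := mul_right_cancel₀ h0 (by rw [one_mul]; exact e8.symm)
    exact_mod_cast this
  intro x hx
  have h1 : g⁻¹ * x * g * x⁻¹ ∈ P := mul_mem (by
    simpa using Subgroup.Normal.conj_mem inferInstance x hx g⁻¹) (inv_mem hx)
  have h2 : (⟨_, h1⟩ : P) ∈ Finset.univ.filter fun u : P => ¬ p ∣ orderOf (g * u) := by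
    refine Finset.mem_filter.2 ⟨Finset.mem_univ _, ?_⟩
    have : g * (g⁻¹ * x * g * x⁻¹) = x * g * x⁻¹ := by group
    rw [this]
    exact isPRegular_conj_iff.2 fun h => hg (hU g h)
  have h3 := congrArg Subtype.val (Finset.card_le_one.1 e9.le _ h2 _ (hmem g hg))
  have : x * g = g * (g⁻¹ * x * g * x⁻¹) * x := by group
  rw [this, show g⁻¹ * x * g * x⁻¹ = 1 from h3, mul_one]

/-- If `O_{p'}(G)` is central, then `C(O_p(G))` lies in `O_{p',p}(G)`. -/
theorem IsPSolvable.mem_pPrimeCore_of_mem_centralizer (hG : IsPSolvable p G)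
    (hZ : pPrimeCore p G ≤ Subgroup.center G) {g : G}
    (hg : g ∈ Subgroup.centralizer (pCore p G : Set G)) (hp : ¬ p ∣ orderOf g) :
    g ∈ pPrimeCore p G := by
  obtain ⟨Q, h1, h2, h3⟩ := hG.exists_constrained
  have hQ : Q.Normal := by
    refine ⟨fun x hx y => ?_⟩
    have h4 : y * x * y⁻¹ ∈ Q ⊔ pPrimeCore p G :=
      h2 ▸ Subgroup.Normal.conj_mem inferInstance x (h2 ▸ Subgroup.mem_sup_left hx) y
    obtain ⟨a, ha, z, hz, e⟩ := Subgroup.mem_sup_of_normal_right.1 h4
    have hc : Commute a z := Subgroup.mem_center_iff.1 (hZ hz) a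
    have := pPart_mul_eq hc (isPElt_of_mem h1 ha) (isPRegular_of_mem_pPrimeCore hz)
    rw [e, pPart_eq_self_iff.2 (isPElt_conj_iff.2 (isPElt_of_mem h1 hx))] at this
    exact this ▸ ha
  have h4 : g ∈ pPrimePCore p G := h3 (Subgroup.centralizer_le (le_pCore h1) hg)
  rw [pPrimePCore_def] at h4
  exact (QuotientGroup.eq_one_iff g).1 ((isPElt_of_mem (isPGroup_pCore p _) h4).eq_one_of_isPRegular
    (IsPRegular.map hp _))

theorem mem_of_blockPart_regChar_vanish {f : N →* G} (hf : Function.Injective f)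
    {U : Set (IrrCharacter G)} (hU : ∀ g, g ∉ f.range → blockPart U (regChar G) g = 0)
    {θ : IrrCharacter N} {χ ψ : IrrCharacter G} (hχ : χ ∈ U) (h1 : LiesOver f χ.1 θ.1)
    (h2 : LiesOver f ψ.1 θ.1) : ψ ∈ U := by
  by_contra h
  have hc := isCharacter_blockPart_regChar U
  have e := ip_comp_of_vanish hf hU ψ.1
  rw [ip_blockPart_of_notMem _ h, mul_zero] at e
  exact (hc.comp f).ip_ne_zero_of_common_constituent (ψ.isCharacter.comp f) θ
    (h1.of_constituent hc (by
      rw [ip_blockPart_regChar_of_mem hχ]; exact χ.apply_one_ne_zero) θ.isCharacter) h2 e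

theorem CharCover.rel_blockPart_regChar {f : N →* G} [IsNormalEmb f] {θ : IrrCharacter N}
    (c : CharCover.{u, v, w} f θ) {U : Set (IrrCharacter G)} (hU : U ⊆ irrOver f {θ}) :
    c.Rel (blockPart U (regChar G))
      (θ 1 • blockPart {β | ∃ χ ∈ U, c.Rel χ.1 β.1} (regChar c.Q)) := by
  classical
  choose F hF using fun χ : U =>
    c.exists_rel_of_liesOver_left (mem_irrOver_singleton.1 (hU χ.2))
  have hinj : Function.Injective F := fun χ ψ h =>
    Subtype.ext (Subtype.ext ((hF χ).left_unique (h ▸ hF ψ)))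
  have e0 : {β | ∃ χ ∈ U, c.Rel χ.1 β.1} = Set.range F := by
    ext β
    exact ⟨fun ⟨χ, hχ, h⟩ => ⟨⟨χ, hχ⟩, Subtype.ext ((hF _).right_unique h)⟩,
      fun ⟨χ, h⟩ => ⟨χ, χ.2, h ▸ hF χ⟩⟩
  have e1 : blockPart U (regChar G) = ∑ χ : U, χ.1 1 • χ.1.1 := by
    funext g
    rw [blockPart_regChar_apply, finsum_mem_irr_eq_sum_coe, Finset.sum_apply]
    rfl
  have e2 : θ 1 • blockPart (Set.range F) (regChar c.Q) = ∑ χ : U, χ.1 1 • (F χ).1 := by
    funext g
    rw [Pi.smul_apply, blockPart_regChar_apply, finsum_mem_range hinj, finsum_eq_sum_of_fintype,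
      Finset.sum_apply, smul_eq_mul, Finset.mul_sum]
    refine Finset.sum_congr rfl fun χ _ => ?_
    rw [← mul_assoc, Pi.smul_apply, smul_eq_mul, ← (hF χ).apply_one]
  rw [e0, e1, e2]
  exact CharCover.Rel.sum fun χ _ => (hF χ).smul _

theorem IsPSolvable.harada_fong (hG : IsPSolvable p G) {θ : IrrCharacter (pPrimeCore p G)}
    (hθ : inertia (pPrimeCore p G).subtype θ = ⊤) {U : Set (IrrCharacter G)}
    (hU : U ⊆ irrOver (pPrimeCore p G).subtype {θ})
    (hv : ∀ g, p ∣ orderOf g → blockPart U (regChar G) g = 0) {g : G} (hg : g ∉ pPrimeCore p G) :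
    blockPart U (regChar G) g = 0 := by
  classical
  have hp : p.Prime := Fact.out
  obtain ⟨c⟩ := nonempty_charCover hθ
  haveI := Fintype.ofFinite c.E
  obtain ⟨W, hr⟩ : ∃ W, c.Rel (blockPart U (regChar G)) (θ 1 • blockPart W (regChar c.Q)) :=
    ⟨_, c.rel_blockPart_regChar hU⟩
  have hK := not_dvd_card_pPrimeCore p G
  have hZ : ¬ p ∣ Nat.card c.π.ker := fun h => hp.one_lt.ne'
    (Nat.Coprime.eq_one_of_dvd (θ.coprime_of_coprime_card
      (coprime_card_pPrimeCore p G)).symm (h.trans c.card_ker_dvd))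
  have hZ' : ¬ p ∣ Nat.card c.toQuot.ker := by
    rw [c.toQuot_ker]; exact not_dvd_card_range _ hZ
  have hK' : ¬ p ∣ Nat.card (pPrimeCore p G).subtype.range := not_dvd_card_range _ hK
  have hQ : IsPSolvable p c.Q :=
    IsPSolvable.of_ker c.toQuot (isPSolvable_of_not_dvd hZ') (hG.to_quotient _)
  have hO : pPrimeCore p c.Q = c.zEmb.range := by
    have h1 := comap_piCore_of_ker (π := {p}ᶜ) c.toQuot_surjective
      (isPiGroup_compl_singleton_iff.2 hZ')
    rw [← pPrimeCore_eq_piCore, ← pPrimeCore_eq_piCore, ← map_pPrimeCore_quotient hK',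
      (Subgroup.map_eq_bot_iff _).2 (by rw [QuotientGroup.ker_mk', Subgroup.range_subtype]),
      MonoidHom.comap_bot, c.toQuot_ker] at h1
    exact h1.symm
  have hW : ∀ y, p ∣ orderOf y → blockPart W (regChar c.Q) y = 0 := by
    intro y hy
    have h1 := sum_fiber_mul_conj c.q_surjective c.q_ker c.ext.isCharacter c.isIrr_ext_comp y
    obtain ⟨x, hx, h2⟩ := Finset.exists_ne_zero_of_sum_ne_zero
      (h1 ▸ natCard_cast_ne_zero (pPrimeCore p G))
    obtain rfl : c.q x = y := (Finset.mem_filter.1 hx).2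
    have h3 : p ∣ orderOf (c.π x) := by
      by_contra h
      have h4 : IsPRegular p (c.toQuot (c.q x)) := by
        rw [c.toQuot_q]
        exact IsPRegular.map h (QuotientGroup.mk' _)
      have h5 : pPart p (c.q x) ∈ c.toQuot.ker := by
        rw [MonoidHom.mem_ker, map_pPart, pPart_eq_one_iff.2 h4]
      exact pPart_eq_one_iff.1 ((isPElt_pPart p _).eq_one_of_isPRegular
        (isPRegular_of_mem_of_not_dvd hZ' h5)) hy
    have h4 := congrFun hr.comp_eq x
    rw [Function.comp_apply, hv _ h3, Pi.mul_apply, Function.comp_apply, Pi.smul_apply,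
      smul_eq_mul] at h4
    exact ((mul_eq_zero.1 ((mul_eq_zero.1 h4.symm).resolve_left
      (left_ne_zero_of_mul h2))).resolve_left θ.apply_one_ne_zero)
  obtain ⟨x, rfl⟩ := c.π_surjective g
  have h4 := congrFun hr.comp_eq x
  rw [Function.comp_apply, Pi.mul_apply, Function.comp_apply, Pi.smul_apply] at h4
  rw [h4]
  by_contra h
  have h5 : blockPart W (regChar c.Q) (c.q x) ≠ 0 := fun h0 => h (by rw [h0, smul_zero, mul_zero])
  have h6 := hQ.mem_pPrimeCore_of_mem_centralizer (hO ▸ c.zEmb_range_le_center)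
    (mem_centralizer_of_blockPart_regChar_ne_zero hW (isPGroup_pCore p _) h5)
    fun h' => h5 (hW _ h')
  rw [hO, ← c.toQuot_ker, MonoidHom.mem_ker, c.toQuot_q, QuotientGroup.eq_one_iff,
    Subgroup.range_subtype] at h6
  exact hg h6

theorem IsPBlock.blockPart_vanish {B : Set (IrrCharacter G)} (hB : IsPBlock M B)
    (hM : IsPModular p M) {θ : G → ℂ} (hθ : IsClassFunction G θ)
    (hv : ∀ g, p ∣ orderOf g → θ g = 0) {g : G} (hg : p ∣ orderOf g) : blockPart B θ g = 0 := by
  have : pRegularPart p θ = θ := by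
    funext x
    rw [pRegularPart_eq_indicator, Set.indicator_apply_eq_self]
    exact fun h => hv x (not_not.1 h)
  rw [← this, hB.blockPart_pRegularPart hM hθ, pRegularPart_eq_indicator,
    Set.indicator_of_notMem (not_not.2 hg)]

theorem IsPSolvable.harada_block (hG : IsPSolvable p G) (hM : IsPModular p M)
    {B : Set (IrrCharacter G)} (hB : IsPBlock M B) :
    ∀ U ⊆ B, (∀ g, p ∣ orderOf g → blockPart U (regChar G) g = 0) → U.Nonempty → B ⊆ U := by
  refine fong_induction hM (fun G _ _ B => ∀ U ⊆ B,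
    (∀ g, p ∣ orderOf g → blockPart U (regChar G) g = 0) → U.Nonempty → B ⊆ U) ?_ ?_ G hG B hB
  · rintro G _ _ hG θ hθ U hU hv ⟨χ, hχ⟩ ψ hψ
    exact mem_of_blockPart_regChar_vanish (pPrimeCore p G).subtype_injective
      (fun g hg => hG.harada_fong hθ hU hv (by rwa [Subgroup.range_subtype] at hg)) hχ
      (mem_irrOver_singleton.1 (hU hχ)) (mem_irrOver_singleton.1 hψ)
  · rintro G T N _ _ _ _ _ _ f _ i j b _ hi hfac hb hT B' hB' hcov ih U hU hv ⟨χ, hχ⟩
    haveI : IsNormalEmb j := IsNormalEmb.of_factor hi hfac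
    have hA := hcov.subset_irrOver hM hB' (hb.isBlockUnion hM)
    have key : blockPart B' (blockPart U (regChar G) ∘ i) = (i.range.index : ℂ) •
        blockPart {ψ ∈ B' | ∃ χ ∈ U, χ.1 = ind i ψ.1} (regChar T) := by
      refine (isClassFunction_blockPart _ _).ext_ip ((isClassFunction_blockPart _ _).smul _)
        fun ψ => ?_
      rw [ip_smul_left]
      by_cases h1 : ψ ∈ B'
      · rw [ip_blockPart_of_mem _ h1, ← ip_ind_right i ψ.1 (isClassFunction_blockPart _ _)]
        have h2 := fr_isIrr_ind hM hi hfac hb hT (hA h1)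
        by_cases h3 : (⟨_, h2⟩ : IrrCharacter G) ∈ U
        · rw [ip_blockPart_regChar_of_mem (show ψ ∈ {ψ ∈ B' | ∃ χ ∈ U, χ.1 = ind i ψ.1} from
            ⟨h1, _, h3, rfl⟩), ← ind_apply_one hi]
          exact ip_blockPart_regChar_of_mem h3
        · rw [ip_blockPart_of_notMem _ (show ψ ∉ {ψ ∈ B' | ∃ χ ∈ U, χ.1 = ind i ψ.1} from
            fun ⟨_, χ, h4, h5⟩ => h3 (by
              rwa [show (⟨_, h2⟩ : IrrCharacter G) = χ from Subtype.ext h5.symm])), mul_zero]
          exact ip_blockPart_of_notMem _ h3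
      · rw [ip_blockPart_of_notMem _ h1, ip_blockPart_of_notMem (ψ := ψ) _ fun h => h1 h.1,
          mul_zero]
    obtain ⟨ψ, hψ, e⟩ := (fr_mem_irrOver_iff hM hi hfac hb hT hA).1 (hU hχ)
    have h1 := ih {ψ ∈ B' | ∃ χ ∈ U, χ.1 = ind i ψ.1} (fun _ h => h.1) (fun t ht => by
      have h2 := hB'.blockPart_vanish hM ((isClassFunction_blockPart U (regChar G)).comp i)
        (fun t ht => hv _ (by rwa [orderOf_injective i hi])) ht
      rw [key, Pi.smul_apply, smul_eq_mul] at h2
      exact (mul_eq_zero.1 h2).resolve_left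
        (Nat.cast_ne_zero.2 Subgroup.FiniteIndex.index_ne_zero)) ⟨ψ, hψ, χ, hχ, e⟩
    intro χ' hχ'
    obtain ⟨ψ', hψ', e'⟩ := (fr_mem_irrOver_iff hM hi hfac hb hT hA).1 hχ'
    obtain ⟨-, χ'', h2, h3⟩ := h1 hψ'
    rwa [show χ' = χ'' from Subtype.ext (e'.trans h3.symm)]

/-- Kiyota–Okuyama. -/
theorem IsPSolvable.harada (hG : IsPSolvable p G) (hM : IsPModular p M)
    {U : Set (IrrCharacter G)} (hv : ∀ g, p ∣ orderOf g → blockPart U (regChar G) g = 0) :
    IsBlockUnion M U := by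
  intro χ hχ ψ hψ
  have hB := isPBlock_blockOf (M := M) χ
  have key : blockPart (blockOf M χ.1 ∩ U) (regChar G) =
      blockPart (blockOf M χ.1) (blockPart U (regChar G)) := by
    refine (isClassFunction_blockPart _ _).ext_ip (isClassFunction_blockPart _ _) fun η => ?_
    by_cases h1 : η ∈ blockOf M χ.1
    · rw [ip_blockPart_of_mem _ h1]
      by_cases h2 : η ∈ U
      · rw [ip_blockPart_of_mem _ h2, ip_blockPart_of_mem _ (Set.mem_inter h1 h2)]
      · rw [ip_blockPart_of_notMem _ h2, ip_blockPart_of_notMem (ψ := η) _ fun h => h2 h.2]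
    · rw [ip_blockPart_of_notMem _ h1, ip_blockPart_of_notMem (ψ := η) _ fun h => h1 h.1]
  exact (hG.harada_block hM hB _ Set.inter_subset_left (fun g hg => by
    rw [key]; exact hB.blockPart_vanish hM (isClassFunction_blockPart _ _) hv hg)
    ⟨χ, hM.mem_blockOf_self χ, hχ⟩ (mem_blockOf.2 hψ)).2

end Cfsg
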