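import Cfsg.Agent.Blk.Covering
import Cfsg.Agent.Mod.Block

/-!
# The rank of a block of a subgroup of index two
-/

set_option autoImplicit false
set_option linter.style.haveILetI false
set_option linter.unusedSectionVars false

namespace Cfsg

open Finset Module

theorem card_le_two_mul_finrank {ι V : Type*} [Fintype ι] [AddCommGroup V] [Module ℂ V]
    {v : ι → V} (hv : LinearIndependent ℂ v) {T : ι → ι} (hT : Function.Involutive T)
    {W : Submodule ℂ V} [FiniteDimensional ℂ W] {I : Set ι} (h : ∀ i ∈ I, v i + v (T i) ∈ W) :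
    Nat.card I ≤ 2 * finrank ℂ W := by
  classical
  let e := Fintype.equivFin ι
  let S : Finset ι := {i | v i + v (T i) ∈ W ∧ e i ≤ e (T i)}
  have h1 : LinearIndepOn ℂ (fun i => v i + v (T i)) S := by
    refine linearIndepOn_finset_iff.2 fun g hg i hi => ?_
    have h2 : ∑ j, ((if j ∈ S then g j else 0) + if T j ∈ S then g (T j) else 0) • v j = 0 := by
      simp only [add_smul, sum_add_distrib, smul_add] at hg ⊢
      rw [← hg, ← Equiv.sum_comp hT.toPerm fun j => (if T j ∈ S then g (T j) else 0) • v j]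
      simp [hT _, sum_ite_mem]
    have h3 := Fintype.linearIndependent_iff.1 hv _ h2 i
    simp only [if_pos hi] at h3
    split_ifs at h3 with h4
    · have : T i = i := e.injective (le_antisymm (by simpa [hT _] using (mem_filter.1 h4).2.2)
        (mem_filter.1 hi).2.2)
      rwa [this, add_self_eq_zero] at h3
    · rwa [add_zero] at h3
  have h2 : #S ≤ finrank ℂ W := by
    let u : S → W := fun i => ⟨v i + v (T i), (mem_filter.1 i.2).2.1⟩
    simpa using (LinearIndependent.of_comp W.subtype (v := u) h1).fintype_card_le_finrank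
  have h3 : I ⊆ ↑(S ∪ S.image T) := fun i hi => by
    rcases le_total (e i) (e (T i)) with h3 | h3
    · simp [S, h i hi, h3]
    · exact mem_union_right _ (mem_image.2 ⟨T i, by simp [S, hT _, h3, add_comm, h i hi], hT i⟩)
  have h4 := Set.ncard_le_ncard h3
  have h5 := card_union_le S (S.image T)
  have h6 := card_image_le (s := S) (f := T)
  rw [Set.ncard_coe_finset] at h4
  rw [Nat.card_coe_set_eq]
  omega

variable {G N : Type*} [Group G] [Finite G] [Group N] [Finite N] {p : ℕ} {M : Ideal AlgInt}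
  {f : N →* G} [IsNormalEmb f] {B : Set (IrrCharacter G)} {b : Set (IrrCharacter N)}

theorem exists_span_restrict (p : ℕ) (f : N →* G) [IsNormalEmb f] (B : Set (IrrCharacter G)) :
    ∃ W : Submodule ℂ (N → ℂ), finrank ℂ W ≤ blockRank p B ∧
      ∀ χ ∈ B, pRegularPart p (χ.1 ∘ f) ∈ W :=
  ⟨_, Submodule.finrank_map_le (LinearMap.funLeft ℂ ℂ f) _, fun χ hχ =>
    ⟨_, Submodule.subset_span ⟨χ, hχ, rfl⟩,
      pRegularPart_comp_of_injective f IsNormalEmb.injective _⟩⟩

theorem Covers.blockRank_le_two_mul (h : Covers f B b) (hM : IsPModular p M) (hB : IsPBlock M B)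
    (hb : IsPBlock M b) {τ : G} (hτ : ∀ g, g ∈ f.range ∨ τ⁻¹ * g ∈ f.range) :
    blockRank p b ≤ 2 * blockRank p B := by
  classical
  obtain ⟨W, h1, h2⟩ := exists_span_restrict p f B
  obtain ⟨t, ht⟩ : τ * τ ∈ f.range := by
    rcases hτ τ⁻¹ with h | h
    · exact mul_mem (inv_mem_iff.1 h) (inv_mem_iff.1 h)
    · exact inv_mem_iff.1 (by rwa [mul_inv_rev])
  have h3 : ∀ θ ∈ b, pRegularPart p θ.1 + pRegularPart p (conjAut f τ • θ).1 ∈ W := fun θ hθ => by
    obtain ⟨χ, hχ, h3⟩ := h.exists_liesOver hM hB hb hθ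
    have h4 : conjOrbit f θ = {θ, conjAut f τ • θ} := by
      ext θ'
      simp only [mem_conjOrbit, mem_insert, mem_singleton]
      refine ⟨?_, by rintro (rfl | rfl); exacts [⟨1, by simp⟩, ⟨τ, rfl⟩]⟩
      rintro ⟨g, rfl⟩
      exact (hτ g).imp (fun h => range_le_inertia f θ h) fun h =>
        (conjAut_smul_eq_conjAut_smul_iff.2 (range_le_inertia f θ h)).symm
    have h5 := h2 χ hχ
    rw [h3.comp_eq_smul_sum_conjOrbit, pRegularPart_smul, W.smul_mem_iff
      (by rw [(χ.isCharacter.comp f).ipNat_cast θ.isCharacter]; exact h3), h4] at h5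
    by_cases h6 : θ = conjAut f τ • θ
    · rw [← h6] at h5 ⊢
      exact add_mem (by simpa using h5) (by simpa using h5)
    · rwa [sum_pair h6, pRegularPart_add] at h5
  rw [hb.blockRank_eq_card hM]
  refine (card_le_two_mul_finrank (IBr.linearIndependent hM) (T := (conjAut f τ • ·))
    (fun φ => Subtype.ext (funext fun n => ?_)) (W := W) fun φ hφ => ?_).trans (by omega)
  · simp only [smul_smul, ← map_mul, ← ht]
    rw [show (conjAut f (f t) • φ).1 n = _ from IBr.mulAut_smul_apply _ _ _]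
    refine φ.isClassFunction.eq_of_isConj (isConj_iff.2 ⟨t, IsNormalEmb.injective (f := f) ?_⟩)
    simp [mul_assoc]
  · obtain ⟨a, h4, h5⟩ := hb.exists_int_comb hM hφ
    have h6 : (conjAut f τ • φ).1 = ∑ θ, (a θ : ℂ) • pRegularPart p (conjAut f τ • θ).1 := by
      funext n
      rw [show (conjAut f τ • φ).1 n = _ from IBr.mulAut_smul_apply _ _ _, h5]
      simp [pRegularPart_apply, MulEquiv.orderOf_eq]
    change φ.1 + (conjAut f τ • φ).1 ∈ W
    rw [h6, h5, ← sum_add_distrib]
    refine sum_mem fun θ _ => ?_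
    by_cases hθ : θ ∈ b
    · rw [← smul_add]; exact W.smul_mem _ (h3 θ hθ)
    · simp [h4 θ hθ]

theorem Covers.blockRank_le_of_ne_zero (h : Covers f B b) (hM : IsPModular p M)
    (hB : IsPBlock M B) (hb : IsPBlock M b) {τ : G} (hτ : ∀ g, g ∈ f.range ∨ τ⁻¹ * g ∈ f.range)
    (h1 : τ ∉ f.range) (h0 : ∀ χ ∈ B, χ τ ≠ 0) : blockRank p b ≤ blockRank p B := by
  obtain ⟨W, h2, h3⟩ := exists_span_restrict p f B
  refine (Submodule.finrank_mono (Submodule.span_le.2 ?_)).trans h2
  rintro _ ⟨θ, hθ, rfl⟩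
  obtain ⟨χ, hχ, h4⟩ := h.exists_liesOver hM hB hb hθ
  have h5 : inertia f θ = ⊤ := by
    by_contra hn
    refine h0 χ hχ ?_
    rw [← h4.ind_eq_of_inertia_eq_range (le_antisymm (fun g hg => by_contra fun hg' => hn
      (eq_top_iff.2 fun x _ => ?_)) (range_le_inertia f θ)),
      ind_apply_eq_zero_of_normal f _ le_rfl h1]
    have h6 : τ ∈ inertia f θ := by
      simpa using mul_mem hg (inv_mem (range_le_inertia f θ ((hτ g).resolve_left hg')))
    exact (hτ x).elim (range_le_inertia f θ ·) fun h => by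
      simpa using mul_mem h6 (range_le_inertia f θ h)
  have h6 := h3 χ hχ
  rwa [h4.comp_eq_smul_of_inertia_eq_top h5, pRegularPart_smul, W.smul_mem_iff
    (by rw [(χ.isCharacter.comp f).ipNat_cast θ.isCharacter]; exact h4)] at h6

end Cfsg
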