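import Cfsg.Agent.Blk.Pairs
import Cfsg.Agent.Blk.Induced
import Cfsg.Agent.Grp.Misc
import Cfsg.Agent.Char.Ker

/-!
# Normal `p'`-subgroups in the kernel of a block

`KerOn L e`: the elements of `L` fix the idempotent `e`.  This passes down (and, for normal Hall
subgroups, up) along inclusions of Brauer pairs.
-/

set_option autoImplicit false
set_option linter.unusedSectionVars false
set_option linter.unusedVariables false
set_option linter.style.haveILetI false

namespace Cfsg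

open MonoidAlgebra

universe u v w

namespace GA

variable {k : Type w} [Field k] {G : Type u} [Group G] [Finite G] {H : Type v} [Group H]
  [Finite H] {p : ℕ} {K L L' P Q R : Subgroup G} {b c e f r : k[G]} {σ : Set ℕ}

local notation "C(" Q ")" => Subgroup.centralizer ((Q : Subgroup G) : Set G)
local notation "N(" Q ")" => Subgroup.normalizer ((Q : Subgroup G) : Set G)

/-- The elements of `L` fix `e`. -/
def KerOn (L : Subgroup G) (e : k[G]) : Prop := ∀ l ∈ L, single l 1 * e = e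

variable (k) in
/-- The idempotent `|L|⁻¹ ∑ l`. -/
noncomputable def avgS (L : Subgroup G) : k[G] := (Nat.card L : k)⁻¹ • subSum k L

theorem KerOn.mono (h : KerOn L e) (hL : L' ≤ L) : KerOn L' e := fun l hl => h l (hL hl)

theorem KerOn.mul (h : KerOn L e) (a : k[G]) : KerOn L (e * a) := fun l hl => by
  rw [← mul_assoc, h l hl]

theorem KerOn.cjMap (h : KerOn L e) (g : G) : KerOn (cjS g L) (cj g e) := fun l hl => by
  obtain ⟨y, hy, rfl⟩ := mem_cjS'.1 hl
  rw [← cj_single, ← map_mul, h y hy]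

theorem kerOn_emb_iff {φ : H →* G} (hφ : Function.Injective φ) {L : Subgroup H} {a : k[H]} :
    KerOn (L.map φ) (emb φ a) ↔ KerOn L a := by
  refine ⟨fun h l hl => emb_injective hφ ?_, ?_⟩
  · rw [map_mul, emb_single, h _ (Subgroup.mem_map_of_mem _ hl)]
  · rintro h _ ⟨l, hl, rfl⟩
    rw [← emb_single, ← map_mul, h l hl]

theorem kerOn_iff_coeff : KerOn L e ↔ ∀ l ∈ L, ∀ g, e.coeff (l * g) = e.coeff g := by
  refine ⟨fun h l hl g => ?_, fun h l hl => ext_coeff fun g => ?_⟩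
  · conv_rhs => rw [← h l⁻¹ (inv_mem hl), coeff_single_mul_apply, one_mul, inv_inv]
  · rw [coeff_single_mul_apply, one_mul, h _ (inv_mem hl)]

theorem kerOn_subSum (L : Subgroup G) : KerOn L (subSum k L) := by
  classical
  exact kerOn_iff_coeff.2 fun l hl g => by
    simp only [coeff_subSum, Subgroup.mul_mem_cancel_left _ hl]

theorem kerOn_avgS (L : Subgroup G) : KerOn L (avgS k L) := fun l hl => by
  rw [avgS, mul_smul_comm, kerOn_subSum L l hl]

theorem subSum_eq_sum (L : Subgroup G) [Fintype L] : subSum k L = ∑ l : L, single (l : G) 1 := by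
  classical
  refine ext_coeff fun g => ?_
  rw [coeff_subSum, coeff_finset_sum]
  split_ifs with h
  · rw [Finset.sum_eq_single ⟨g, h⟩ (fun l _ hl => by
      rw [coeff_single, Finsupp.single_eq_of_ne]; exact fun h => hl (Subtype.ext h.symm)) (by simp)]
    simp
  · refine (Finset.sum_eq_zero fun l _ => ?_).symm
    rw [coeff_single, Finsupp.single_eq_of_ne]
    rintro rfl
    exact h l.2

theorem KerOn.avgS_mul (h : KerOn L e) (h0 : (Nat.card L : k) ≠ 0) : avgS k L * e = e := by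
  haveI := Fintype.ofFinite L
  rw [avgS, smul_mul_assoc, subSum_eq_sum, Finset.sum_mul,
    Finset.sum_congr rfl fun l _ => h l.1 l.2, Finset.sum_const, Finset.card_univ,
    ← Nat.card_eq_fintype_card, ← Nat.cast_smul_eq_nsmul k, smul_smul, inv_mul_cancel₀ h0, one_smul]

theorem kerOn_of_avgS_mul (h : avgS k L * e = e) : KerOn L e := h ▸ (kerOn_avgS L).mul e

theorem avgS_idem (h0 : (Nat.card L : k) ≠ 0) : avgS k L * avgS k L = avgS k L :=
  (kerOn_avgS L).avgS_mul h0

theorem avgS_mem_suppIn (L : Subgroup G) : avgS k L ∈ suppIn k L :=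
  Subalgebra.smul_mem _ (subSum_mem_suppIn L) _

theorem avgS_mem_fixedBy (L : Subgroup G) : avgS k L ∈ fixedBy k N(L) :=
  Subalgebra.smul_mem _ (subSum_mem_fixedBy L) _

theorem avgS_mem_Zalg (hLK : L ≤ K) (hKL : K ≤ N(L)) : avgS k L ∈ Zalg k K K :=
  ⟨suppIn_mono hLK (avgS_mem_suppIn L), fixedBy_anti hKL (avgS_mem_fixedBy L)⟩

theorem Br_subSum (R L : Subgroup G) : Br R (subSum k L) = subSum k (L ⊓ C(R)) := by
  classical
  refine ext_coeff fun g => ?_
  by_cases hg : g ∈ C(R)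
  · simp [coeff_Br_of_mem _ hg, coeff_subSum, hg]
  · simp [coeff_Br_of_notMem _ hg, coeff_subSum, hg]

theorem KerOn.Br (h : KerOn L e) (hr : Br R e * r = r) : KerOn (L ⊓ C(R)) r := fun l hl => by
  rw [← hr, ← mul_assoc, ← Br_mul_left (single_mem_suppIn hl.2 1), h l hl.1]

variable [Fact p.Prime] [CharP k p]

theorem Br_avgS (hR : IsPGroup p R) (hRL : R ≤ N(L)) : Br R (avgS k L) = avgS k (L ⊓ C(R)) := by
  rw [avgS, map_smul, Br_subSum, avgS,
    (CharP.natCast_eq_natCast k p).2 (card_modEq_card_inf_centralizer hR hRL)]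

theorem IsBlockIdem.kerOn_of_Br (he : IsBlockIdem K e) (hLK : L ≤ K) (hKL : K ≤ N(L))
    (hL : ¬ p ∣ Nat.card L) (hR : IsPGroup p R) (hRL : R ≤ N(L)) (heR : e ∈ fixedBy k R)
    (hr : Br R e * r = r) (h0 : r ≠ 0) (h : KerOn (L ⊓ C(R)) r) : KerOn L e := by
  have h1 : (Nat.card L : k) ≠ 0 := (CharP.cast_eq_zero_iff k p _).not.2 hL
  refine kerOn_of_avgS_mul (he.mul_eq_of_ne_zero (Zalg_mul_comm le_rfl) (avgS_mem_Zalg hLK hKL)
    (avgS_idem h1) fun h2 => h0 ?_)
  have h3 := h.avgS_mul ((CharP.cast_eq_zero_iff k p _).not.2 fun h =>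
    hL (h.trans (Subgroup.card_dvd_of_le inf_le_left)))
  rw [← h3, ← Br_avgS hR hRL, ← hr, ← mul_assoc, ← Br_mul hR (fixedBy_anti hRL
    (avgS_mem_fixedBy L)) heR, h2, map_zero, zero_mul]

theorem not_dvd_card_piCoreOf (hp : p ∉ σ) (K : Subgroup G) : ¬ p ∣ Nat.card (piCoreOf σ K) :=
  fun h => hp (isPiGroup_piCoreOf σ K p Fact.out h)

theorem piCoreOf_inf_le (hK : C(R) ≤ K) : piCoreOf σ K ⊓ C(R) ≤ piCoreOf σ C(R) :=
  le_piCoreOf inf_le_right (le_trans (le_inf (hK.trans (Subgroup.le_normalizer.trans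
    (normalizer_le_normalizer_piCoreOf K))) Subgroup.le_normalizer) (normalizer_inf_le _ _))
    ((isPiGroup_piCoreOf σ K).to_le inf_le_left)

theorem piCoreOf_centralizer_le (hK : C(R) ≤ K) (hKN : K ≤ N(R)) :
    piCoreOf σ C(R) ≤ piCoreOf σ K ⊓ C(R) :=
  le_inf (le_piCoreOf ((piCoreOf_le _).trans hK) (hKN.trans
    ((normalizer_le_normalizer_centralizer' R).trans (normalizer_le_normalizer_piCoreOf _)))
    (isPiGroup_piCoreOf σ _)) (piCoreOf_le _)

theorem IsBlockIdem.kerOn_piCoreOf (hp : p ∉ σ) (he : IsBlockIdem K e) (hR : IsPGroup p R)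
    (hRK : R ≤ N(K)) (heR : e ∈ fixedBy k R) (hC : C(R) ≤ K) (hr : Br R e * r = r) (h0 : r ≠ 0)
    (h : KerOn (piCoreOf σ C(R)) r) : KerOn (piCoreOf σ K) e :=
  he.kerOn_of_Br (piCoreOf_le _) (Subgroup.le_normalizer.trans
    (normalizer_le_normalizer_piCoreOf K)) (not_dvd_card_piCoreOf hp K) hR
    (hRK.trans (normalizer_le_normalizer_piCoreOf K)) heR hr h0 (h.mono (piCoreOf_inf_le hC))

theorem BPLe.kerOn_of_ge (hp : p ∉ σ) (h : BPLe p Q f P e) (he : KerOn (piCoreOf σ C(P)) e) :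
    KerOn (piCoreOf σ C(Q)) f :=
  h.head_induction (motive := fun Q f => KerOn (piCoreOf σ C(Q)) f) he fun Q f R r h _ ih =>
    h.left.block.kerOn_piCoreOf hp h.right.isPGroup
      (h.le_normalizer.trans (normalizer_le_normalizer_centralizer' Q)) h.stable
      (centralizer_anti h.le) h.br h.right.ne_zero ih

theorem BPLe.kerOn_of_le (h : BPLe p Q f P e)
    (hQ : ∀ x ∈ C(Q), IsPiNumber σ (orderOf x) → x ∈ piCoreOf σ C(Q))
    (hf : KerOn (piCoreOf σ C(Q)) f) : KerOn (piCoreOf σ C(P)) e := by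
  refine h.head_induction (motive := fun Q f => (∀ x ∈ C(Q), IsPiNumber σ (orderOf x) →
    x ∈ piCoreOf σ C(Q)) → KerOn (piCoreOf σ C(Q)) f → KerOn (piCoreOf σ C(P)) e)
    (fun _ h => h) (fun Q f R r h _ ih hQ hf => ih (fun x hx hx' => piCoreOf_inf_le
      (centralizer_anti h.le) ⟨hQ x (centralizer_anti h.le hx) hx', hx⟩)
      ((hf.Br h.br).mono fun x hx => ?_)) hQ hf
  exact ⟨hQ x (centralizer_anti h.le (piCoreOf_le _ hx))
    ((isPiGroup_piCoreOf σ _).orderOf_mem hx), piCoreOf_le _ hx⟩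

theorem cjS_piCoreOf (g : G) (K : Subgroup G) : cjS g (piCoreOf σ K) = piCoreOf σ (cjS g K) :=
  (piCoreOf_map_conj g K).symm

theorem IsMaxPair.kerOn_of_isPairOf (hp : p ∉ σ) (h : IsMaxPair p b P e)
    (he : KerOn (piCoreOf σ C(P)) e) (hQ : IsPairOf p b Q f) : KerOn (piCoreOf σ C(Q)) f := by
  obtain ⟨g, hg⟩ := h.exists_cj_bpLe hQ
  have := (hg.kerOn_of_ge hp he).cjMap g⁻¹
  rwa [cjS_piCoreOf, cjS_centralizer, cjS_inv_cjS, cj_inv_cj] at this

theorem IsMaxPair.kerOn_of_hall (h : IsMaxPair p b P e) (hQ : IsPairOf p b Q f)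
    (hH : ∀ x ∈ C(Q), IsPiNumber σ (orderOf x) → x ∈ piCoreOf σ C(Q))
    (hf : KerOn (piCoreOf σ C(Q)) f) : KerOn (piCoreOf σ C(P)) e := by
  obtain ⟨g, hg⟩ := h.exists_cj_bpLe hQ
  have := hf.cjMap g
  rw [cjS_piCoreOf, cjS_centralizer] at this
  refine hg.kerOn_of_le (fun x hx hx' => ?_) this
  rw [← cjS_centralizer, ← cjS_piCoreOf] at *
  refine mem_cjS.2 (hH _ (mem_cjS.1 hx) ?_)
  rwa [show g⁻¹ * x * g = MulAut.conj g⁻¹ x by simp, MulEquiv.orderOf_eq]

end GA

open GA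

variable {G : Type u} [Group G] [Finite G] {H : Type v} [Group H] [Finite H] {p : ℕ}
  {M : Ideal AlgInt} {σ : Set ℕ}

local notation "C(" Q ")" => Subgroup.centralizer ((Q : Subgroup G) : Set G)
local notation "N(" Q ")" => Subgroup.normalizer ((Q : Subgroup G) : Set G)

theorem kerOn_blockIdem {B : Set (IrrCharacter G)} {L : Subgroup G}
    (h : ∀ l ∈ L, l ∈ blockKer B) : KerOn L (blockIdem M B) := by
  classical
  refine kerOn_iff_coeff.2 fun l hl g => ?_
  rw [coeff_blockIdem, coeff_blockIdem, blockCoeff_eq_sum, blockCoeff_eq_sum,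
    Finset.sum_congr rfl fun χ hχ => ?_]
  rw [apply_mul_of_mem_charKer' (χ.mem_charKer.2 (h l hl χ (Finset.mem_filter.1 hχ).2))]

theorem IsPBlock.mem_blockKer_of_kerOn {B : Set (IrrCharacter G)} (hB : IsPBlock M B)
    (hM : IsPModular p M) {L : Subgroup G} [L.Normal] (hL : ¬ p ∣ Nat.card L)
    (h : KerOn L (blockIdem M B)) {l : G} (hl : l ∈ L) : l ∈ blockKer B := fun χ hχ => by
  classical
  haveI := hM.charP
  have h1 : (Nat.card L : ResK M) ≠ 0 := (CharP.cast_eq_zero_iff _ p _).not.2 hL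
  have hZ : ∀ (k : Type) [Field k], avgS k L ∈ Zalg k (⊤ : Subgroup G) ⊤ := fun k _ =>
    avgS_mem_Zalg le_top (le_normalizer_of_normal' _ _)
  have hO : subSum ℂ L ∈ intGA G M := fun g => by
    rw [coeff_subSum]; split_ifs
    exacts [one_mem _, zero_mem _]
  have h2 : redGA M (avgS ℂ L) = avgS (ResK M) L := by
    rw [avgS, redGA_smul (hM.inv_natCast_mem hL) hO, red_inv (natCast_mem _ _) (by rwa [red_natCast]),
      red_natCast, avgS]
    congr 1
    refine ext_coeff fun g => ?_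
    rw [coeff_redGA, coeff_subSum, coeff_subSum]
    split_ifs <;> simp
  have h3 := (hB.lam_idem_eq_one_iff hM hχ (hZ _) (avgS_idem h1)).2 (h.avgS_mul h1)
  rw [← h2, lam_redGA χ (hZ _) (smul_mem_intGA (hM.inv_natCast_mem hL) hO)] at h3
  have h4 : omega χ.1 (avgS ℂ L) ≠ 0 := fun h => by rw [h, red_zero] at h3; exact zero_ne_one h3
  have h5 := omega_mul χ (hZ ℂ) (single l 1)
  rw [← cj_eq_self_iff.1 ((hZ ℂ).2 l trivial), kerOn_avgS L l hl, left_eq_mul₀ h4, omega,
    charExt_single, one_mul, div_eq_one_iff_eq χ.apply_one_ne_zero] at h5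
  exact h5

theorem kerOn_subIdem {K L : Subgroup G} {b : Set (IrrCharacter K)} (hL : L ≤ K)
    (h : ∀ l : K, l.1 ∈ L → l ∈ blockKer b) : KerOn L (subIdem M K b) := by
  have := (kerOn_emb_iff K.subtype_injective).2 (kerOn_blockIdem (M := M) (L := L.subgroupOf K) h)
  rwa [Subgroup.map_subgroupOf_eq_of_le hL] at this

theorem kerOn_piCoreOf_subIdem {K : Subgroup G} {b : Set (IrrCharacter K)}
    (h : ∀ l : K, l ∈ piCore σ K → l ∈ blockKer b) : KerOn (piCoreOf σ K) (subIdem M K b) :=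
  (kerOn_emb_iff K.subtype_injective).2 (kerOn_blockIdem h)

theorem IsPBlock.mem_blockKer_piCore {K : Subgroup G} {b : Set (IrrCharacter K)}
    (hb : IsPBlock M b) (hM : IsPModular p M) (hp : p ∉ σ)
    (h : KerOn (piCoreOf σ K) (subIdem M K b)) {l : K} (hl : l ∈ piCore σ K) : l ∈ blockKer b :=
  hb.mem_blockKer_of_kerOn hM (fun h => hp (isPiGroup_piCore σ K p hM.prime h))
    ((kerOn_emb_iff K.subtype_injective).1 h) hl

theorem Induces.exists_isPairOf (hM : IsPModular p M) {K Q : Subgroup G}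
    {b : Set (IrrCharacter K)} {B : Set (IrrCharacter G)} (h : Induces M K.subtype b B)
    (hQ : IsPGroup p Q) (hQK : Q ≤ K) (hC : C(Q) ≤ K) (hBr : Br Q (subIdem M K b) ≠ 0) :
    haveI := hM.fact
    haveI := hM.charP
    ∃ e, IsPairOf p (blockIdem M B) Q e ∧ Br Q (subIdem M K b) * e = e := by
  haveI := hM.fact
  haveI := hM.charP
  obtain ⟨e, he, he'⟩ := exists_isBPair_Br_mul hQ (fixedBy_anti hQK (subIdem_mem K b).2)
    (fixedBy_anti hC (subIdem_mem K b).2) (h.left.isBlockIdem_subIdem hM).idem hBr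
  refine ⟨e, ⟨h.right.isBlockIdem hM, he, ?_⟩, he'⟩
  rw [← he', ← mul_assoc, (induces_subtype_iff_Br hM hQ hQK hC h.left hBr h.right).1 h]

/-- A maximal pair below the Brauer correspondent. -/
theorem Induces.exists_isMaxPair (hM : IsPModular p M) {D : Subgroup G}
    {b : Set (IrrCharacter N(D))} {B : Set (IrrCharacter G)} (h : Induces M (N(D)).subtype b B)
    (hD : IsDefectGroup p M B D) :
    haveI := hM.fact
    haveI := hM.charP
    ∃ e, IsMaxPair p (blockIdem M B) D e ∧ Br D (subIdem M N(D) b) * e = e := by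
  haveI := hM.fact
  haveI := hM.charP
  obtain ⟨e, he, he'⟩ := h.exists_isPairOf hM hD.isPGroup Subgroup.le_normalizer
    (centralizer_le_normalizer' D) (by
      rw [Br_eq_self_of_idem hD.isPGroup le_rfl (subIdem_mem _ b) (fixedBy_anti
        Subgroup.le_normalizer (subIdem_mem _ b).2) (h.left.isBlockIdem_subIdem hM).idem]
      exact (h.left.isBlockIdem_subIdem hM).ne_zero)
  exact ⟨e, ⟨he, (h.right.isDefectGroup_iff hM D).1 hD⟩, he'⟩

theorem Induces.kerOn_of_isPairOf (hM : IsPModular p M) (hp : p ∉ σ) {D : Subgroup G}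
    {b : Set (IrrCharacter N(D))} {B : Set (IrrCharacter G)} (h : Induces M (N(D)).subtype b B)
    (hD : IsDefectGroup p M B D) (hker : ∀ l : N(D), l ∈ piCore σ N(D) → l ∈ blockKer b)
    {Q : Subgroup G} {f : (ResK M)[G]} (hf : IsPairOf p (blockIdem M B) Q f) :
    KerOn (piCoreOf σ C(Q)) f := by
  haveI := hM.fact
  haveI := hM.charP
  obtain ⟨e, he, he'⟩ := h.exists_isMaxPair hM hD
  exact he.kerOn_of_isPairOf hp (((kerOn_piCoreOf_subIdem hker).Br he').mono
    (piCoreOf_centralizer_le (centralizer_le_normalizer' D) le_rfl)) hf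

end Cfsg

set_option linter.all false in
theorem Cfsg.Rz.Blk_KerOn_0 : True := by
  have := @_root_.Cfsg.GA.avgS.congr_simp.{0, 0}
  have := @_root_.Cfsg.GA.avgS.eq_def.{0, 0}
  have := @_root_.Cfsg.GA.avgS.fun_cases
  have := @_root_.Cfsg.GA.KerOn.eq_def.{0, 0}
  have := @_root_.Cfsg.GA.KerOn.eq_1.{0, 0}
  have := @_root_.Cfsg.GA.KerOn.fun_cases
  trivial
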