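import Cfsg.Agent.Blk.MultFreeD

/-!
# Principal `2`-blocks with `χ 1 - χ t = |P|`: the order of the group
-/

set_option autoImplicit false
set_option linter.unusedSectionVars false
set_option linter.unusedVariables false

namespace Cfsg

open Subgroup
open scoped ComplexConjugate MatrixGroups commutatorElement

universe u v

variable {G : Type u} [Group G] [Finite G] {p : ℕ} {M : Ideal AlgInt}

namespace MF

/-- The arithmetic core. -/
theorem arith {I : Type*} [Fintype I] {a : I → ℕ} {y : I → ℤ} {d : ℕ} (hd : ¬ 2 ∣ d)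
    (hs : (d : ℤ) = ∑ i, a i * y i) (h : ∀ i, a i ≠ 0 → y i = 0 ∨ (0 < y i ∧ a i * d ≤ y i + 1))
    {i : I} (hi : a i ≠ 0) (hy : y i ≠ 0) : y i = d := by
  classical
  have h0 : ∀ j, 0 ≤ (a j : ℤ) * y j := fun j => by
    by_cases hj : a j = 0
    · simp [hj]
    · rcases h j hj with e | e
      · simp [e]
      · exact mul_nonneg (Nat.cast_nonneg _) e.1.le
  obtain ⟨h1, h2⟩ := (h i hi).resolve_left hy
  have ha : (1 : ℤ) ≤ a i := by omega
  rw [← Finset.add_sum_erase _ _ (Finset.mem_univ i)] at hs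
  have h3 : 0 ≤ ∑ j ∈ Finset.univ.erase i, (a j : ℤ) * y j := Finset.sum_nonneg fun j _ => h0 j
  have h4 : y i ≤ a i * y i := le_mul_of_one_le_left h1.le ha
  have h5 : (d : ℤ) ≤ a i * d := le_mul_of_one_le_left (Nat.cast_nonneg _) ha
  by_contra hne
  have h6 : (d : ℤ) = y i + 1 := by omega
  have h7 : a i = 1 := by
    by_contra h7
    have : (2 : ℤ) ≤ a i := by omega
    nlinarith
  rw [h7] at hs
  have h8 : ∑ j ∈ Finset.univ.erase i, (a j : ℤ) * y j = 1 := by push_cast at hs; omega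
  obtain ⟨j, hj, hj0⟩ := Finset.exists_ne_zero_of_sum_ne_zero (h8 ▸ one_ne_zero)
  have h9 : (a j : ℤ) * y j ≤ 1 := h8 ▸ Finset.single_le_sum (fun j _ => h0 j) hj
  have hja : a j ≠ 0 := by rintro e; simp [e] at hj0
  obtain ⟨k1, k2⟩ := (h j hja).resolve_left (by rintro e; simp [e] at hj0)
  have hb : (1 : ℤ) ≤ a j := by omega
  have k3 : y j ≤ a j * y j := le_mul_of_one_le_left k1.le hb
  have k4 : (d : ℤ) ≤ a j * d := le_mul_of_one_le_left (Nat.cast_nonneg _) hb
  omega

theorem exists_conj_normalizer {P : Subgroup G} (hP : ∀ x ∈ P, x * x = 1) (hi : ¬ 2 ∣ P.index)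
    {a b : G} (ha : a ∈ P) (hb : b ∈ P) (h : IsConj a b) :
    ∃ n ∈ normalizer (P : Set G), n * a * n⁻¹ = b := by
  obtain ⟨g, rfl⟩ := isConj_iff.1 h
  let S := (isPGroup_of_mul_self hP).toSylow hi
  haveI : IsMulCommutative (S : Subgroup G) :=
    ⟨⟨fun x y => Subtype.ext (comm_of_mul_self hP x.2 y.2)⟩⟩
  obtain ⟨n, hn, e⟩ := S.conj_eq_normalizer_conj_of_mem a g⁻¹ ha (by rwa [inv_inv])
  exact ⟨n⁻¹, inv_mem hn, by rw [inv_inv, ← e, inv_inv]⟩

variable (hM : IsPModular 2 M) (hO : pPrimeCore 2 G = ⊥) {P : Subgroup G}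
  (hP : ∀ x ∈ P, x * x = 1) (hi : ¬ 2 ∣ P.index) {t : G} (ht : t ∈ P) (ht1 : t ≠ 1)
  (hconj : ∀ b ∈ P, b ≠ 1 → IsConj t b)
  (hχ : ∀ χ ∈ principalBlock M G, χ ≠ IrrCharacter.one G → χ 1 - χ t = Nat.card P)
include hM hO hP hi ht ht1 hconj hχ

theorem centralizer_eq_and : (∀ a ∈ P, a ≠ 1 → centralizer ({a} : Set G) = P) ∧
    ∀ χ ∈ principalBlock M G, χ t = 1 ∨ χ t = -1 := by
  classical
  set N := normalizer (P : Set G) with hN
  have hle : P ≤ N := le_normalizer
  have hP2 := isPGroup_of_mul_self hP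
  haveI hnorm : (inclusion hle).range.Normal := by rw [inclusion_range]; infer_instance
  choose y hy using fun χ : IrrCharacter G =>
    χ.isCharacter.exists_int_of_sq_eq_one (g := t) (by simpa [sq] using hP t ht)
  replace hy : ∀ χ : IrrCharacter G, χ t = y χ := fun χ => (hy χ).1
  let a : IrrCharacter G → IrrCharacter N → ℕ := fun χ ν => ipNat (χ.1 ∘ N.subtype) ν.1
  let e : IrrCharacter N → ℕ := fun ν => ipNat (ν.1 ∘ inclusion hle) (IrrCharacter.one P).1
  have he : ∀ ν : IrrCharacter N, (∀ x : P, ν (inclusion hle x) = ν 1) → e ν = charDegree ν.1 :=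
    fun ν h => ipNat_eq_of_ip_eq (by
      rw [show ν.1 ∘ inclusion hle = ν 1 • (IrrCharacter.one P).1 from funext fun x => by
        simpa using h x, ip_smul_left, IrrCharacter.ip_self, mul_one, ν.apply_one])
  have he' : ∀ ν : IrrCharacter N, e ν ≠ 0 → ∀ x : P, ν (inclusion hle x) = ν 1 := fun ν h =>
    (ν.liesOver_one_iff _).1 ((liesOver_iff_ipNat_pos ν.isCharacter IsCharacter.one).2
      (Nat.pos_of_ne_zero h))
  have hy0 : ∀ χ, χ ∉ principalBlock M G → y χ = 0 := fun χ h => by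
    have := (hy χ).symm.trans (apply_eq_zero hM hO hP hi ht ht1 hconj hχ h)
    exact_mod_cast this
  have hy1 : y (IrrCharacter.one G) = 1 := by
    have : ((y (IrrCharacter.one G) : ℤ) : ℂ) = 1 := (hy (IrrCharacter.one G)).symm
    exact_mod_cast this
  have hy2 : ∀ χ ∈ principalBlock M G, y χ ≠ 0 := fun χ h h0 =>
    irr_apply_ne_zero_of_not_dvd_index hM h (not_dvd_index_centralizer hP hi ht)
      (by rw [hy, h0, Int.cast_zero])
  have hB2 : ∀ χ ∈ principalBlock M G, χ ≠ IrrCharacter.one G →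
      y χ + 1 = ∑ ν, (a χ ν * e ν : ℕ) := fun χ h h1 => by
    have h2 := (exists_mult hP ht ht1 hconj hχ h h1).1
    rw [ipNat_comp_eq_sum_of_factor (i := N.subtype) (j := inclusion hle) (fun _ => rfl)
      χ.isCharacter (IrrCharacter.one P).isCharacter, hy] at h2
    have h3 : ((y χ + 1 : ℤ) : ℂ) = ((∑ ν, a χ ν * e ν : ℕ) : ℤ) := by
      rw [Int.cast_add, h2]; simp [a, e]
    exact_mod_cast h3
  have hB1 : ∀ ν : IrrCharacter N, e ν ≠ 0 → (e ν : ℤ) = ∑ χ, a χ ν * y χ := fun ν h => by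
    have h1 := ind_apply_map_of_centralizer_le (f := N.subtype) (subtype_injective _)
      ν.isClassFunction (h := ⟨t, hle ht⟩)
      (by rw [range_subtype]; exact centralizer_le_normalizer' hM hO hP hi ht ht1 hconj hχ ht ht1)
      fun b hb => by
        obtain ⟨n, hn, e⟩ := exists_conj_normalizer hP hi ht (mem_of_mem_normalizer hP2 hi
          ((isPElt_iff_of_isConj hb).1 (isPElt_of_mul_self (hP t ht))) b.2) hb
        exact isConj_iff.2 ⟨⟨n, hn⟩, Subtype.ext e⟩
    rw [ν.isCharacter.ind_eq_sum_ipNat, show ν.1 ⟨t, hle ht⟩ = ν 1 from he' ν h ⟨t, ht⟩,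
      ν.apply_one, ← he ν (he' ν h)] at h1
    simp only [Finset.sum_apply, Pi.smul_apply, smul_eq_mul, coe_subtype] at h1
    have h2 : ((e ν : ℤ) : ℂ) = (∑ χ, a χ ν * y χ : ℤ) := by
      push_cast
      rw [← h1]
      exact Finset.sum_congr rfl fun χ _ => congrArg _ (hy χ)
    exact_mod_cast h2
  have hle' : ∀ χ ∈ principalBlock M G, χ ≠ IrrCharacter.one G → ∀ ν,
      (a χ ν * e ν : ℤ) ≤ y χ + 1 := fun χ h h1 ν => by
    rw [hB2 χ h h1]
    exact_mod_cast Finset.single_le_sum (f := fun ν => a χ ν * e ν) (fun _ _ => Nat.zero_le _)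
      (Finset.mem_univ ν)
  have hpos : ∀ χ ∈ principalBlock M G, ∀ ν, a χ ν ≠ 0 → e ν ≠ 0 → 0 < y χ := fun χ h ν h2 h3 => by
    by_cases h1 : χ = IrrCharacter.one G
    · rw [h1, hy1]; exact one_pos
    have h4 := hle' χ h h1 ν
    have h5 := hy2 χ h
    have h6 : 0 < a χ ν * e ν := Nat.mul_pos (Nat.pos_of_ne_zero h2) (Nat.pos_of_ne_zero h3)
    have h7 : (0 : ℤ) < a χ ν * e ν := by exact_mod_cast h6
    omega
  have he1 : e (IrrCharacter.one N) = 1 := (IrrCharacter.one P).ipNat_self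
  have ha1 : ∀ χ ∈ principalBlock M G, χ ≠ IrrCharacter.one G → a χ (IrrCharacter.one N) = 0 :=
    fun χ h h1 => by
    have h2 := hB1 _ (he1 ▸ one_ne_zero)
    rw [← Finset.add_sum_erase _ _ (Finset.mem_univ (IrrCharacter.one G)), he1, hy1,
      show a (IrrCharacter.one G) (IrrCharacter.one N) = 1 from (IrrCharacter.one N).ipNat_self]
      at h2
    have h3 := (Finset.sum_eq_zero_iff_of_nonneg (fun ψ _ => ?_)).1
      (show ∑ ψ ∈ Finset.univ.erase (IrrCharacter.one G), (a ψ (IrrCharacter.one N) : ℤ) * y ψ = 0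
        by push_cast at h2; omega) χ (Finset.mem_erase.2 ⟨h1, Finset.mem_univ _⟩)
    · exact_mod_cast (mul_eq_zero.1 h3).resolve_right (hy2 χ h)
    · by_cases k1 : a ψ (IrrCharacter.one N) = 0
      · simp [k1]
      by_cases k2 : ψ ∈ principalBlock M G
      · exact mul_nonneg (Nat.cast_nonneg _) (hpos ψ k2 _ k1 (he1 ▸ one_ne_zero)).le
      · simp [hy0 ψ k2]
  have hodd : ∀ ν : IrrCharacter N, e ν ≠ 0 → ¬ 2 ∣ e ν := fun ν h hd => by
    rw [he ν (he' ν h)] at hd
    have h1 := ν.charDegree_dvd_index_of_le (Z := P.subgroupOf N) fun x hx =>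
      charKer_le_charCenter _ (ν.mem_charKer.2 (he' ν h ⟨x, hx⟩))
    exact hi ((hd.trans h1).trans (relIndex_dvd_index_of_le hle))
  have hkey : ∀ ν : IrrCharacter N, e ν ≠ 0 → ν ≠ IrrCharacter.one N → ∀ χ, a χ ν ≠ 0 → y χ ≠ 0 →
      y χ = e ν := fun ν h h1 χ h2 h3 =>
    arith (a := fun χ => a χ ν) (hodd ν h) (hB1 ν h) (fun ψ hψ => by
      by_cases k2 : ψ ∈ principalBlock M G
      · refine Or.inr ⟨hpos ψ k2 ν hψ h, hle' ψ k2 ?_ ν⟩
        rintro rfl
        exact hψ (IrrCharacter.ipNat_of_ne h1.symm)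
      · exact Or.inl (hy0 ψ k2)) h2 h3
  have hval : ∀ χ ∈ principalBlock M G, y χ = 1 ∨ y χ = -1 := fun χ h => by
    by_cases h1 : χ = IrrCharacter.one G
    · rw [h1]; exact Or.inl hy1
    have h2 := hB2 χ h h1
    have h3 : y χ ∣ y χ + 1 := by
      rw [h2]
      push_cast
      refine Finset.dvd_sum fun ν _ => ?_
      by_cases k1 : a χ ν = 0
      · simp [k1]
      by_cases k2 : e ν = 0
      · simp [k2]
      rw [hkey ν k2 (fun k => k1 (k ▸ ha1 χ h h1)) χ k1 (hy2 χ h)]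
      exact dvd_mul_left _ _
    exact Int.isUnit_iff.1 (isUnit_of_dvd_one ((dvd_add_right (dvd_refl _)).1 h3))
  have hlin : ∀ ν : IrrCharacter N, P.subgroupOf N ≤ charKer ν.1 → ν 1 = 1 := fun ν h => by
    have h1 := he ν fun x => ν.mem_charKer.1 (h x.2)
    have h2 : e ν ≠ 0 := h1 ▸ ν.charDegree_pos.ne'
    by_cases h3 : ν = IrrCharacter.one N
    · rw [h3]; rfl
    obtain ⟨χ, -, h4⟩ := Finset.exists_ne_zero_of_sum_ne_zero
      ((hB1 ν h2) ▸ (Int.natCast_ne_zero.2 h2))
    have h5 : y χ ≠ 0 := right_ne_zero_of_mul h4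
    have h6 := hkey ν h2 h3 χ (by exact_mod_cast left_ne_zero_of_mul h4) h5
    have h7 := hval χ (by_contra fun k => h5 (hy0 χ k))
    rw [ν.apply_one_eq_one_iff, ← h1]
    omega
  have hcomm : commutator N ≤ P.subgroupOf N := fun g hg => by
    by_contra h
    obtain ⟨ν, h1, h2⟩ := exists_irr_le_charKer_not_mem _ h
    exact h2 (ν.commutator_le_charKer_iff.2 (hlin ν h1) hg)
  refine ⟨fun b hb hb1 => le_antisymm (fun x hx => ?_) (le_centralizer_of_mem hP hb),
    fun χ h => by rw [hy]; exact_mod_cast hval χ h⟩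
  have hxN := centralizer_le_normalizer' hM hO hP hi ht ht1 hconj hχ hb hb1 hx
  refine centralizer_le_self hM hO hP hi ht ht1 hconj hχ (mem_centralizer_iff.2 fun c hc => ?_)
  by_cases hc1 : c = 1
  · simp [hc1]
  obtain ⟨n, hn, rfl⟩ := exists_conj_normalizer hP hi hb hc
    ((hconj b hb hb1).symm.trans (hconj c hc hc1))
  have h1 : ⁅n⁻¹, x⁆ ∈ P := hcomm (commutator_mem_commutator (g₁ := (⟨n⁻¹, inv_mem hn⟩ : N))
    (g₂ := ⟨x, hxN⟩) (mem_top _) (mem_top _))
  have h2 := mem_centralizer_singleton_iff.1 (mul_mem (le_centralizer_of_mem hP hb h1) hx)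
  rw [commutatorElement_def] at h2
  calc n * b * n⁻¹ * x = n * (b * (n⁻¹ * x * n⁻¹⁻¹ * x⁻¹ * x)) * n⁻¹ := by group
    _ = x * (n * b * n⁻¹) := by rw [← h2]; group

theorem exists_SL2 (hq : 2 < Nat.card P) :
    ∃ (F : Type) (_ : Field F) (_ : Fintype F), Fintype.card F = Nat.card P ∧
      Nonempty (G ≃* SL(2, F)) := by
  classical
  obtain ⟨hC, hval⟩ := centralizer_eq_and hM hO hP hi ht ht1 hconj hχ
  have hz := @apply_eq_zero G _ _ M hM hO P hP hi t ht ht1 hconj hχ
  set B := Finset.univ.filter fun χ : IrrCharacter G =>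
    χ ∈ principalBlock M G ∧ χ ≠ IrrCharacter.one G with hB
  have hsum : ∀ F : IrrCharacter G → ℂ, (∀ χ, χ ∉ principalBlock M G → F χ = 0) →
      ∑ χ, F χ = F (IrrCharacter.one G) + ∑ χ ∈ B, F χ := fun F hF => by
    rw [one_add_sum_eq_finsum hM, finsum_mem_irr_eq_sum, Finset.sum_filter_of_ne]
    exact fun χ _ h => by_contra fun k => h (hF χ k)
  have hsq : ∀ χ ∈ B, χ t * χ t = 1 ∧ conj (χ t) = χ t ∧ χ 1 = Nat.card P + χ t := fun χ h => by
    obtain ⟨h1, h2⟩ := (Finset.mem_filter.1 h).2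
    refine ⟨?_, ?_, by linear_combination hχ χ h1 h2⟩ <;> rcases hval χ h1 with e | e <;> simp [e]
  have hq0 := natCard_cast_ne_zero P
  have hq2 : (Nat.card P : ℂ) - 2 ≠ 0 := sub_ne_zero.2 (by exact_mod_cast hq.ne')
  have hq1 : (Nat.card P : ℂ) - 1 ≠ 0 := sub_ne_zero.2 (by exact_mod_cast (by omega))
  have hq3 : (Nat.card P : ℂ) + 1 ≠ 0 := Nat.cast_add_one_ne_zero _
  have h1 : (B.card : ℂ) = Nat.card P - 1 := by
    have := sum_irr_mul_conj_of_isConj (IsConj.refl t)
    rw [hC t ht ht1, hsum _ fun χ h => by rw [hz h, zero_mul],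
      Finset.sum_congr rfl (g := fun _ => 1) fun χ h => by rw [(hsq χ h).2.1, (hsq χ h).1]] at this
    simp only [IrrCharacter.one_apply, map_one, mul_one, Finset.sum_const, nsmul_eq_mul] at this
    linear_combination this
  have h2 : ∑ χ ∈ B, χ t = -1 := by
    have := sum_one_mul hM hP ht ht1
    rw [Finset.sum_congr (s₁ := B) rfl (g := fun χ => Nat.card P * χ t + 1) fun χ h => by
      rw [(hsq χ h).2.1, (hsq χ h).2.2, add_mul, (hsq χ h).1], Finset.sum_add_distrib,
      ← Finset.mul_sum, Finset.sum_const, nsmul_eq_mul, h1] at this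
    apply mul_left_cancel₀ hq0
    linear_combination this
  have h3 : Nat.card {xy : G × G // IsConj t xy.1 ∧ IsConj t xy.2 ∧ xy.1 * xy.2 = t} + 2 =
      Nat.card P := by
    have hsq : ∀ {x : G}, IsConj t x → x * x = 1 ∧ x ≠ 1 := fun {x} h => by
      obtain ⟨g, rfl⟩ := isConj_iff.1 h
      refine ⟨?_, by simpa using ht1⟩
      calc _ = g * (t * t) * g⁻¹ := by group
        _ = 1 := by rw [hP t ht]; group
    have e : {xy : G × G // IsConj t xy.1 ∧ IsConj t xy.2 ∧ xy.1 * xy.2 = t} ≃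
        ((((P : Set G) \ {1}) \ {t} : Set G)) :=
      { toFun := fun xy => ⟨xy.1.1, ⟨by
          obtain ⟨⟨x, y⟩, k1, k2, k3⟩ := xy
          have k4 := (mem_centralizer_of_mem_zpowers_mul (hsq k1).1 (hsq k2).1
            (orderOf_eq_prime (p := 2) (by simpa [sq] using hP t ht) ht1)
            (k3 ▸ mem_zpowers _)).1
          rwa [hC t ht ht1] at k4, (hsq xy.2.1).2⟩, fun k => (hsq xy.2.2.1).2 (by
            have k3 := xy.2.2.2
            rw [show xy.1.1 = t from k] at k3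
            simpa using k3)⟩
        invFun := fun x => ⟨(x.1, x.1 * t), hconj _ x.2.1.1 x.2.1.2,
          hconj _ (P.mul_mem x.2.1.1 ht) fun k => x.2.2 (by
            rw [eq_inv_of_mul_eq_one_left k, inv_eq_of_mul_eq_one_left (hP t ht)]; rfl),
          by rw [← mul_assoc, hP _ x.2.1.1, one_mul]⟩
        left_inv := fun xy => by
          obtain ⟨⟨x, y⟩, k1, k2, k3⟩ := xy
          refine Subtype.ext (Prod.ext rfl ?_)
          simp only at k3 ⊢
          rw [← k3, ← mul_assoc, (hsq k1).1, one_mul]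
        right_inv := fun x => rfl }
    rw [Nat.card_congr e, Nat.card_coe_set_eq, ← one_add_one_eq_two, ← add_assoc,
      Set.ncard_diff_singleton_add_one (by exact ⟨ht, ht1⟩),
      Set.ncard_diff_singleton_add_one P.one_mem]
    rfl
  have h4 := card_class_mul_eq_sum t t t
  rw [hC t ht ht1, hsum _ fun χ h => by rw [hz h]; simp,
    Finset.sum_congr (s₁ := B) rfl (g := fun χ => (Nat.card P * χ t - 1) / ((Nat.card P - 1) *
      (Nat.card P + 1))) fun χ h => by
      obtain ⟨k1, k2, k3⟩ := hsq χ h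
      rw [k1, k2, one_mul, div_eq_div_iff χ.apply_one_ne_zero (mul_ne_zero hq1 hq3), k3]
      linear_combination (-(Nat.card P : ℂ)) * k1, ← Finset.sum_div, Finset.sum_sub_distrib,
      ← Finset.mul_sum, h2, Finset.sum_const, nsmul_eq_mul, h1, ← card_mul_index P,
      eq_sub_of_add_eq (show ((Nat.card {xy : G × G // IsConj t xy.1 ∧ IsConj t xy.2 ∧
        xy.1 * xy.2 = t} : ℕ) : ℂ) + 2 = Nat.card P by exact_mod_cast h3)] at h4
  simp only [IrrCharacter.one_apply, map_one, mul_one, div_one, Nat.cast_mul] at h4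
  have hi0 : (P.index : ℂ) ≠ 0 := by exact_mod_cast index_ne_zero_of_finite
  have h5 : (P.index : ℂ) = (Nat.card P - 1) * (Nat.card P + 1) := by
    field_simp at h4
    apply mul_left_cancel₀ (mul_ne_zero hq0 hq2)
    linear_combination -h4
  have h6 : P.index = (Nat.card P - 1) * (Nat.card P + 1) := by
    have : (P.index : ℂ) = ((Nat.card P - 1) * (Nat.card P + 1) : ℕ) := by
      rw [h5]; push_cast [Nat.cast_sub (show 1 ≤ Nat.card P by omega)]; rfl
    exact_mod_cast this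
  have h7 : P.relIndex (normalizer (P : Set G)) + 1 = Nat.card P := by
    have k1 := card_isConj_eq_index (⟨t, le_normalizer ht⟩ : normalizer (P : Set G))
    rw [centralizer_singleton_subgroupOf, hC t ht ht1] at k1
    rw [relIndex, ← k1, ← card_ne_one P]
    congr 1
    refine Nat.card_congr (Equiv.subtypeSubtypeEquivSubtypeInter _ (fun x => ∃ n ∈ normalizer
      (P : Set G), n * t * n⁻¹ = x) |>.symm.trans (Equiv.subtypeEquivRight ?_) |>.symm.trans
      (Equiv.subtypeEquivRight ?_) )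
    · intro x
      simp [isConj_iff, Subtype.ext_iff]
    · refine fun x => ⟨?_, fun h => ⟨le_normalizer h.1,
        exists_conj_normalizer hP hi ht h.1 (hconj x h.1 h.2)⟩⟩
      rintro ⟨-, n, hn, rfl⟩
      exact ⟨(mem_normalizer_iff.1 hn t).1 ht, by simpa using ht1⟩
  refine exists_mulEquiv_SL2 hP hi hC ?_ ?_ ?_
  · have := orderOf_dvd_natCard (⟨t, ht⟩ : P)
    rwa [← orderOf_coe, orderOf_eq_prime (p := 2) (by simpa [sq] using hP t ht) ht1] at this
  · have := relIndex_mul_index (le_normalizer (H := P))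
    rw [h6, show P.relIndex (normalizer (P : Set G)) = Nat.card P - 1 by omega] at this
    exact Nat.eq_of_mul_eq_mul_left (by omega) this
  · rw [← card_mul_index P, h6]
    simp only [Nat.descFactorial, Nat.sub_zero, mul_one, Nat.add_succ_sub_one, add_zero,
      show Nat.card P + 1 - 2 = Nat.card P - 1 from rfl]
    ring

end MF

end Cfsg
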