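import Cfsg.Agent.Blk.CentIdx
import Cfsg.Agent.Grp.Ord32

/-!
# Olsson's bound for defect groups of order at most 32
-/

set_option autoImplicit false
set_option linter.unusedSectionVars false
set_option linter.style.haveILetI false

namespace Cfsg

open MonoidAlgebra GA Subgroup

universe u v w

local notation "C(" Q ")" => Subgroup.centralizer ((Q : Subgroup _) : Set _)
local notation "N(" Q ")" => Subgroup.normalizer ((Q : Subgroup _) : Set _)

variable {G : Type u} [Group G] [Finite G] {A K P Q : Subgroup G} {a g w x y z : G}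

namespace IsAb

variable (h : IsAb P A K)
include h

theorem tz {k : Type w} [Field k] [IsAlgClosed k] [CharP k 2] {e f : k[G]} (hP : IsBPair 2 P e)
    (hK : K ≤ C(P)) (hQ : IsCrit 2 P e Q f) (H : ∀ a ∈ Q, a ∈ A → a ∈ C(P)) (hx : x ∈ Q) (hx' : x ∉ A)
    (hg : g ∈ N(Q) ⊓ cjStab f) : g * x * g⁻¹ ∉ A := fun hgx => by
  have hQP := hQ.le.le
  have hZ : P ⊓ C(P) ≤ Q := fun c hc => hQ.mem_of_cent hc.1 hc.2
  have h1 := eq_of_le_of_card_ge (le_inf (h.K_le.trans h.idx.le) hK) (by rw [h.card_Z, h.card_K])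
  have h2 : P ≤ N(Q) := fun t ht => mem_normalizer_fintype fun q hq => by
    simpa using mul_mem hq (hZ (h1.le (h.mem q (hQP hq) t ht)))
  have h3 : ∀ c ∈ P ⊓ C(P), ∃ a ∈ A, ∀ q ∈ P, q ∉ A → a * q * a⁻¹ = q * c := fun c hc =>
    let ⟨a, ha, e⟩ := h.surj c (h1.ge hc)
    ⟨a, ha, fun q hq hq' => by
      rw [show a * q * a⁻¹ = q * (q⁻¹ * a * q⁻¹⁻¹ * a⁻¹) by group, e _ (inv_mem hq) (by simpa),
        conj_eq_of_mem_cent hc.2 (h.idx.le ha)]⟩
  obtain ⟨c, hc, hc1⟩ := (P ⊓ C(P) ⊓ cjS g⁻¹ A).bot_or_exists_ne_one.resolve_left fun e => by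
    have := Idx2.card_le (A := P ⊓ C(P) ⊓ cjS g⁻¹ A) ⟨inf_le_left, fun v hv w hw hv' hw' =>
      ⟨mul_mem hv hw, by
        simpa [conj_mul] using h.idx.mul _ (hQP (conj_mem_of_mem_normalizer hg.1 (hZ hv))) _
          (hQP (conj_mem_of_mem_normalizer hg.1 (hZ hw))) (fun e => hv' ⟨hv, by simpa⟩)
          fun e => hw' ⟨hw, by simpa⟩⟩⟩
    rw [e, h.card_Z, card_bot] at this
    omega
  have h4 := conj_mem_of_mem_normalizer hg.1 (hZ hc.1)
  obtain ⟨a, ha, h5⟩ := h3 _ ⟨hQP h4, H _ h4 (by simpa using hc.2)⟩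
  have h6 : ∀ q ∈ Q, g * q * g⁻¹ ∈ A → g⁻¹ * a * g * q * (g⁻¹ * a * g)⁻¹ = q := fun q hq e => by
    rw [show g⁻¹ * a * g * q * (g⁻¹ * a * g)⁻¹ = g⁻¹ * (a * (g * q * g⁻¹) * a⁻¹) * g by group,
      conj_eq_of_mem_cent (h.comm e) ha]
    group
  have h7 : ∀ q ∈ Q, g * q * g⁻¹ ∉ A → g⁻¹ * a * g * q * (g⁻¹ * a * g)⁻¹ = q * c := fun q hq e => by
    rw [show g⁻¹ * a * g * q * (g⁻¹ * a * g)⁻¹ = g⁻¹ * (a * (g * q * g⁻¹) * a⁻¹) * g by group,
      h5 _ (hQP (conj_mem_of_mem_normalizer hg.1 hq)) e]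
    group
  have I := h.idx2_cent hQP H
  rw [show Q ⊓ C(P) = P ⊓ C(P) from le_antisymm (inf_le_inf_right _ hQP) (le_inf hZ inf_le_right)] at I
  have h8 : x ∉ P ⊓ C(P) := mt h.mem_of_cent hx'
  have h9 : P ≤ C(P ⊓ C(P)) := fun t ht c hc => (hc.2 t ht).symm
  have h10 : (P ⊓ N(Q)) ⊔ C(Q) = C(P ⊓ C(P)) ⊓ N(Q) := le_antisymm (sup_le (inf_le_inf_right _ h9)
    (le_inf (centralizer_anti hZ) (centralizer_le_normalizer' _))) fun s hs => by
      obtain ⟨b, hb, e⟩ := h3 _ (I.inv_mul hx (conj_mem_of_mem_normalizer hs.2 hx) h8 fun e =>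
        h8 ((MulAut.conj s).injective (conj_eq_iff_comm.2 (hs.1 _ e).symm) ▸ e))
      refine (mul_mem_cancel_left (mem_sup_left (inv_mem (mem_inf.2 ⟨h.idx.le hb, h2 (h.idx.le hb)⟩)))).1
        (mem_sup_right (I.mem_cent hx h8 (mul_mem (h9 (inv_mem (h.idx.le hb))) hs.1)
          (conj_eq_iff_comm.1 ?_).symm))
      rw [show b⁻¹ * s * x * (b⁻¹ * s)⁻¹ = b⁻¹ * (x * (x⁻¹ * (s * x * s⁻¹))) * b by group,
        ← e x (hQP hx) hx']
      group
  have h11 : P ⊓ N(Q) ≤ N(Q) ⊓ cjStab f := (hQ.le.inf_stab hP).ge.trans inf_le_right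
  have h12 := mul_mem (mul_mem (inv_mem hg) (h11 ⟨h.idx.le ha, h2 (h.idx.le ha)⟩)) hg
  obtain ⟨n, hn⟩ := isPElt_iff_pow_eq_one.1 (isPElt_of_mem h.two (h.idx.le ha))
  have h13 := mem_of_not_dvd_relIndex (L := N(Q) ⊓ cjStab f ⊓ N((P ⊓ N(Q)) ⊔ C(Q))) inf_le_right
    (fun e => hQ.not_dvd hP (e.trans (Dvd.intro _ (relIndex_mul_relIndex _ _ _ (le_inf (sup_le h11
      (hQ.le.left hP).isInertial_stab.centralizer_le) le_normalizer) inf_le_left)))) (n := n)
    ⟨h12, h10 ▸ mem_normalizer_fintype fun s hs => ⟨conj_mem_cent (mem_normalizer_fintype fun d hd =>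
      (em _).elim (fun e => (h6 d (hZ hd) e).symm ▸ hd) fun e => (h7 d (hZ hd) e).symm ▸ mul_mem hd hc.1)
      hs.1, Subgroup.mul_mem _ (Subgroup.mul_mem _ h12.1 hs.2) (Subgroup.inv_mem _ h12.1)⟩⟩ (by
        simpa [hn] using conj_pow (i := 2 ^ n) (a := g⁻¹) (b := a))
  have h14 := conj_mem_of_mem_normalizer (inv_mem hg.1) hx
  have h15 := h7 _ h14 (by simpa [mul_assoc])
  rw [conj_eq_iff_comm.2 (I.mem_cent hx h8 (h10.le h13).1 (conj_eq_iff_comm.1 (h6 x hx hgx)).symm _ h14).symm,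
    left_eq_mul] at h15
  exact hc1 h15

variable {M : Ideal AlgInt} {B : Set (IrrCharacter G)} [CharP (ResK M) 2] {e : (ResK M)[G]}
  (hM : IsPModular 2 M) (hB : IsPBlock M B) (hP : IsMaxPair 2 (blockIdem M B) P e)
include hM hB hP

theorem kz_le : kz 2 B ≤ 8 := by
  have key : ∀ w ∈ P, w ∉ A → ∀ T : G → Prop, T w → (∀ g ∈ N(P), ∀ x ∈ P, x ∉ A → T x → T (g * x * g⁻¹)) →
      (∀ Q f, IsCrit 2 P e Q f → Q ≠ P → ∀ g ∈ N(Q) ⊓ cjStab f, ∀ x ∈ Q, x ∉ A → T x →
        g * x * g⁻¹ ∉ A ∧ T (g * x * g⁻¹)) → kz 2 B ≤ 8 := fun w hw hw' T h1 h2 h3 =>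
    hM.kz_le_of_forall hB hP (u := ⟨w, hw⟩) (by
      have := two_le_orderOf (g := w) fun e => hw' (e ▸ one_mem _); simp only; omega) fun v hv =>
      h.card_cent v.2 (hP.of_mem_fClass (T := fun v => v ∉ A ∧ T v)
        (fun t ht x hx H => ⟨h.idx.conj_notMem ht H.1, h2 t (le_normalizer ht) x hx H.1 H.2⟩)
        (fun g hg _ x hx H => ⟨h.conj_notMem hg.1 H.1, h2 g hg.1 x hx H.1 H.2⟩)
        (fun Q f hQ hne g hg x hx H => h3 Q f hQ hne g hg x hx H.1 H.2) hv ⟨hw', h1⟩).1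
  obtain ⟨y, hy, hy'⟩ := h.ex
  by_cases hK : K ≤ C(P)
  · refine key y hy hy' (fun _ => True) trivial (fun _ _ _ _ _ _ => trivial)
      fun Q f hQ hne g hg x hx hx' _ => ⟨h.tz hP.pair hK hQ (fun b hb hb' => by_contra fun e =>
        hne (hQ.le.le.antisymm fun t ht => ?_)) hx hx' hg, trivial⟩
    refine hQ.mem_of_series hP.pair (S := (Q ⊓ C(Q) : Subgroup G)) (fun _ h => h.1)
      (fun g hg s hs => ⟨conj_mem_of_mem_normalizer hg.1 hs.1, conj_mem_cent hg.1 hs.2⟩) ht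
      (fun s hs => conj_eq_of_mem_cent (h.cent_of_comm (hQ.le.le hx) hx' (by_contra fun e' =>
        e (h.cent_of_comm (hQ.le.le hs.1) e' hb' (hs.2 b hb)).2) (hs.2 x hx).symm).2 ht) fun q hq => ?_
    have := h.mem q (hQ.le.le hq) t ht
    exact ⟨hQ.mem_of_cent (h.idx.le (h.K_le this)) (hK this), centralizer_anti hQ.le.le (hK this)⟩
  obtain ⟨a, ha, d, hd, z, h1, h2, h3, h4, h5, h6, h7, h8⟩ := h.three hK
  have h9 := mul_self_of_orderOf_eq_two h2
  have h10 : z ≠ 1 := fun e => by simp [e] at h2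
  have h11 : ∀ Q f, IsCrit 2 P e Q f → a ∈ Q → A ≤ Q := fun Q f hQ ha b hb =>
    let ⟨k, hk, _⟩ := h8 b hb
    (mul_mem_cancel_left (inv_mem (zpow_mem ha k))).1 (hQ.mem_of_cent hk.1 hk.2)
  have h12 : a * (a * d) * (a * (a * d)) = a ^ 4 * z := by
    rw [← h1, mul_assoc a, mul_assoc a, ← mul_assoc d, ← h.comm hd a ha, mul_assoc a, ← mul_assoc d,
      ← h.comm hd a ha]
    simp only [pow_succ, pow_zero, one_mul, mul_assoc]
  by_cases hN : a * (a * d) ∈ zpowers z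
  · have h13 : a ^ 4 = z := by
      rw [← mul_left_inj z, ← h12, h9]
      rcases eq_one_or_eq_of_mem_zpowers_of_orderOf_two h2 hN with e | e <;> simp [e, h9]
    have ho : orderOf a = 2 ^ (1 + 2) := orderOf_eq_prime_pow (h13 ▸ h10 :)
      (by rw [show 2 ^ (2 + 1) = 4 + 4 from rfl, pow_add, h13, h9])
    obtain ⟨r, hr, h14⟩ : ∃ r, r % 4 = 3 ∧ y * a * y⁻¹ = a ^ r := by
      rw [h4 y hy hy']
      rcases eq_one_or_eq_of_mem_zpowers_of_orderOf_two h2 hN with e | e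
      · exact ⟨7, rfl, by rw [← mul_right_inj a, e, ← pow_succ', ← pow_orderOf_eq_one a, ho]; rfl⟩
      · exact ⟨3, rfl, by rw [← mul_right_inj a, e, ← pow_succ', h13]⟩
    have J := idx2_of_card (zpowers_le.2 ha) (by rw [h.card_A, Nat.card_zpowers, ho]; rfl)
    have hA := h.two.to_le h.idx.le
    have h15 : ∀ b ∈ zpowers a, y * b * y⁻¹ = b ^ r := fun b ⟨k, hk⟩ => by
      simp only [← hk, ← conj_zpow, h14, ← zpow_natCast, ← zpow_mul, mul_comm]
    have h16 : ∀ u v : P, zpowers (u : G) = zpowers a → v ∈ fClass 2 P e u → v = u ∨ v = u ^ r :=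
      fun u v hu hv => by
        have h16 := hu ▸ mem_zpowers (u : G)
        have h17 : ∀ c ∈ P, c * u * c⁻¹ = u ∨ c * u * c⁻¹ = u ^ r := fun c hc => (em _).imp
          (conj_eq_of_mem_cent (h.comm (J.le h16))) fun e =>
            (h.idx.conj_eq h.comm hc hy e hy' (J.le h16)).trans (h15 _ h16)
        obtain ⟨c, hc, e⟩ := hP.exists_conj_of_mem_fClass (fun g hg hr => h.idx.mem_cent_of_regular h.two
          hr hg.1 (mem_centralizer_sub_conj'.1 (cent_of_idx2 hA J h.comm ho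
            (mem_normalizer_fintype fun _ => h.conj_mem hg.1) hr))) (fun Q f hQ hne c hc e => by
          have h18 := h11 Q f hQ (zpowers_le.2 e ((eq_of_le_of_card_ge (zpowers_le.2 (by
            rcases h17 c hc with e | e <;> rw [e]; exacts [h16, pow_mem h16 r])) (by
            rw [← hu, Nat.card_zpowers, Nat.card_zpowers, orderOf_conj_eq])).ge (mem_zpowers a)))
          obtain rfl : A = Q := h18.antisymm fun q hq => by_contra fun e => hne (hQ.le.le.antisymm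
            fun t ht => (em _).elim (@h18 t) fun e' => (mul_mem_cancel_right hq).1
              (h18 (h.idx.mul t ht q (hQ.le.le hq) e' e)))
          exact hne (hQ.eq_of_forall hP.pair fun g hg => cent_of_idx2 hA J h.comm ho hg.1)) hv
        exact (h17 c hc).imp (fun e' => Subtype.ext (e.trans e')) fun e' => Subtype.ext (e.trans e')
    have h17 : ∀ b ∈ A, b ^ 4 ≠ 1 → P ⊓ C(zpowers b) = A := fun b hb e => le_antisymm (fun g hg =>
      by_contra fun e' => e (by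
        have := h6 b (h.cent_of_comm hg.1 e' hb (mem_cent_zpowers.1 hg.2).symm)
        rw [show 4 = 2 * 2 from rfl, pow_mul, sq b, ← h2]
        exact orderOf_dvd_iff_pow_eq_one.1 (orderOf_dvd_of_mem_zpowers this)))
      fun g hg => ⟨h.idx.le hg, mem_cent_zpowers.2 (h.comm hb g hg)⟩
    have h18 := h17 a ha (h13 ▸ h10)
    have hF : FC 2 P e a := fc_of_forall (u := ⟨a, h.idx.le ha⟩) fun v hv => by
      rw [h18, h17 v (by rcases h16 _ v rfl hv with e | e <;> rw [e]; exacts [ha, pow_mem ha r])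
        (mt (pow_eq_one_iff_of_mem_fClass hv 4).1 (h13 ▸ h10))]
    have := hM.kz_mul_le hB hP (h.idx.le ha) ho hy h14 hr (h.comm ha _ (h.idx.sq_mem hy)) hF
      (hM.lrk_eq_one_of_card hP (h.idx.le ha) hF (by rw [h18, h.card_A, ho]; rfl)) h16
    rw [h18, h.card_A, ho] at this
    omega
  obtain ⟨w, hw, hw', h13⟩ : ∃ w ∈ P, w ∉ A ∧ w * w ∉ zpowers z := (em _).elim (fun e =>
    ⟨a * y, mul_mem (h.idx.le ha) hy, mt (mul_mem_cancel_left ha).1 hy', fun e' => hN (by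
      rwa [show a * y * (a * y) = a * (y * a * y⁻¹) * (y * y) by group, h4 y hy hy',
        mul_mem_cancel_right e] at e')⟩) (⟨y, hy, hy', ·⟩)
  have h14 : ∀ g x, g * z * g⁻¹ = z → x * x ∉ zpowers z → g * x * g⁻¹ * (g * x * g⁻¹) ∉ zpowers z :=
    fun g x e h14 e' => h14 (by
      rw [conj_mul] at e'
      rcases eq_one_or_eq_of_mem_zpowers_of_orderOf_two h2 e' with e' | e'
      exacts [(show x * x = 1 by simpa using e') ▸ one_mem _,
        (MulAut.conj g).injective (e'.trans e.symm) ▸ mem_zpowers _])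
  refine key w hw hw' (fun v => v * v ∉ zpowers z) h13 (fun g hg x _ _ => h14 g x (h7 g hg))
    fun Q f hQ hne g hg x hx hx' hT => ?_
  have h15 := conj_mem_of_mem_normalizer hg.1 hx
  have hQP := hQ.le.le
  by_cases H : ∀ a ∈ Q, a ∈ A → a ∈ C(P)
  · have h16 : g * x * g⁻¹ ∉ A := fun e => by
      have h16 : g * x * g⁻¹ ∈ P ⊓ C(P) := ⟨hQP h15, H _ h15 e⟩
      rcases eq_one_or_eq_of_mem_zpowers_of_orderOf_two h2 (h6 _ h16) with e | e
      · exact hT ((show x * x = 1 by simpa [conj_mul] using e) ▸ one_mem _)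
      · have h17 : orderOf (g * x * g⁻¹) = 2 ^ (1 + 1) := orderOf_eq_prime_pow (by simpa [sq, e])
          (by rw [pow_succ, pow_mul, pow_one, sq, sq, e, h9])
        rcases eq_one_or_half h17 ((eq_of_le_of_card_ge (zpowers_le.2 h16) (by
          rw [h.card_Z, Nat.card_zpowers, h17]; rfl)).ge (h.sq_cent (hQP hx) hx')) (by
            rw [← sq, ← sq, ← pow_mul, ← orderOf_dvd_iff_pow_eq_one, ← orderOf_conj_eq g, h17]
            rfl) with e' | e'
        exacts [hT (e' ▸ one_mem _), hT (by rw [e', pow_one, sq, e]; exact mem_zpowers z)]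
    have h17 := (h.idx.inf Q hQP).inv_mul hx h15 (fun e => hx' e.2) fun e => h16 e.2
    have h18 := H _ h17.1 h17.2
    refine ⟨h16, fun e => hT ?_⟩
    rwa [← mul_inv_cancel_left x (g * x * g⁻¹), mul_assoc, ← mul_assoc _ x, ← h18 x (hQP hx), mul_assoc,
      ← mul_assoc x x, mul_mem_cancel_right (h6 _ ⟨hQP h17.1, h18⟩)] at e
  have h16 : ∀ b ∈ Q, b ∈ A → ∃ j : ℤ, (a ^ (2 * j))⁻¹ * b ∈ P ⊓ C(P) ∧
      ∀ y ∈ P, y ∉ A → y * b * y⁻¹ = b * d ^ (2 * j) := fun b hb hb' => by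
    obtain ⟨k, h16, h17⟩ := h8 b hb'
    obtain ⟨j, rfl | rfl⟩ := Int.even_or_odd' k
    · exact ⟨j, h16, h17⟩
    have h18 := h11 Q f hQ (zpowers_le.2 ((mul_mem_cancel_right hb).1 (hQ.mem_of_cent h16.1 h16.2))
      (by
        obtain ⟨i, hi⟩ := isPElt_of_mem h.two (h.idx.le ha)
        rw [zpowers_inv, mem_zpowers_zpow_iff, hi, Int.gcd, Int.natAbs_natCast]
        exact Nat.Coprime.pow_right i (Nat.coprime_two_right.2 (Int.natAbs_odd.2 ⟨j, rfl⟩))))
    exact absurd (hQP.antisymm fun t ht => (em _).elim (@h18 t) fun e' => (mul_mem_cancel_right hx).1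
      (h18 (h.idx.mul t ht x (hQP hx) e' hx'))) hne
  have D : IsD2 Q z := (h.idx.inf Q hQP).isD2 (fun a ha b hb => h.comm ha.2 b hb.2)
    (hQ.mem_of_cent h3.1 h3.2) h10 h9 (centralizer_anti hQP h3.2) hx (fun e => hx' e.2) (fun b hb => by
      obtain ⟨j, -, e⟩ := h16 b hb.1 hb.2
      rw [e x (hQP hx) hx', zpow_mul, zpow_two, h1]
      simpa using eq_one_or_eq_of_mem_zpowers_of_orderOf_two h2 (zpow_mem (mem_zpowers z) j))
    fun e => H fun b hb hb' => (h.cent_of_comm (hQP hx) hx' hb' (e hx b hb)).2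
  have h17 := h14 g x (D.fix hg.1) hT
  refine ⟨fun e => h17 ?_, h17⟩
  obtain ⟨j, h18, -⟩ := h16 _ h15 e
  rw [← mul_inv_cancel_left (a ^ (2 * j)) (g * x * g⁻¹), mul_assoc, ← mul_assoc _ (a ^ _),
    ← h18.2 _ (h.idx.le (zpow_mem ha _)), mul_assoc, ← mul_assoc (a ^ _), ← zpow_add,
    show 2 * j + 2 * j = (4 : ℕ) * j by push_cast; ring, zpow_mul, zpow_natCast]
  exact mul_mem (zpow_mem ((mul_mem_cancel_right (mem_zpowers z)).1 (h12 ▸ h6 _ h5)) j) (h6 _ h18)

end IsAb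

variable {M : Ideal AlgInt} {B : Set (IrrCharacter G)} [CharP (ResK M) 2] {e : (ResK M)[G]}

theorem IsD2.kz_le (h : IsD2 P z) (hM : IsPModular 2 M) (hB : IsPBlock M B)
    (hP : IsMaxPair 2 (blockIdem M B) P e) (h32 : Nat.card P ≤ 32) : 2 * kz 2 B ≤ Nat.card P := by
  by_cases h1 : ∀ c ∈ P ⊓ C(P), c * c = 1
  · obtain ⟨g, hg, h2⟩ := exists_sq_ne_one h.nc
    have := hM.kz_le_of_forall hB hP (u := ⟨g, hg⟩) (N := Nat.card P / 2) (by
      have := four_le_orderOf (isPElt_of_mem hP.pair.isPGroup hg) h2; simp only; omega) fun v hv => by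
        have := h.card_eq v.2 fun e => h2 ((mul_self_eq_one_iff_of_mem_fClass hv).1 (h1 v ⟨v.2, e⟩))
        omega
    omega
  push Not at h1
  obtain ⟨c, hc, h1⟩ := h1
  have Z := h.isZ4 (by
    have := four_le_orderOf (isPElt_of_mem hP.pair.isPGroup hc.1) h1
    have := card_le_of_le (zpowers_le.2 hc)
    rw [Nat.card_zpowers] at this
    omega)
  obtain ⟨a, ha⟩ := Z.exists_good
  obtain ⟨v, hv, hF⟩ := exists_fc hP.pair ⟨a, ha.1⟩
  have h2 := Good.of_mem_fClass Z hP ha hv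
  have h3 := h.card_eq v.2 h2.2.1
  have := hM.kz_le hB hP v.2 (hM.lrk_le_of_comm hP v.2 hF (Z.comm v.2 h2.2.1) (by omega)
    ⟨hc.1, mem_cent_zpowers.2 (hc.2 v v.2).symm⟩ h1) hF
  omega

theorem IsD2.card_commutator_le (h : IsD2 P z) : Nat.card (commutator P) ≤ 2 := by
  rw [← orderOf_eq_two_of_mul_self h.sq h.ne, orderOf_coe (⟨z, h.mem⟩ : P), ← Nat.card_zpowers]
  refine card_le_of_le (commutator_le.2 fun g _ a _ => ?_)
  rcases h.conj g g.2 a a.2 with e | e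
  · rw [commutatorElement_def, show g * a * g⁻¹ = a from Subtype.ext e]; simp
  · rw [commutatorElement_def, show g * a * g⁻¹ = ⟨z, h.mem⟩ * a from Subtype.ext (e.trans (h.cent a a.2))]
    simp

theorem IsPModular.kz_le_index (hM : IsPModular 2 M) (hB : IsPBlock M B)
    (hP : IsMaxPair 2 (blockIdem M B) P e) (hD : IsDefectGroup 2 M B P) (h32 : Nat.card P ≤ 32) :
    kz 2 B ≤ (commutator P).index := by
  have h0 := hP.pair.isPGroup
  have h1 := (commutator P).card_mul_index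
  by_cases hn : P ≤ C(P)
  · rw [show commutator P = ⊥ from commutator_eq_bot_iff_le_centralizer.2 fun a _ b _ =>
      Subtype.ext (hn a.2 b b.2), index_bot]
    refine (kz_le_card B).trans ?_
    rcases P.bot_or_exists_ne_one with e | ⟨u, hu, e⟩
    · exact hM.card_le_of_cent hB hP hD (one_mem _) (one_mem _) (by simp [e])
    · exact hM.card_le_of_cent hB hP hD hu (hn hu) (by have := two_le_orderOf e; omega)
  by_cases h2 : Nat.card (commutator P) = 2
  · obtain ⟨z, D⟩ := exists_isD2 h2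
    have := D.kz_le hM hB hP h32
    rw [h2] at h1
    omega
  have h3 : ∀ z, ¬ IsD2 P z := fun z D => by
    have := D.card_commutator_le
    have : Nat.card (commutator P) ≠ 1 := fun e => hn fun a ha b hb => congrArg Subtype.val
      (commutator_eq_bot_iff_le_centralizer.1 (card_eq_one.1 e) (mem_top (⟨a, ha⟩ : P)) ⟨b, hb⟩ trivial)
    have := Nat.card_pos (α := commutator P)
    omega
  have h4 := IsPGroup.sq_dvd_index_commutator h0 fun e => hn fun a ha b hb =>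
    congrArg Subtype.val (e.commutative.is_comm.comm (⟨b, hb⟩ : P) ⟨a, ha⟩)
  by_cases h5 : (commutator P).index ≤ 4
  · obtain ⟨x, hx⟩ := taussky h0 h5
    rw [← orderOf_coe] at hx
    rcases cyc_cases h0 x.2 hx with e | ⟨n, r, y, z, T⟩ | ⟨n, y, e1, e2, e3⟩
    · exact absurd e hn
    · exact (T.rank_le hM hB hP).2 ▸ Nat.le_of_dvd (Nat.pos_of_ne_zero index_ne_zero_of_finite) h4
    · exact absurd (modular h0 x.2 hx e1 e2 e3).1 (h3 _)
  have h6 : Nat.card (commutator P) = 4 ∧ (commutator P).index = 8 := by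
    have h6 := card_two_cases (h0.to_subgroup (commutator P)) ((card_le_card_group _).trans (by omega))
    have h7 := card_two_cases h0 (by omega)
    have : Nat.card (commutator P) ≠ 1 := fun e => hn fun a ha b hb => congrArg Subtype.val
      (commutator_eq_bot_iff_le_centralizer.1 (card_eq_one.1 e) (mem_top (⟨a, ha⟩ : P)) ⟨b, hb⟩ trivial)
    rcases h6 with e | e | e | e | e | e | e <;> rw [e] at h1 <;> omega
  rw [h6.1, h6.2] at h1
  rw [h6.2]
  by_cases h7 : ∃ A ≤ P, A ≤ C(A) ∧ 8 < Nat.card A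
  · obtain ⟨A, h7, h8, h9⟩ := h7
    exact (isAb h0 h1.symm h6.1 hn h7 h8 h9).kz_le hM hB hP
  push Not at h7
  obtain ⟨u, hu, h8, h9⟩ := exists_card_cent_le h0 h1.symm
    ((card_map_of_injective P.subtype_injective).trans h6.1) (fun _ ha _ => comm_mem_map ha)
    (fun g hg => mem_normalizer_fintype fun _ ⟨d, hd, e⟩ =>
      ⟨_, (commutator_normal ⊤ ⊤).conj_mem d hd ⟨g, hg⟩, e ▸ rfl⟩) h3 h7
  exact hM.kz_le_of_forall hB hP (u := ⟨u, hu⟩) (by have := two_le_orderOf h8; simp only; omega)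
    fun v hv => h9 v v.2 (orderOf_eq_of_mem_fClass hv)

end Cfsg
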