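import Cfsg.Agent.Blk.Robinson
import Cfsg.Agent.Grp.PrimeTIB
import Cfsg.Agent.Grp.Misc
import Cfsg.Agent.Grp.PSolvable

/-!
# Transitive groups of prime power degree without elements of order `2p`
-/

set_option autoImplicit false
set_option linter.unusedSectionVars false
set_option linter.unusedVariables false
set_option linter.style.haveILetI false

namespace Cfsg

open scoped ComplexConjugate
open Subgroup GA MulAction

universe u v

variable {G : Type u} [Group G] [Finite G] {p : ℕ} [hp : Fact p.Prime]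

/-- Without characters of defect zero, the product of two class sums of defect zero is `0` mod `p`. -/
theorem dvd_card_class_mul_of_no_defect_zero
    (h0 : ¬ ∃ χ : IrrCharacter G, (charDegree χ.1).factorization p = (Nat.card G).factorization p)
    {x y : G} (hx : ¬ p ∣ Nat.card (centralizer ({x} : Set G)))
    (hy : ¬ p ∣ Nat.card (centralizer ({y} : Set G))) (g : G) :
    p ∣ Nat.card {w : G × G // IsConj x w.1 ∧ IsConj y w.2 ∧ w.1 * w.2 = g} := by
  have hk : ∀ χ : IrrCharacter G, ∃ k : ℕ, (Nat.card G : ℂ) / χ 1 = p * k := fun χ => by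
    obtain ⟨m, hm⟩ := χ.charDegree_dvd_card
    have hG : Nat.card G ≠ 0 := Nat.card_pos.ne'
    have hd : charDegree χ.1 ≠ 0 := fun h => hG (by rw [hm, h, zero_mul])
    have hm0 : m ≠ 0 := fun h => hG (by rw [hm, h, mul_zero])
    have : p ∣ m := by
      by_contra h
      refine h0 ⟨χ, ?_⟩
      rw [hm, Nat.factorization_mul hd hm0, Finsupp.add_apply,
        Nat.factorization_eq_zero_of_not_dvd h, add_zero]
    obtain ⟨k, rfl⟩ := this
    refine ⟨k, ?_⟩
    rw [hm, show χ 1 = _ from χ.isCharacter.apply_one, div_eq_iff (by exact_mod_cast hd)]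
    push_cast; ring
  choose k hk using hk
  set N := Nat.card {w : G × G // IsConj x w.1 ∧ IsConj y w.2 ∧ w.1 * w.2 = g} with hN
  have h1 : p ∣ N * (Nat.card (centralizer ({x} : Set G)) * Nat.card (centralizer ({y} : Set G))) := by
    refine nat_dvd_of_isIntegral_div hp.out.ne_zero ?_
    have e : ((N * (Nat.card (centralizer ({x} : Set G)) * Nat.card (centralizer ({y} : Set G))) : ℕ)
        : ℂ) / p = ∑ χ : IrrCharacter G, k χ * (χ x * χ y * conj (χ g)) := by
      have hp0 : (p : ℂ) ≠ 0 := by exact_mod_cast hp.out.ne_zero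
      have hG : (Nat.card G : ℂ) ≠ 0 := natCard_cast_ne_zero G
      have a1 : ((centralizer ({x} : Set G)).index : ℂ) * Nat.card (centralizer ({x} : Set G)) =
          Nat.card G := by exact_mod_cast index_mul_card _
      have a2 : ((centralizer ({y} : Set G)).index : ℂ) * Nat.card (centralizer ({y} : Set G)) =
          Nat.card G := by exact_mod_cast index_mul_card _
      rw [div_eq_iff hp0, Finset.sum_mul]
      push_cast
      rw [hN, card_class_mul_eq_sum]
      calc _ = (((centralizer ({x} : Set G)).index : ℂ) * Nat.card (centralizer ({x} : Set G))) *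
            (((centralizer ({y} : Set G)).index : ℂ) * Nat.card (centralizer ({y} : Set G))) /
            Nat.card G * ∑ χ : IrrCharacter G, χ x * χ y * conj (χ g) / χ 1 := by ring
        _ = ∑ χ : IrrCharacter G, Nat.card G / χ 1 * (χ x * χ y * conj (χ g)) := by
            rw [a1, a2, mul_div_assoc, div_self hG, mul_one, Finset.mul_sum]
            exact Finset.sum_congr rfl fun χ _ => by ring
        _ = _ := Finset.sum_congr rfl fun χ _ => by rw [hk]; ring
    rw [e]
    exact IsIntegral.sum _ fun χ _ => (isIntegral_natCast _).mul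
      (((χ.isCharacter.isIntegral x).mul (χ.isCharacter.isIntegral y)).mul
        (by rw [← χ.isCharacter.isGen.apply_inv]; exact χ.isCharacter.isIntegral _))
  rcases hp.out.dvd_mul.1 h1 with h | h
  · exact h
  · exact ((hp.out.dvd_mul.1 h).elim hx hy).elim

variable {Ω : Type v} [MulAction G Ω] [Finite Ω]

theorem exists_smul_eq_of_not_dvd_index [IsPretransitive G Ω] {r : ℕ} (hΩ : Nat.card Ω = p ^ r)
    {P : Subgroup G} (hP : ¬ p ∣ P.index) (a b : Ω) : ∃ u ∈ P, u • a = b := by
  have h1 : p ^ r ∣ (stabilizer G a).relIndex P * P.index := by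
    rw [← inf_relIndex_right, relIndex_mul_index inf_le_right, ← hΩ, ← index_stabilizer_of_transitive G a]
    exact index_dvd_of_le inf_le_left
  have h2 : p ^ r ∣ (orbit P a).ncard := by
    rw [← relIndex_stabilizer_eq]
    exact ((hp.out.coprime_iff_not_dvd.2 hP).pow_left r).dvd_of_dvd_mul_right h1
  have h3 : orbit P a = Set.univ := by
    refine Set.eq_of_subset_of_ncard_le (Set.subset_univ _) ?_
    rw [Set.ncard_univ, hΩ]
    exact Nat.le_of_dvd ((Set.ncard_pos).2 (nonempty_orbit a)) h2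
  obtain ⟨u, hu⟩ : b ∈ orbit P a := h3 ▸ Set.mem_univ b
  exact ⟨u, u.2, hu⟩

theorem pPrimeCore_eq_bot_of_card_eq_pow [IsPretransitive G Ω] [FaithfulSMul G Ω] {r : ℕ}
    (hΩ : Nat.card Ω = p ^ r) : pPrimeCore p G = ⊥ := by
  refine eq_bot_iff.2 fun g hg => eq_of_smul_eq_smul (α := Ω) fun a => ?_
  have h1 := (IsBlock.orbit_of_normal (N := pPrimeCore p G) a).ncard_dvd_card (nonempty_orbit a)
  have h2 : (orbit (pPrimeCore p G) a).ncard ∣ Nat.card (pPrimeCore p G) := by
    rw [← relIndex_stabilizer_eq]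
    exact relIndex_dvd_card _ _
  have h3 : (orbit (pPrimeCore p G) a).ncard = 1 := by
    rw [hΩ] at h1
    exact (Nat.coprime_self _).1 (Nat.Coprime.coprime_dvd_left h1 (Nat.Coprime.coprime_dvd_right h2
      ((hp.out.coprime_iff_not_dvd.2 (not_dvd_card_pPrimeCore p G)).pow_left r)))
  obtain ⟨c, hc⟩ := Set.ncard_eq_one.1 h3
  have e1 : g • a ∈ orbit (pPrimeCore p G) a := ⟨⟨g, hg⟩, rfl⟩
  have e2 := mem_orbit_self (M := pPrimeCore p G) a
  rw [hc, Set.mem_singleton_iff] at e1 e2
  rw [one_smul, e1, ← e2]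

theorem normal_of_comm_of_card_eq_pow [IsPretransitive G Ω] [FaithfulSMul G Ω] {r : ℕ}
    (hΩ : Nat.card Ω = p ^ r) (hs : IsPSolvable p G) {P : Subgroup G} (hP : IsPGroup p P)
    (hi : ¬ p ∣ P.index) (hab : ∀ a ∈ P, ∀ b ∈ P, a * b = b * a) : P.Normal := by
  have h1 : pCore p G ≤ P := pCore_le_sylow (hP.toSylow hi)
  have h2 : P ≤ pCore p G := le_trans (fun a ha => mem_centralizer_iff.2 fun b hb =>
    hab b (h1 hb) a ha) (hs.centralizer_pCore_le (pPrimeCore_eq_bot_of_card_eq_pow hΩ))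
  rw [le_antisymm h2 h1]
  infer_instance

theorem eq_one_of_comm_of_smul [FaithfulSMul G Ω] {P : Subgroup G}
    (htr : ∀ a b : Ω, ∃ u ∈ P, u • a = b) {g : G} (hg : ∀ u ∈ P, g * u = u * g) {a : Ω}
    (ha : g • a = a) : g = 1 := by
  refine eq_of_smul_eq_smul (α := Ω) fun b => ?_
  obtain ⟨u, hu, rfl⟩ := htr a b
  rw [← mul_smul, hg u hu, mul_smul, ha, one_smul]

/-- The main step. -/
theorem sylow_normal_of_card_eq_pow [IsPretransitive G Ω] [FaithfulSMul G Ω]
    (hFT : ∀ H : Subgroup G, Odd (Nat.card H) → Group.IsSolvable H) (hp2 : p ≠ 2)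
    (h2G : 2 ∣ Nat.card G)
    (hC : ∀ g : G, g ≠ 1 → IsPElt p g → Odd (Nat.card (centralizer ({g} : Set G))))
    {r : ℕ} (hΩ : Nat.card Ω = p ^ r)
    (h0 : ¬ ∃ χ : IrrCharacter G, (charDegree χ.1).factorization p = (Nat.card G).factorization p)
    (P : Sylow p G) : (P : Subgroup G).Normal := by
  have hinv := (exists_defect_zero_or_sylow_inverted hC).resolve_left h0
  have hodd : ∀ {Q : Subgroup G}, IsPGroup p Q → ∀ u ∈ Q, Odd (orderOf u) := fun hQ u hu => by
    obtain ⟨k, hk⟩ := isPElt_of_mem hQ hu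
    rw [hk]
    exact (hp.out.odd_of_ne_two hp2).pow
  have hab : ∀ S : Sylow p G, ∀ a ∈ (S : Subgroup G), ∀ b ∈ (S : Subgroup G), a * b = b * a :=
    fun S a ha b hb => by
      obtain ⟨t, ht⟩ := exists_prime_orderOf_dvd_card' 2 h2G
      obtain ⟨s, -, hs⟩ := hinv t ht S
      exact comm_of_conj_eq_inv hs ha hb
  -- every involution has exactly one fixed point
  have hE : ∀ t : G, t * t = 1 → ∃ a : Ω, t • a = a := fun t ht => by
    letI := Fintype.ofFinite Ω
    refine Equiv.Perm.exists_fixed_point_of_prime (p := 2) (n := 1) ?_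
      (σ := MulAction.toPermHom G Ω t) (by rw [← map_pow, pow_one, pow_two, ht, map_one])
    rw [← Nat.card_eq_fintype_card, hΩ]
    exact ((hp.out.odd_of_ne_two hp2).pow).not_two_dvd_nat
  have hU : ∀ t : G, t * t = 1 → t ≠ 1 → ∀ a b : Ω, t • a = a → t • b = b → a = b :=
    fun t ht ht1 a b ha hb => by
      obtain ⟨s, hs, h⟩ := hinv t (orderOf_eq_two_of_mul_self_eq ht ht1) P
      obtain ⟨c, rfl⟩ := isConj_iff.1 hs
      obtain ⟨u, hu, e⟩ := exists_smul_eq_of_not_dvd_index hΩ P.not_dvd_index (c • a) (c • b)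
      have h1 : (u * u) • c • a = c • a := by
        have h2 : u⁻¹ • c • a = u • c • a := by
          rw [← h u hu, mul_smul, mul_smul (c * t * c⁻¹) u]
          have : (c * t * c⁻¹)⁻¹ • c • a = c • a := by
            rw [inv_smul_eq_iff]; simp [mul_smul, ha]
          rw [this, e]; simp [mul_smul, hb]
        rw [mul_smul, ← h2, smul_inv_smul]
      have h3 := eq_one_of_comm_of_smul (exists_smul_eq_of_not_dvd_index hΩ P.not_dvd_index)
        (fun v hv => hab P _ (mul_mem hu hu) v hv) h1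
      rw [eq_one_of_mul_self_of_odd (hodd P.isPGroup' u hu) h3, one_smul] at e
      exact MulAction.injective c e
  have hCt : ∀ t : G, t * t = 1 → t ≠ 1 → ∀ g, IsPElt p g → t * g = g * t → g = 1 :=
    fun t ht ht1 g hg h => by_contra fun hg1 => by
      have := orderOf_dvd_natCard (⟨t, mem_centralizer_singleton_iff.2 h⟩ : centralizer ({g} : Set G))
      rw [← orderOf_coe, orderOf_eq_two_of_mul_self_eq ht ht1] at this
      exact (hC g hg1 hg).not_two_dvd_nat this
  -- an involution inverting `g` acts coprimely on the centralizer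
  have hN : ∀ s g : G, s * g * s⁻¹ = g⁻¹ → s ∈ normalizer (centralizer ({g} : Set G) : Set G) :=
    fun s g htv => mem_normalizer_fintype fun y hy => by
      rw [← centralizer_singleton_inv, ← htv]
      have := mem_centralizer_singleton_iff.1 hy
      exact mem_centralizer_singleton_iff.2 (by
        calc _ = s * (y * g) * s⁻¹ := by group
          _ = _ := by rw [this]; group)
  have hA : ∀ s g : G, s * s = 1 → s ≠ 1 → s * g * s⁻¹ = g⁻¹ →
      Odd (Nat.card (centralizer ({g} : Set G))) →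
      ∃ Q : Subgroup G, Q ≤ centralizer {g} ∧ IsPGroup p Q ∧ ¬ p ∣ Q.relIndex (centralizer {g}) ∧
        ∀ u ∈ Q, s * u * s⁻¹ = u⁻¹ := fun s g hs hs1 h ho => by
    have h1 : IsCoprimeAction (zpowers s) (centralizer {g}) :=
      ⟨zpowers_le.2 (hN s g h), by
        rw [Nat.card_zpowers, orderOf_eq_two_of_mul_self_eq hs hs1]; exact ho.coprime_two_right,
        Or.inr inferInstance⟩
    obtain ⟨Q, h2, h3, h4, h5⟩ := h1.exists_invariant_sylow p
    exact ⟨Q, h2, h3, h4, fun u hu => conj_eq_inv_of_fixed_free hs (h5 (mem_zpowers s))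
      (fun v hv e => hCt s hs hs1 v (isPElt_of_mem h3 hv) (mul_inv_eq_iff_eq_mul.1 e)) hu⟩
  have key : ∀ s t : G, s * s = 1 → s ≠ 1 → t * t = 1 → t ≠ 1 → ∀ a : Ω, s • a = a → t • a ≠ a →
      ∀ b : Ω, (s * t) • b ≠ b := fun s t hs hs1 ht ht1 a ha hta b hb => by
    have hsi : s⁻¹ = s := inv_eq_of_mul_eq_one_right hs
    have hti : t⁻¹ = t := inv_eq_of_mul_eq_one_right ht
    set g := s * t with hg
    have hsg : s * g * s⁻¹ = g⁻¹ := by
      rw [hg, mul_inv_rev, hsi, hti, ← mul_assoc, hs, one_mul]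
    have ho : Odd (Nat.card (centralizer ({g} : Set G))) := by
      by_contra h
      have h1 := card_modEq_card_inf_centralizer (p := 2) (P := zpowers s)
        (isPElt_iff_isPGroup_zpowers.1 ⟨1, orderOf_eq_two_of_mul_self_eq hs hs1⟩)
        (zpowers_le.2 (hN s g hsg))
      obtain ⟨z, hz, hz2, hz1⟩ := exists_invol_of_not_odd (A := centralizer ({g} : Set G) ⊓
        centralizer (zpowers s : Set G)) (by
          rw [Nat.not_odd_iff_even, Nat.even_iff] at h ⊢
          exact (show _ = _ from h1.symm).trans h)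
      obtain ⟨c, hc⟩ := hE z hz2
      have e1 : s • c = c := hU z hz2 hz1 _ _ (by
        rw [← mul_smul, ← mem_centralizer_iff.1 hz.2 s (mem_zpowers s), mul_smul, hc]) hc
      have e2 : g • c = c := hU z hz2 hz1 _ _ (by
        rw [← mul_smul, mem_centralizer_singleton_iff.1 hz.1, mul_smul, hc]) hc
      obtain rfl := hU s hs hs1 _ _ ha e1
      rw [hg, mul_smul, ← eq_inv_smul_iff, hsi, ha] at e2
      exact hta e2
    have hgo : Odd (orderOf g) := odd_orderOf_of_mem ho (mem_centralizer_singleton_iff.2 rfl)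
    -- elements inverted by `s` in the centralizer of `g`
    have hcj : ∀ c ∈ centralizer ({g} : Set G), s * c * s⁻¹ = c⁻¹ →
        s * c ∈ cjOrbit (centralizer {g}) s := fun c hc h => by
      obtain ⟨k, hk⟩ := exists_sq_pow_eq_of_odd (odd_orderOf_of_mem ho hc)
      refine ⟨(c ^ k)⁻¹, inv_mem (pow_mem hc k), ?_⟩
      have : (c ^ k)⁻¹ = s * c ^ k * s⁻¹ := by rw [← inv_pow, ← h, conj_pow]
      rw [inv_inv]
      nth_rewrite 1 [this]
      rw [inv_mul_cancel_right, mul_assoc, ← (Commute.refl c).mul_pow, hk]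
    have hcard : Nat.card {w : G × G // IsConj s w.1 ∧ IsConj s w.2 ∧ w.1 * w.2 = g} =
        (cjOrbit (centralizer {g}) s).ncard := by
      rw [← Nat.card_coe_set_eq]
      refine Nat.card_congr ⟨fun w => ⟨w.1.1, ?_⟩, fun y => ⟨(y.1, y.1⁻¹ * g), ?_⟩, ?_, ?_⟩
      · obtain ⟨⟨x, y⟩, hx, hy, e⟩ := w
        obtain ⟨c, rfl⟩ := isConj_iff.1 hx
        obtain ⟨d, rfl⟩ := isConj_iff.1 hy
        have e1 : (c * s * c⁻¹) * g * (c * s * c⁻¹)⁻¹ = g⁻¹ := by
          rw [← e]; simp [mul_assoc, hsi, hs, ← mul_assoc s s]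
        have e2 : s * (c * s * c⁻¹) ∈ centralizer ({g} : Set G) := by
          refine mem_centralizer_singleton_iff.2 (mul_inv_eq_iff_eq_mul.1 ?_)
          calc _ = s * ((c * s * c⁻¹) * g * (c * s * c⁻¹)⁻¹) * s⁻¹ := by group
            _ = (s * g * s⁻¹)⁻¹ := by rw [e1]; group
            _ = g := by rw [hsg, inv_inv]
        have := hcj _ e2 (by simp [mul_assoc, hsi, ← mul_assoc s s, hs])
        rwa [← mul_assoc, hs, one_mul] at this
      · obtain ⟨_, c, hc, rfl⟩ := y
        obtain ⟨d, hd, e⟩ := hcj g (mem_centralizer_singleton_iff.2 rfl) hsg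
        refine ⟨isConj_iff.2 ⟨c, rfl⟩, isConj_iff.2 ⟨c * d, ?_⟩, mul_inv_cancel_left _ _⟩
        calc _ = c * (d * s * d⁻¹) * c⁻¹ := by group
          _ = c * s * c⁻¹ * (c * g * c⁻¹) := by rw [e]; group
          _ = _ := by rw [mem_centralizer_singleton_iff.1 hc]; simp [hsi, mul_assoc]
      · rintro ⟨⟨x, y⟩, hx, hy, e⟩
        simp [← e]
      · intro y; rfl
    have hCs : ¬ p ∣ Nat.card (centralizer ({s} : Set G)) := fun h => by
      obtain ⟨y, hy⟩ := exists_prime_orderOf_dvd_card' p h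
      rw [← orderOf_coe] at hy
      have := hCt s hs hs1 y ⟨1, by rw [hy, pow_one]⟩ (mem_centralizer_singleton_iff.1 y.2).symm
      exact hp.out.ne_one (by rw [← hy, this, orderOf_one])
    have hpg : p ∣ Nat.card (centralizer ({g} : Set G)) := by
      refine (dvd_card_class_mul_of_no_defect_zero h0 hCs hCs g).trans ?_
      rw [hcard, ncard_cjOrbit]
      exact relIndex_dvd_card _ _
    obtain ⟨Q, hQ1, hQ2, hQ3, hQ4⟩ := hA s g hs hs1 hsg ho
    obtain ⟨x, hx, hx1⟩ : ∃ x ∈ Q, x ≠ 1 := by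
      by_contra h
      push Not at h
      rw [(eq_bot_iff_forall Q).2 h, relIndex_bot_left] at hQ3
      exact hQ3 hpg
    have hxp := isPElt_of_mem hQ2 hx
    obtain ⟨R, hR1, hR2, hR3, hR4⟩ := hA s x hs hs1 (hQ4 x hx) (hC x hx1 hxp)
    obtain ⟨S, hS⟩ := (isPElt_iff_isPGroup_zpowers.1 hxp).exists_le_sylow
    have hSx : (S : Subgroup G) ≤ centralizer {x} := fun y hy =>
      mem_centralizer_singleton_iff.2 (hab S y hy x (hS (mem_zpowers x)))
    have hXi : ¬ p ∣ (centralizer ({x} : Set G)).index := fun h =>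
      S.not_dvd_index (h.trans (index_dvd_of_le hSx))
    have hRi : ¬ p ∣ R.index := fun h => by
      rw [← relIndex_mul_index hR1, hp.out.dvd_mul] at h
      exact h.elim hR3 hXi
    haveI : IsPretransitive (centralizer ({x} : Set G)) Ω := ⟨fun a b => by
      obtain ⟨u, hu, e⟩ := exists_smul_eq_of_not_dvd_index hΩ hXi a b
      exact ⟨⟨u, hu⟩, e⟩⟩
    haveI := hFT _ (hC x hx1 hxp)
    have hRn := normal_of_comm_of_card_eq_pow (G := centralizer ({x} : Set G)) hΩ
      (isPSolvable_of_isSolvable p _) (P := R.subgroupOf _) (hR2.comap_subtype) hR3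
      (fun a ha b hb => Subtype.ext (comm_of_conj_eq_inv hR4 ha hb))
    have hgx : g ∈ centralizer ({x} : Set G) :=
      mem_centralizer_singleton_iff.2 (mem_centralizer_singleton_iff.1 (hQ1 hx)).symm
    have hg2 : g * g = 1 := by
      refine eq_one_of_comm_of_smul (exists_smul_eq_of_not_dvd_index hΩ hRi) (fun u hu => ?_)
        (a := b) (by rw [mul_smul, hb, hb])
      have h1 : g * u * g⁻¹ ∈ R := hRn.conj_mem ⟨u, hR1 hu⟩ hu ⟨g, hgx⟩
      have h2 := hR4 _ h1
      have h3 : g⁻¹ * u⁻¹ * g = g * u⁻¹ * g⁻¹ := by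
        calc _ = (s * g * s⁻¹) * (s * u * s⁻¹) * (s * g * s⁻¹)⁻¹ := by rw [hsg, hR4 u hu, inv_inv]
          _ = s * (g * u * g⁻¹) * s⁻¹ := by group
          _ = _ := by rw [h2]; group
      calc _ = u * (g * (g⁻¹ * u⁻¹ * g) * g) * u := by group
        _ = _ := by rw [h3]; group
    have := eq_one_of_mul_self_of_odd hgo hg2
    rw [hg, mul_eq_one_iff_eq_inv, hti] at this
    exact hta (this ▸ ha)
  obtain ⟨t₀, ht₀⟩ := exists_prime_orderOf_dvd_card' 2 h2G
  obtain ⟨s, hs, h⟩ := hinv t₀ ht₀ P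
  have hso : orderOf s = 2 := by
    obtain ⟨c, rfl⟩ := isConj_iff.1 hs
    exact ((MulAut.conj c).orderOf_eq t₀).trans ht₀
  have hs2 : s * s = 1 := by rw [← pow_two, ← hso, pow_orderOf_eq_one]
  have hm : ∀ u ∈ (P : Subgroup G), ∀ v ∈ (P : Subgroup G), u * s * (v * s) = u * v⁻¹ :=
    fun u hu v hv => by
      calc _ = u * (s * v * s⁻¹) * (s * s) := by group
        _ = _ := by rw [h v hv, hs2, mul_one]
  have h1 : ∀ u ∈ (P : Subgroup G), u * s ≠ 1 := fun u hu e => by
    have := hodd P.isPGroup' _ (inv_mem hu)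
    rw [← eq_inv_of_mul_eq_one_right e, hso] at this
    exact absurd this (by decide)
  have htr := exists_smul_eq_of_not_dvd_index hΩ P.not_dvd_index
  have hall : ∀ t : G, t * t = 1 → t ≠ 1 → ∃ u ∈ (P : Subgroup G), t = u * s := fun t ht ht1 => by
    obtain ⟨d, hd⟩ := hE t ht
    obtain ⟨u, hu, e⟩ := htr (s • d) d
    refine ⟨u, hu, eq_of_smul_eq_smul (α := Ω) fun a => ?_⟩
    obtain ⟨v, hv, e'⟩ := htr (s • a) (t • a)
    have h2 : (v * s) • d = d := by
      by_contra h2
      exact key t (v * s) ht ht1 (by rw [hm v hv v hv, mul_inv_cancel]) (h1 v hv) d hd h2 a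
        (by rw [mul_smul, mul_smul, e', ← mul_smul, ht, one_smul])
    have h3 := eq_one_of_comm_of_smul htr (fun w hw => hab P _ (mul_mem hu (inv_mem hv)) w hw)
      (a := d) (by rw [← hm u hu v hv, mul_smul, h2, mul_smul, e])
    rw [mul_inv_eq_one.1 h3, mul_smul, e']
  refine ⟨fun x hx g => ?_⟩
  have hc : ∀ u ∈ (P : Subgroup G), ∃ v ∈ (P : Subgroup G), g * (u * s) * g⁻¹ = v * s :=
    fun u hu => hall _ (by rw [conj_mul, hm u hu u hu]; group)
      fun e => h1 u hu (by simpa [mul_inv_eq_one] using e)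
  obtain ⟨v, hv, e1⟩ := hc x hx
  obtain ⟨w, hw, e2⟩ := hc 1 (one_mem _)
  have : g * x * g⁻¹ = v * w⁻¹ := by
    rw [← hm v hv w hw, ← e1, ← e2, conj_mul, hm x hx 1 (one_mem _), inv_one, mul_one]
  exact this ▸ mul_mem hv (inv_mem hw)

end Cfsg
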