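import Cfsg.Agent.Blk.PrinInd
import Cfsg.Agent.Blk.Harada
import Cfsg.Agent.Blk.OneSub
import Cfsg.Agent.Char.Degrees

/-!
# Principal blocks for two primes meeting only in the trivial character

Pair the indicator of the `q`-regular elements with the function supported on the `p`-section of `u`
which is given by the principal block part of the regular character of `C(u)`.
-/

set_option autoImplicit false

namespace Cfsg

open Subgroup
open scoped ComplexConjugate

universe u

variable {G : Type u} [Group G] [Finite G] {p q : ℕ} [hp : Fact p.Prime]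

theorem not_dvd_index_centralizer_of_meet [hq : Fact q.Prime] (hne : p ≠ q) {M M' : Ideal AlgInt}
    (hM : IsPModular p M) (hM' : IsPModular q M')
    (h : ∀ χ ∈ principalBlock M G, χ ∈ principalBlock M' G → χ = IrrCharacter.one G) {u : G}
    (hu : IsPElt p u) : ¬ q ∣ (centralizer ({u} : Set G)).index := by
  have hs := isSec_centralizer hu
  have hc := (centralizer ({u} : Set G)).card_mul_index
  generalize centralizer ({u} : Set G) = H at hs hc
  have hΦ : pRegularPart p (blockPart (principalBlock M H) (regChar H)) =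
      blockPart (principalBlock M H) (regChar H) := by
    rw [← isPBlock_principalBlock.blockPart_pRegularPart hM regChar_isCharacter.isClassFunction]
    congr 1
    funext g
    by_cases e : g = 1
    · rw [e, pRegularPart_apply_one]
    · simp [pRegularPart_apply, regChar_apply_of_ne_one e]
  have hA := hs.blockPart_secInd_of_induces hM (hs.induces_principal hM)
    (blockPart_blockPart_self _ (regChar H))
  have hT : IsClassFunction G (pRegularPart q fun _ => 1) :=
    IsCharacter.one.isClassFunction.pRegularPart q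
  have e1 := hT.ip_eq_sum (isClassFunction_secInd (p := p) H.subtype u
    (blockPart (principalBlock M H) (regChar H)))
  rw [Finset.sum_eq_single (IrrCharacter.one G) (fun χ _ hχ => by
    by_cases h1 : χ ∈ principalBlock M G
    · rw [not_not.1 (mt (mem_principalBlock_iff_ip hM' χ).2 fun h2 => hχ (h χ h1 h2)), zero_mul]
    · rw [← hA, ip_blockPart_of_notMem _ h1, map_zero, mul_zero]) (by simp),
    ip_secInd_irr, ip_secInd_right _ _ _ hT, hΦ,
    show secFun H.subtype u (IrrCharacter.one G).1 = (IrrCharacter.one H).1 from rfl,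
    ip_blockPart_regChar_of_mem hM.one_mem_principalBlock,
    show secFun H.subtype u (pRegularPart q fun _ => 1) = pRegularPart q fun _ => 1 from
      funext fun c => ?_] at e1
  swap
  · have h1 := hu.isPRegular_of_ne hne
    have h2 : IsPRegular q (u * H.subtype c) ↔ IsPRegular q c := by
      rw [← isPRegular_coe_iff (g := c)]
      refine ⟨fun h2 => ?_, fun h2 => h1.mul_of_commute h2 (hs.commute c)⟩
      simpa using (isPRegular_inv_iff.2 h1).mul_of_commute h2
        ((Commute.refl u).mul_right (hs.commute c)).inv_left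
    simp only [secFun_apply, pRegularPart]
    rw [propext h2]
  obtain ⟨n, hn⟩ := (isGen_pRegular_indicator (G := H) q).exists_ip_eq_int
    (isCharacter_blockPart_regChar (principalBlock M H)).isGen
  obtain ⟨m, hm⟩ := exists_int_pow_mul_ip (p := q) (IrrCharacter.one G) (IrrCharacter.one G)
  have h2 := (vM_pow_mul_ip_one_eq_one_iff hM' (IrrCharacter.one G)).2
    ⟨hM'.one_mem_principalBlock, by
      have : charDegree (IrrCharacter.one G).1 = 1 := charDegree_eq_of_apply_one (by simp)
      rw [this]; exact hq.out.not_dvd_one⟩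
  intro hd
  refine ((hM'.vM_intCast_lt_one_iff m).2 ?_).ne (hm ▸ h2)
  obtain ⟨k, hk⟩ := Nat.exists_eq_add_of_lt (hq.out.factorization_pos_of_dvd index_ne_zero_of_finite hd)
  rw [← hc, Nat.factorization_mul Nat.card_pos.ne' index_ne_zero_of_finite, Finsupp.add_apply, hk] at hm
  rw [ip_smul_left, e1] at hn
  refine ⟨q ^ k * n, ?_⟩
  have : (m : ℂ) = q * (q ^ k * n) := by
    rw [← hm, ← hn]
    simp only [IrrCharacter.one_apply, map_one, Nat.cast_pow]
    change _ * ip (pRegularPart q fun _ => 1) _ = _
    ring
  exact_mod_cast this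

theorem normal_of_forall_not_dvd_index (P : Sylow p G)
    (h : ∀ u : G, IsPElt p u → ∀ q : ℕ, q.Prime → q ≠ p → ¬ q ∣ (centralizer ({u} : Set G)).index) :
    (P : Subgroup G).Normal ∧ (P : Subgroup G) ⊔ pPrimeCore p G = ⊤ := by
  have key : ∀ u ∈ (P : Subgroup G), ∀ g : G, ∃ x ∈ (P : Subgroup G), x * u * x⁻¹ = g * u * g⁻¹ := by
    intro u hu g
    obtain ⟨x, hx, c, hc, rfl⟩ := exists_mul_eq_of_coprime_index (H := (P : Subgroup G))
      (K := centralizer {u}) (Nat.coprime_of_dvd fun q hq h1 =>
        h u (isPElt_of_mem P.isPGroup' hu) q hq fun e => P.not_dvd_index (e ▸ h1)) g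
    refine ⟨x, hx, ?_⟩
    rw [mul_assoc x c, mem_centralizer_singleton_iff.1 hc]; group
  have hn : (P : Subgroup G).Normal := ⟨fun u hu g => by
    obtain ⟨x, hx, e⟩ := key u hu g
    exact e ▸ mul_mem (mul_mem hx hu) (inv_mem hx)⟩
  refine ⟨hn, ?_⟩
  rw [sup_comm, ← hasNormalPComplement_iff_sup_eq_top]
  refine hasNormalPComplement_of_forall_isPElt fun Q hQ _ q hq hne y _ hy a ha => ?_
  have := eq_top_of_forall_exists_conj_mem (L := (centralizer {y}).subgroupOf (P : Subgroup G))
    fun u => by
      obtain ⟨R, hR⟩ := exists_sylow_le_of_not_dvd_index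
        (h u (isPElt_of_mem P.isPGroup' u.2) q hq.out hne)
      obtain ⟨g, hg⟩ := hy.exists_conj_mem R
      obtain ⟨x, hx, e⟩ := key u u.2 g⁻¹
      refine ⟨⟨x, hx⟩, mem_subgroupOf.2 (mem_centralizer_singleton_iff.2 ?_)⟩
      change x * u * x⁻¹ * y = y * (x * u * x⁻¹)
      rw [e]
      calc _ = g⁻¹ * (u * (g * y * g⁻¹)) * g := by group
        _ = _ := by rw [← mem_centralizer_singleton_iff.1 (hR hg)]; group
  obtain ⟨g, hg⟩ := (isPElt_of_mem hQ ha).exists_conj_mem P
  exact mem_centralizer_singleton_iff.1 (mem_subgroupOf.1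
    (this.ge (mem_top (⟨a, by simpa [mul_assoc] using hn.conj_mem _ hg g⁻¹⟩ : (P : Subgroup G)))))

end Cfsg
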