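import Cfsg.Agent.Blk.TwoOver
import Cfsg.Agent.Blk.NormalDef
import Cfsg.Agent.Blk.Central
import Cfsg.Agent.Blk.FongReynolds
import Cfsg.Agent.Blk.Quot
import Cfsg.Agent.Char.LinAct
import Cfsg.Agent.Grp.FreeCyc
import Cfsg.Agent.Grp.OnePClass

/-!
# Blocks with normal abelian defect group and three irreducible characters
-/

set_option autoImplicit false
set_option linter.unusedSectionVars false

namespace Cfsg.ThreeCore

open Subgroup
open scoped Pointwise

universe u v w

variable {G : Type u} [Group G] [Finite G] {N : Type v} [Group N] [Finite N]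

/-- Two characters over an invariant character force even index. -/
theorem two_dvd_index {f : N →* G} [IsNormalEmb f] {θ : IrrCharacter N} (hT : inertia f θ = ⊤)
    (h2 : Nat.card {χ : IrrCharacter G // LiesOver f χ.1 θ.1} = 2) : 2 ∣ f.range.index := by
  classical
  by_contra h
  have h1 := congrArg (Nat.cast : ℕ → ZMod 2) (sum_ipNat_comp_sq_of_inertia_eq_top hT)
  have hodd : ∀ {m : ℕ}, ¬ 2 ∣ m → (m : ZMod 2) = 1 := fun hm =>
    ZMod.natCast_eq_one_iff_odd.2 (Nat.not_even_iff_odd.1 fun e => hm e.two_dvd)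
  rw [hodd h, Nat.cast_sum, Finset.sum_congr rfl
    (g := fun χ => if LiesOver f χ.1 θ.1 then (1 : ZMod 2) else 0), Finset.sum_boole,
    ← Fintype.card_subtype, ← Nat.card_eq_fintype_card, h2] at h1
  · exact absurd h1 (by decide)
  · intro χ _
    split_ifs with hχ
    · rw [Nat.cast_pow, hodd fun e => h (e.trans (hχ.ipNat_dvd_index_of_inertia_eq_top hT)),
        one_pow]
    · rw [liesOver_iff_ipNat_pos χ.isCharacter θ.isCharacter] at hχ
      simp [Nat.eq_zero_of_not_pos hχ]

/-- If all abelian subgroups of `G / N` are cyclic, every class is good. -/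
theorem card_liesOver_of_cyclic {f : N →* G} [IsNormalEmb f] {θ : IrrCharacter N}
    (hT : inertia f θ = ⊤)
    (h : ∀ A : Subgroup (G ⧸ f.range), IsMulCommutative A → IsCyclic A) :
    Nat.card {χ : IrrCharacter G // LiesOver f χ.1 θ.1} = Nat.card (ConjClasses (G ⧸ f.range)) := by
  rw [card_liesOver_eq_card_extGood (QuotientGroup.mk'_surjective _) (QuotientGroup.ker_mk' _) hT]
  refine Nat.card_congr (Equiv.subtypeUnivEquiv fun C => ?_)
  obtain ⟨q, rfl⟩ := ConjClasses.mk_surjective C
  refine ⟨q, rfl, fun q' hq => ?_⟩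
  haveI := h (closure {q, q'}) (isMulCommutative_closure (by
    rintro _ (rfl | rfl) _ (rfl | rfl)
    exacts [rfl, hq, hq.symm, rfl]))
  have hj : ∀ n, ((closure {q, q'}).comap (QuotientGroup.mk' f.range)).subtype
    (f.codRestrict _ (mem_comap_mk'_range _) n) = f n := fun _ => rfl
  exact exists_extension_of_isCyclic (by rw [inertia_of_factor hj, hT, comap_top])
    (isCyclic_quotient_codRestrict _)

theorem core {V : Type w} [CommGroup V] [Finite V] [Nontrivial V] {p : ℕ} [hp : Fact p.Prime]
    {f : N →* G} [IsNormalEmb f] {θ : IrrCharacter N} (hT : inertia f θ = ⊤)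
    (h2 : Nat.card {χ : IrrCharacter G // LiesOver f χ.1 θ.1} = 2) (φ : G →* MulAut V)
    (hker : φ.ker = f.range) (hV : IsPGroup p V) (hidx : ¬ p ∣ f.range.index)
    (htr : ∀ v w : V, v ≠ 1 → w ≠ 1 → ∃ g, φ g v = w)
    (hst : ∀ v : V, v ≠ 1 → ∃ η : IrrCharacter N, (∀ g, g ∈ inertia f η ↔ φ g v = v) ∧
      Nat.card {χ : IrrCharacter G // LiesOver f χ.1 η.1} = 1) : Nat.card V = 3 := by
  let ψ : G ⧸ f.range →* MulAut V := QuotientGroup.lift _ φ hker.ge
  have hψ : Function.Injective ψ := by
    rw [injective_iff_map_eq_one]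
    intro x hx
    obtain ⟨x, rfl⟩ := QuotientGroup.mk_surjective x
    rw [QuotientGroup.eq_one_iff, ← hker]
    exact hx
  obtain ⟨n, hn⟩ := hV.exists_card_eq
  have hp2 : p ≠ 2 := fun e => hidx (e ▸ two_dvd_index hT h2)
  have hn0 : n ≠ 0 := fun e => by
    rw [e, pow_zero] at hn
    exact Finite.one_lt_card.ne' hn
  obtain ⟨v, hv⟩ := exists_prime_orderOf_dvd_card' (G := V) p (hn ▸ dvd_pow_self p hn0)
  have hv1 : v ≠ 1 := fun e => hp.out.one_lt.ne (by rw [← hv, e, orderOf_one])
  have he : ∀ w : V, w ^ p = 1 := fun w => by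
    by_cases hw : w = 1
    · rw [hw, one_pow]
    · obtain ⟨g, rfl⟩ := htr v w hv1 hw
      rw [← map_pow, ← hv, pow_orderOf_eq_one, map_one]
  letI : MulAction (G ⧸ f.range) V := MulAction.compHom V ψ
  have horb : (MulAction.stabilizer (G ⧸ f.range) v).index = Nat.card V - 1 := by
    rw [MulAction.index_stabilizer, ← OnePClass.card_ne_one, ← Nat.card_coe_set_eq]
    refine Nat.card_congr (Equiv.subtypeEquivRight fun w => ⟨?_, fun hw => ?_⟩)
    · rintro ⟨g, rfl⟩ e
      exact hv1 ((ψ g).injective (e.trans (map_one _).symm))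
    · obtain ⟨g, hg⟩ := htr v w hv1 hw
      exact ⟨g, hg⟩
  by_cases h3 : 3 ≤ n
  · obtain ⟨r, hr, h4, h5⟩ := FreeCyc.exists_zsig hp.out.one_lt (hp.out.odd_of_ne_two hp2) h3
    haveI := Fact.mk hr
    have hr2 : r ≠ 2 := fun e => h5 1 one_pos (by omega) (by
      rw [e, pow_one]
      exact (Nat.Odd.sub_odd (hp.out.odd_of_ne_two hp2) odd_one).two_dvd)
    have hrp : r ≠ p := fun e => by
      rw [e] at h4
      exact hp.out.one_lt.ne' (Nat.dvd_one.1
        ((Nat.dvd_sub_iff_right (Nat.one_le_pow _ _ hp.out.pos) (dvd_pow_self p hn0)).1 h4))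
    obtain ⟨P⟩ : Nonempty (Sylow r (G ⧸ f.range)) := inferInstance
    haveI : IsCyclic P := FreeCyc.isCyclic_of_free (ψ.comp (P : Subgroup (G ⧸ f.range)).subtype)
      (fun x hx w hw => FreeCyc.free_of_zsig hp.out hrp hn h5
        (ψ.comp (P : Subgroup (G ⧸ f.range)).subtype)
        (hψ.comp (P : Subgroup (G ⧸ f.range)).subtype_injective) P.isPGroup' hx hw)
      (Or.inr ⟨r, hr, hr2, P.isPGroup'⟩)
    refine absurd ?_ (TwoOver.not_dvd_of_isCyclic hT hr2 P h2)
    rw [← hn, ← horb] at h4
    exact h4.trans (index_dvd_card _)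
  · have hfree : ∀ x : G ⧸ f.range, x ≠ 1 → ∀ w, ψ x w = w → w = 1 := by
      intro x hx w hw
      by_contra hw1
      obtain ⟨η, h4, h5⟩ := hst w hw1
      let j := toInertia f η
      have hj : ∀ n, (inertia f η).subtype (j n) = f n := fun _ => rfl
      let ψ' : inertia f η ⧸ j.range →* MulAut V :=
        QuotientGroup.lift _ (φ.comp (inertia f η).subtype) (by
          rintro _ ⟨y, rfl⟩
          exact hker.ge ⟨y, rfl⟩)
      have hψ' : Function.Injective ψ' := by
        rw [injective_iff_map_eq_one]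
        intro y hy
        obtain ⟨y, rfl⟩ := QuotientGroup.mk_surjective y
        rw [QuotientGroup.eq_one_iff, range_toInertia]
        exact hker.le hy
      have hc : IsCyclic (inertia f η ⧸ j.range) :=
        FreeCyc.isCyclic_of_fix hp.out he (hn ▸ pow_dvd_pow p (by omega)) ψ' hψ'
          (fun e => hidx (by
            rw [index_range_eq_mul f η]
            refine Dvd.dvd.mul_right (e.trans ?_) _
            rw [← index_eq_card, range_toInertia]
            rfl)) hw1 fun y => by
            obtain ⟨y, rfl⟩ := QuotientGroup.mk_surjective y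
            exact (h4 y).1 y.2
      have h6 := (exists_extension_iff_card (Normal.quotient_commutative_iff_commutator_le.1
        hc.isMulCommutative) (inertia_toInertia f η)).1
        (exists_extension_of_isCyclic (inertia_toInertia f η) hc)
      rw [Nat.card_congr (cliffordEquiv (inertia f η).subtype_injective hj (by simp)), h5,
        eq_comm, index_eq_one] at h6
      obtain ⟨x, rfl⟩ := QuotientGroup.mk_surjective x
      obtain ⟨y, hy⟩ : (⟨x, (h4 x).2 hw⟩ : inertia f η) ∈ j.range := h6 ▸ mem_top _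
      exact hx ((QuotientGroup.eq_one_iff _).2 ⟨y, congrArg Subtype.val hy⟩)
    rw [card_liesOver_of_cyclic hT fun A hA => FreeCyc.isCyclic_of_free (ψ.comp A.subtype)
      (fun x hx => hfree x fun e => hx (Subtype.ext e)) (Or.inl hA)] at h2
    have h4 : Nat.card (G ⧸ f.range) ≤ 2 := by
      by_contra h5
      have := OnePClass.three_le_card_conjClasses (G := G ⧸ f.range) (by omega)
      omega
    have h5 := Nat.le_of_dvd Nat.card_pos (horb ▸ index_dvd_card
      (MulAction.stabilizer (G ⧸ f.range) v))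
    have h6 : p ≤ Nat.card V := hn ▸ Nat.le_self_pow hn0 p
    have h7 := hp.out.two_le
    omega

variable {p : ℕ} [hp : Fact p.Prime] {M : Ideal AlgInt} {B : Set (IrrCharacter G)}
  {D : Subgroup G}

/-- The characters of a block of `C_G(D)` with defect group `D`, indexed by the dual of `D`. -/
theorem exists_param (hM : IsPModular p M) [D.Normal] [IsMulCommutative D]
    {e : Set (IrrCharacter (centralizer (D : Set G)))} (he : IsPBlock M e)
    (hD : IsDefectGroup p M e (D.comap (centralizer (D : Set G)).subtype)) :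
    ∃ η : LinC D.subtype → IrrCharacter (centralizer (D : Set G)), (∀ x, η x ∈ e) ∧
      Function.Injective η ∧ blockHeight p e (η 1).1 = 0 ∧
      (∀ ψ ∈ e, (∀ u : centralizer (D : Set G), (u : G) ∈ D → ψ u = ψ 1) → ψ = η 1) ∧
      ∀ g ∈ blockStab (centralizer (D : Set G)).subtype e, ∀ x,
        conjAut (centralizer (D : Set G)).subtype g • η x = η (g • x) := by
  let C := centralizer (D : Set G)
  let D' := D.comap C.subtype
  have hG : D' ⊔ centralizer (D' : Set C) = ⊤ := by
    rw [eq_top_iff]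
    exact fun c _ => mem_sup_right fun u hu => Subtype.ext (c.2 u hu)
  obtain ⟨θ, hθ, h0, hker⟩ := hD.exists_canonical hM he hG
  let ι : D' →* D := (C.subtype.comp D'.subtype).codRestrict D fun u => u.2
  choose η hη hf using fun x : LinC D.subtype =>
    hD.exists_mem_isCentralForm hM he hG hθ h0 (IrrCharacter.ofLinear (x.hom.comp ι))
  have hext : ∀ ψ ∈ e, ∀ x : LinC D.subtype, (∀ u : D', ψ u = x.hom (ι u) * θ 1) → ψ = η x := by
    intro ψ hψ x h
    obtain ⟨ζ, hζ⟩ := hD.exists_isCentralForm hM he hG hθ h0 hψ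
    have : ζ.1 = (IrrCharacter.ofLinear (x.hom.comp ι)).1 := funext fun u =>
      mul_right_cancel₀ θ.apply_one_ne_zero ((hζ.apply_mem u).symm.trans (h u))
    exact Subtype.ext ((this ▸ hζ).ext (hf x))
  have h1 : θ = η 1 := hext θ hθ 1 fun u => by simp [hker u u.2]
  refine ⟨η, hη, fun x y h => LinC.ext' fun u => Units.ext ?_, h1 ▸ h0, fun ψ hψ h => ?_,
    fun g hg x => hext _ (mem_blockStab_iff_forall.1 hg _ (hη x)) _ fun u => ?_⟩
  · have h2 := ((hf x).apply_mem ⟨⟨u, le_centralizer D u.2⟩, u.2⟩).symm.trans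
      (h ▸ (hf y).apply_mem ⟨⟨u, le_centralizer D u.2⟩, u.2⟩)
    exact mul_right_cancel₀ θ.apply_one_ne_zero h2
  · rw [← h1]
    exact hD.canonical_unique hM he hG hψ hθ h hker
  · have hu : g⁻¹ * (u : C) * g ∈ D := by
      simpa using ‹D.Normal›.conj_mem _ u.2 g⁻¹
    rw [conjAut_smul_apply_of_eq _ _ (n := ⟨_, le_centralizer D hu⟩) (by simp [mul_assoc])]
    refine ((hf x).apply_mem ⟨⟨_, le_centralizer D hu⟩, hu⟩).trans ?_
    rw [LinC.hom_smul_apply]
    exact congrArg (fun y : D => (x.hom y : ℂ) * θ 1)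
      (Subtype.ext (map_conjAut_inv D.subtype g (ι u)).symm)

theorem card_eq_three_of_normal (hM : IsPModular p M) (hB : IsPBlock M B)
    (hD : IsDefectGroup p M B D) [D.Normal] [IsMulCommutative D] (hk : Nat.card B = 3) :
    Nat.card D = 3 := by
  classical
  have hDc := IsDefectGroup.card_eq hB hM hD
  have hD1 : D ≠ ⊥ := fun h => by
    rw [h, card_bot, eq_comm, Nat.pow_eq_one, hB.blockDefect_eq_zero_iff_card hM] at hDc
    have := hp.out.one_lt
    omega
  obtain ⟨e₀, he₀, hc₀⟩ := hB.exists_covers_below hM (centralizer (D : Set G)).subtype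
  obtain ⟨g₀, -, hDe⟩ := hc₀.exists_isDefectGroup_comap hM hB he₀ hD
  have he := he₀.mulAut_smul (conjAut (centralizer (D : Set G)).subtype g₀)
  have hc := hc₀.smul g₀
  generalize conjAut (centralizer (D : Set G)).subtype g₀ • e₀ = e at hDe he hc
  obtain ⟨η, hη, hinj, h0, hker, hact⟩ := exists_param hM he hDe
  set f := (centralizer (D : Set G)).subtype with hf
  have hfr : f.range = centralizer (D : Set G) := range_subtype _
  have hBe : B = irrOver f e :=
    hc.eq_irrOver hM hB (he.isPBlock_irrOver_of_normal hM hD.isPGroup hfr.ge)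
  have hmem : ∀ {χ : IrrCharacter G} {x}, LiesOver f χ.1 (η x).1 → χ ∈ B := fun h =>
    hBe ▸ ⟨_, hη _, h⟩
  have hconj : ∀ {g x y}, conjAut f g • η x = η y → g ∈ inertia f (η 1) ∧ g • x = y := by
    intro g x y h
    have h1 := he.mem_blockStab_of_mem hM (hη x) (h ▸ hη y)
    exact ⟨mem_inertia.2 (by rw [hact g h1, smul_one]), hinj ((hact g h1 x).symm.trans h)⟩
  have hdisj : ∀ {χ : IrrCharacter G} {x}, x ≠ 1 → LiesOver f χ.1 (η x).1 →
      ¬ LiesOver f χ.1 (η 1).1 := fun hx h h' => by
    obtain ⟨g, hg⟩ := h'.exists_conjAut_smul_eq h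
    exact hx ((hconj hg).2.symm.trans (smul_one g))
  have hV : Nat.card (LinC D.subtype) = Nat.card D := LinC.card_eq_of_comm
  haveI : Nontrivial (LinC D.subtype) := by
    rw [← Finite.one_lt_card_iff_nontrivial, hV]
    exact (one_lt_card_iff_ne_bot D).2 hD1
  obtain ⟨x₀, hx₀⟩ := exists_ne (1 : LinC D.subtype)
  obtain ⟨χ₀, hχ₀⟩ := (η x₀).exists_liesOver_above (f := f) (subtype_injective _)
  obtain ⟨χ₁, hχ₁⟩ := (η 1).exists_liesOver_above (f := f) (subtype_injective _)
  let A : Set (IrrCharacter G) := {χ | LiesOver f χ.1 (η 1).1}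
  have hAB : A ⊆ B := fun χ h => hmem h
  have hsum : A.ncard + (B \ A).ncard = 3 := by
    rw [← hk, add_comm, Set.ncard_diff_add_ncard_of_subset hAB, Nat.card_coe_set_eq]
  have hA0 : 0 < A.ncard := (Set.ncard_pos (Set.toFinite _)).2 ⟨χ₁, hχ₁⟩
  have hA1 : 0 < (B \ A).ncard :=
    (Set.ncard_pos (Set.toFinite _)).2 ⟨χ₀, hmem hχ₀, hdisj hx₀ hχ₀⟩
  by_cases hA : A.ncard = 1
  · have hπ := QuotientGroup.mk'_surjective D
    have hπk : IsPGroup p (QuotientGroup.mk' D).ker := by
      rw [QuotientGroup.ker_mk']; exact hD.isPGroup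
    have hle : (IrrCharacter.inflate _ hπ ⁻¹' B).ncard ≤ 1 := by
      rw [← hA]
      refine Set.ncard_le_ncard_of_injOn (IrrCharacter.inflate _ hπ) (fun β hβ => ?_)
        (IrrCharacter.inflate_injective _ hπ).injOn
      obtain ⟨ψ, hψ, h⟩ : β.inflate _ hπ ∈ irrOver f e := hBe ▸ hβ
      suffices h' : ψ = η 1 from by rw [h'] at h; exact h
      refine hker ψ hψ fun u hu => ψ.mem_charKer.1 ?_
      refine ((β.inflate _ hπ).isCharacter.comp f).charKer_le_of_ip_ne_zero ψ h ?_
      rw [((β.inflate _ hπ).isCharacter.comp f).mem_charKer]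
      change β ((u : G) : G ⧸ D) = β ((1 : G) : G ⧸ D)
      rw [(QuotientGroup.eq_one_iff _).2 hu, QuotientGroup.mk_one]
    obtain ⟨β, hβ⟩ := hB.preimage_inflate_nonempty hM hπ hπk
    have hb : IsPBlock M (IrrCharacter.inflate _ hπ ⁻¹' B) :=
      ((hB.isBlockUnion hM).preimage_inflate hM hπ).isPBlock_of_forall hβ fun ψ hψ => by
        rw [(Set.ncard_le_one (Set.toFinite _)).1 hle ψ hψ β hβ]
        exact mem_blockOf.1 (hM.mem_blockOf_self β)
    have h1 := blockRank_le_card (p := p) (IrrCharacter.inflate _ hπ ⁻¹' B)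
    rw [hB.blockRank_preimage_inflate hM hπ hπk hb, Nat.card_coe_set_eq] at h1
    have h2 := hB.blockRank_pos hM
    rw [(Cfsg.Agent.S4648.result p M hM B hB D hD hD1 (by omega) (by omega)).2.1, hk]
  · obtain ⟨χ₂, hχ₂⟩ := Set.ncard_eq_one.1 (show (B \ A).ncard = 1 by omega)
    have huniq : ∀ {χ : IrrCharacter G} {x}, x ≠ 1 → LiesOver f χ.1 (η x).1 → χ = χ₂ :=
      fun hx h => Set.mem_singleton_iff.1 (hχ₂ ▸ ⟨hmem h, hdisj hx h⟩)
    have hover : ∀ {x}, x ≠ 1 → LiesOver f χ₂.1 (η x).1 := fun {x} hx => by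
      obtain ⟨χ, h⟩ := (η x).exists_liesOver_above (f := f) (subtype_injective _)
      exact huniq hx h ▸ h
    have hj : ∀ n, (inertia f (η 1)).subtype (toInertia f (η 1) n) = f n := fun _ => rfl
    rw [← hV]
    refine core (p := p) (inertia_toInertia f (η 1)) ?_
      ((MulDistribMulAction.toMulAut G _).comp (inertia f (η 1)).subtype) ?_ ?_ ?_ ?_ ?_
    · rw [Nat.card_congr (cliffordEquiv (subtype_injective _) hj (by simp))]
      exact (Nat.card_coe_set_eq A).trans (by omega)
    · ext g
      rw [range_toInertia, mem_subgroupOf, hfr, ← LinC.forall_smul_eq_iff,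
        MonoidHom.mem_ker, MulEquiv.ext_iff]
      rfl
    · exact IsPGroup.of_card (hV.trans hDc)
    · intro hd
      set a := (toInertia f (η 1)).range.index with ha
      have ha' : a = f.range.relIndex (inertia f (η 1)) := by rw [ha, range_toInertia]; rfl
      have ha0 : a ≠ 0 := index_ne_zero_of_finite
      have key : ∀ χ : IrrCharacter G, p ^ a.factorization p ∣ ipNat (χ.1 ∘ f) (η 1).1 := by
        intro χ
        by_cases h : LiesOver f χ.1 (η 1).1
        · have h1 := factorization_charDegree_add_blockDefect (p := p) (hmem h)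
          have h2 := factorization_charDegree_add_blockDefect (p := p) (hη 1)
          have h3 : blockDefect p e = blockDefect p B := by
            refine Nat.pow_right_injective hp.out.two_le ?_
            simp only [← hDc, ← IsDefectGroup.card_eq he hM hDe]
            exact Nat.card_congr (subgroupOfEquivOfLe (le_centralizer D)).toEquiv
          have h4 := (liesOver_iff_ipNat_pos χ.isCharacter (η 1).isCharacter).1 h
          have h5 : (inertia f (η 1)).index ≠ 0 := index_ne_zero_of_finite
          have h6 := card_mul_index f.range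
          rw [index_range_eq_mul f (η 1), ← ha', hfr] at h6
          rw [hD.blockHeight_eq_zero_of_normal_comm hM hB (le_centralizer D) (hmem h),
            h.charDegree_eq, ← h6, Nat.factorization_mul (mul_ne_zero h4.ne' h5)
              (η 1).charDegree_pos.ne', Nat.factorization_mul h4.ne' h5,
            Nat.factorization_mul Nat.card_pos.ne' (mul_ne_zero ha0 h5),
            Nat.factorization_mul ha0 h5] at h1
          simp only [Finsupp.add_apply] at h1
          exact (pow_dvd_pow p (by omega)).trans (Nat.ordProj_dvd _ p)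
        · rw [liesOver_iff_ipNat_pos χ.isCharacter (η 1).isCharacter] at h
          rw [Nat.eq_zero_of_not_pos h]
          exact dvd_zero _
      have h6 : p ^ (2 * a.factorization p) ∣ a := by
        conv_rhs => rw [ha', ← sum_ipNat_comp_sq]
        exact Finset.dvd_sum fun χ _ => by
          rw [mul_comm, pow_mul]; exact pow_dvd_pow_of_dvd (key χ) 2
      have h7 := (hp.out.pow_dvd_iff_le_factorization ha0).1 h6
      have h8 := (hp.out.dvd_iff_one_le_factorization ha0).1 hd
      omega
    · intro x y hx hy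
      obtain ⟨g, hg⟩ := (hover hx).exists_conjAut_smul_eq (hover hy)
      exact ⟨⟨g, (hconj hg).1⟩, (hconj hg).2⟩
    · intro x hx
      refine ⟨η x, fun g => ?_, ?_⟩
      · rw [inertia_of_factor hj, mem_comap, mem_inertia]
        exact ⟨fun h => (hconj h).2, fun h =>
          (hact _ (he.inertia_le_blockStab hM (hη 1) g.2) x).trans (congrArg η h)⟩
      · rw [Nat.card_congr (cliffordEquiv (subtype_injective _) hj
          fun g hg => ⟨⟨g, (hconj (mem_inertia.1 hg)).1⟩, rfl⟩), Nat.card_eq_one_iff_exists]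
        exact ⟨⟨χ₂, hover hx⟩, fun χ => Subtype.ext (huniq hx χ.2)⟩

end Cfsg.ThreeCore
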