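import Cfsg.Agent.S4607
import Cfsg.Agent.Blk.Covering
import Cfsg.Agent.Blk.Principal
import Cfsg.Agent.Char.GoodExt
import Cfsg.Agent.Char.Extend

/-!
# Invariant characters with exactly two irreducible characters above them

If exactly two irreducible characters of `G` lie over the invariant character `θ` of the normal
subgroup `N`, then no odd prime has a nontrivial cyclic Sylow subgroup in `G / N`.
-/

set_option autoImplicit false
set_option linter.unusedSectionVars false

namespace Cfsg.TwoOver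

universe u v w

variable {G : Type u} [Group G] [Finite G] {N : Type v} [Group N] [Finite N]

/-- The coprime case: the characters over `θ` are a union of `r`-blocks. -/
theorem not_dvd_of_coprime {f : N →* G} [IsNormalEmb f] {θ : IrrCharacter N}
    (hT : inertia f θ = ⊤) {r : ℕ} [hr : Fact r.Prime] (hr2 : r ≠ 2) (hN : ¬ r ∣ Nat.card N)
    (h2 : Nat.card {χ : IrrCharacter G // LiesOver f χ.1 θ.1} = 2) : ¬ r ∣ f.range.index := by
  classical
  obtain ⟨M, hM⟩ := exists_isPModular hr.out
  have hA : IsBlockUnion M (irrOver f {θ}) :=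
    ((isPBlock_singleton_of_not_dvd hM hN θ).isBlockUnion hM).irrOver hM f
  have hc : Nat.card (irrOver f {θ}) = 2 := by
    rw [← h2]
    exact Nat.card_congr (Equiv.subtypeEquivRight fun χ => mem_irrOver_singleton)
  set a := (Nat.card G).factorization r with ha
  have key : ∀ χ : IrrCharacter G, r ^ a ∣ ipNat (χ.1 ∘ f) θ.1 := by
    intro χ
    by_cases h : LiesOver f χ.1 θ.1
    · have hB : IsPBlock M (blockOf M χ.1) := ⟨χ, rfl⟩
      have hle : Nat.card (blockOf M χ.1) ≤ 2 := by
        rw [← hc]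
        exact Nat.card_le_card_of_injective _
          (Set.inclusion_injective (hA.blockOf_subset (mem_irrOver_singleton.2 h)))
      have hmem : χ ∈ blockOf M χ.1 := hM.mem_blockOf_self χ
      have hpos : 0 < Nat.card (blockOf M χ.1) := by
        have : Nonempty (blockOf M χ.1) := ⟨⟨χ, hmem⟩⟩
        exact Nat.card_pos
      obtain ⟨D, hD⟩ := hB.exists_isDefectGroup hM
      have hne : Nat.card (blockOf M χ.1) ≠ 2 := fun e => by
        have h3 := (Cfsg.Agent.S4607.result r M hM _ hB D hD).1 e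
        rw [IsDefectGroup.card_eq hB hM hD] at h3
        exact hr2 ((Nat.prime_two.pow_eq_iff).1 h3).1
      have h0 := (hB.blockDefect_eq_zero_iff_card hM).2 (by omega)
      have h4 := factorization_charDegree_add_blockDefect (p := r) hmem
      have h5 : r ^ a ∣ charDegree χ.1 :=
        (pow_dvd_pow r (by omega)).trans (Nat.ordProj_dvd _ r)
      rw [h.charDegree_eq, hT, Subgroup.index_top, mul_one] at h5
      refine Nat.Coprime.dvd_of_dvd_mul_right (Nat.Coprime.pow_left _ ?_) h5
      exact (Nat.Prime.coprime_iff_not_dvd hr.out).2 fun e => hN (e.trans θ.charDegree_dvd_card)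
    · rw [liesOver_iff_ipNat_pos χ.isCharacter θ.isCharacter] at h
      rw [Nat.eq_zero_of_not_pos h]
      exact dvd_zero _
  intro hd
  have h6 : r ^ (2 * a) ∣ Nat.card G := by
    refine Dvd.dvd.trans ?_ f.range.index_dvd_card
    rw [← sum_ipNat_comp_sq_of_inertia_eq_top hT]
    exact Finset.dvd_sum fun χ _ => by rw [mul_comm, pow_mul]; exact pow_dvd_pow_of_dvd (key χ) 2
  have h7 := (hr.out.pow_dvd_iff_le_factorization Nat.card_pos.ne').1 h6
  have h8 := (hr.out.dvd_iff_one_le_factorization Nat.card_pos.ne').1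
    (hd.trans f.range.index_dvd_card)
  omega

theorem card_liesOver_smul (f : N →* G) (τ : G →* ℂˣ) (θ : IrrCharacter N) :
    Nat.card {χ : IrrCharacter G // LiesOver f χ.1 (τ.comp f • θ).1} =
      Nat.card {χ : IrrCharacter G // LiesOver f χ.1 θ.1} := by
  refine (Nat.card_congr (Equiv.subtypeEquiv (MulAction.toPerm τ) fun χ => ?_)).symm
  have := ip_linear_mul_linear_mul (τ.comp f) (χ.1 ∘ f) θ.1
  unfold LiesOver
  rw [← this]
  rfl

/-- The central case. -/
theorem not_dvd_of_central {f : N →* G} [IsNormalEmb f] (hc : f.range ≤ Subgroup.center G)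
    (μ : N →* ℂˣ) {r : ℕ} [hr : Fact r.Prime] (hr2 : r ≠ 2) {n : ℕ} (hn : ¬ r ∣ n)
    (hμ : μ ^ n = 1) (h2 : Nat.card {χ : IrrCharacter G // LiesOver f χ.1 fun x => (μ x : ℂ)} = 2) :
    ¬ r ∣ f.range.index := by
  let K : Subgroup G := μ.ker.map f
  have hK : K ≤ Subgroup.center G := (Subgroup.map_le_range _ _).trans hc
  haveI : K.Normal := ⟨fun x hx g => by
    rwa [Subgroup.mem_center_iff.1 (hK hx) g, mul_inv_cancel_right]⟩
  let f' : N ⧸ μ.ker →* G ⧸ K := QuotientGroup.map _ _ f (Subgroup.le_comap_map _ _)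
  have hf' : ∀ x : N, f' (x : N ⧸ μ.ker) = (f x : G ⧸ K) := fun _ => rfl
  have hr' : f'.range = f.range.map (QuotientGroup.mk' K) := by
    ext y
    constructor
    · rintro ⟨x, rfl⟩
      obtain ⟨x, rfl⟩ := QuotientGroup.mk_surjective x
      exact ⟨f x, ⟨x, rfl⟩, rfl⟩
    · rintro ⟨_, ⟨x, rfl⟩, rfl⟩
      exact ⟨x, rfl⟩
  have hc' : f'.range ≤ Subgroup.center (G ⧸ K) := by
    rw [hr']
    rintro _ ⟨x, hx, rfl⟩
    rw [Subgroup.mem_center_iff]
    intro y
    obtain ⟨y, rfl⟩ := QuotientGroup.mk'_surjective K y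
    rw [← map_mul, ← map_mul, Subgroup.mem_center_iff.1 (hc hx) y]
  haveI : IsNormalEmb f' :=
    { injective := by
        rw [injective_iff_map_eq_one]
        intro x hx
        obtain ⟨x, rfl⟩ := QuotientGroup.mk_surjective x
        rw [hf', QuotientGroup.eq_one_iff] at hx
        obtain ⟨y, hy, e⟩ := hx
        rw [QuotientGroup.eq_one_iff, ← IsNormalEmb.injective (f := f) e]
        exact hy
      normal_range := ⟨fun x hx g => by
        rwa [Subgroup.mem_center_iff.1 (hc' hx) g, mul_inv_cancel_right]⟩ }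
  let μ' : N ⧸ μ.ker →* ℂˣ := QuotientGroup.kerLift μ
  let θ' : IrrCharacter (N ⧸ μ.ker) := ⟨fun x => (μ' x : ℂ), isIrrCharacter_of_monoidHom _⟩
  have hidx : f'.range.index = f.range.index := by
    rw [hr', Subgroup.index_map_eq _ (QuotientGroup.mk'_surjective K)]
    rw [QuotientGroup.ker_mk']
    exact Subgroup.map_le_range _ _
  rw [← hidx]
  refine not_dvd_of_coprime (θ := θ') (inertia_eq_top_of_range_le_center hc' θ') hr2 ?_ ?_
  · intro hd
    obtain ⟨x, hx⟩ := exists_prime_orderOf_dvd_card' r hd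
    refine hn ?_
    rw [← hx, orderOf_dvd_iff_pow_eq_one]
    refine QuotientGroup.kerLift_injective μ ?_
    obtain ⟨y, rfl⟩ := QuotientGroup.mk_surjective x
    rw [map_pow, map_one, QuotientGroup.kerLift_mk]
    exact congrArg (fun ν : N →* ℂˣ => ν y) hμ
  · rw [← h2]
    have hrel : ∀ β : IrrCharacter (G ⧸ K), LiesOver f' β.1 θ'.1 ↔
        LiesOver f (β.inflate _ (QuotientGroup.mk'_surjective K)).1 fun x => (μ x : ℂ) := fun β =>
      (liesOver_comp_iff_of_comm (f := f) (f' := f') (a := QuotientGroup.mk' μ.ker)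
        (QuotientGroup.mk'_surjective _) (b := QuotientGroup.mk' K) (fun _ => rfl) β.1 θ'.1).symm
    refine Nat.card_congr (Equiv.ofBijective (fun β => ⟨_, (hrel β.1).1 β.2⟩) ⟨fun β β' e => ?_,
      fun χ => ?_⟩)
    · exact Subtype.ext (IrrCharacter.inflate_injective _ (QuotientGroup.mk'_surjective K)
        (congrArg Subtype.val e))
    · obtain ⟨β, hβ⟩ := χ.1.exists_inflate_eq _ (QuotientGroup.mk'_surjective K) (by
        rw [QuotientGroup.ker_mk']
        rintro _ ⟨x, hx, rfl⟩
        have := χ.2.apply_mul_of_central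
          (fun x g => (Subgroup.mem_center_iff.1 (hc ⟨x, rfl⟩) g).symm) x 1
        rwa [mul_one, show μ x = 1 from hx, Units.val_one, one_mul] at this)
      exact ⟨⟨β, (hrel β).2 (hβ ▸ χ.2)⟩, Subtype.ext hβ⟩

/-- Exactly two characters over an invariant character: no odd prime has a nontrivial cyclic Sylow
subgroup in the factor group. -/
theorem not_dvd_of_isCyclic {f : N →* G} [IsNormalEmb f] {θ : IrrCharacter N}
    (hT : inertia f θ = ⊤) {r : ℕ} [hr : Fact r.Prime] (hr2 : r ≠ 2)
    (P : Sylow r (G ⧸ f.range)) [IsCyclic P]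
    (h2 : Nat.card {χ : IrrCharacter G // LiesOver f χ.1 θ.1} = 2) : ¬ r ∣ f.range.index := by
  obtain ⟨c⟩ := nonempty_charCover hT
  let H := (P : Subgroup (G ⧸ f.range)).comap (QuotientGroup.mk' f.range)
  have hobs : ¬ r ∣ c.obs := by
    have hj : ∀ n, H.subtype (f.codRestrict H (mem_comap_mk'_range _) n) = f n := fun _ => rfl
    have h1 := c.obs_dvd_index_of_extends H.subtype_injective hj
      (exists_extension_of_isCyclic (by rw [inertia_of_factor hj, hT, Subgroup.comap_top])
        (isCyclic_quotient_codRestrict _))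
    rw [Subgroup.range_subtype, Subgroup.index_comap_of_surjective _
      (QuotientGroup.mk'_surjective _)] at h1
    exact fun e => P.not_dvd_index (e.trans h1)
  obtain ⟨τ, hτ⟩ := c.obs_dvd_iff.1 dvd_rfl
  set n := Nat.card c.π.ker with hn
  have hn0 : n ≠ 0 := Nat.card_pos.ne'
  obtain ⟨t, -, ht⟩ := Nat.exists_mul_mod_eq_of_coprime 1
    (((Nat.Prime.coprime_iff_not_dvd hr.out).2 hobs).symm.pow_right (n.factorization r))
    (pow_ne_zero _ hr.out.ne_zero)
  rw [← c.index_zEmb_range]
  refine not_dvd_of_central c.zEmb_range_le_center ((τ ^ t).comp c.zEmb * c.lam⁻¹) hr2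
    (n := ordCompl[r] n) (Nat.not_dvd_ordCompl hr.out hn0) ?_ ?_
  · refine MonoidHom.ext fun z => ?_
    have h3 : c.lam z ^ n = 1 := by rw [← map_pow, pow_card_eq_one', map_one]
    have h4 : (c.lam z ^ ordCompl[r] n) ^ ordProj[r] n = 1 := by
      rw [← pow_mul, mul_comm, Nat.ordProj_mul_ordCompl_eq_self, h3]
    have h5 : (c.lam z ^ ordCompl[r] n) ^ (c.obs * t) = (c.lam z ^ ordCompl[r] n) ^ 1 :=
      pow_eq_pow_of_modEq ht h4
    simp only [MonoidHom.pow_apply, MonoidHom.mul_apply, MonoidHom.comp_apply, hτ,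
      MonoidHom.inv_apply, MonoidHom.one_apply, mul_pow, inv_pow]
    rw [← pow_mul (c.lam z) c.obs, pow_right_comm, h5, pow_one, mul_inv_cancel]
  · rw [← h2, Nat.card_congr c.irrEquiv, ← card_liesOver_smul c.zEmb (τ ^ t) c.lamInv]
    rfl

end Cfsg.TwoOver
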